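import Cfsg.Agent.H11.SimDSpec

/-! S3694 (tower SIM), chapter D: slot D6L. -/

set_option autoImplicit false

namespace H52.SimD6L

open Subgroup Cfsg H98 Matrix H0.Sim H11.SimD

theorem rk1 {n : ℕ} {F : Type} [Field F] (w : Fin n → F) (φ : (Fin n → F) →ₗ[F] F) :
    ∃ m : Mt n F, ∀ x, m *ᵥ x = φ x • w :=
  ⟨LinearMap.toMatrix' (φ.smulRight w), fun x => by
    rw [← Matrix.toLin'_apply, Matrix.toLin'_toMatrix', LinearMap.smulRight_apply]⟩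

theorem cj_app {n : ℕ} {F : Type} [Field F] (s : GL (Fin n) F) (m : Mt n F) (x : Fin n → F) :
    ((s : Mt n F) * m * ((s⁻¹ : GL (Fin n) F) : Mt n F)) *ᵥ x =
      (s : Mt n F) *ᵥ (m *ᵥ (((s⁻¹ : GL (Fin n) F) : Mt n F) *ᵥ x)) := by
  rw [mulVec_mulVec, mulVec_mulVec]

theorem jobD_D6L : H11.SimD.JobD6L := by
  intro ta lt n F _ _ q Θ H Q E g W₁ W₂ c e1 e2 ha
  obtain ⟨-, l2, l3⟩ := lt n F q
  have n1 := c.bs.n1
  have n2 := c.bs.n2
  have le := c.bs.le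
  have t1 : W₁ ≠ ⊤ := fun e => n2 (top_le_iff.1 (e ▸ le))
  have b2 : W₂ ≠ ⊥ := fun e => n1 (le_bot_iff.1 (e ▸ le))
  have tw : ∀ j ∈ Θ, tau j W₁ = W₁ ∧ tau j W₂ = W₂ := fun j hj => by
    obtain ⟨h1, h2⟩ := (ta n F j (ha j hj)).1 (mat E)
    rw [th_image c.cf.ivE hj, e1] at h1
    rw [th_image c.cf.ivE hj, e2] at h2
    exact ⟨h1.symm, h2.symm⟩
  obtain ⟨w, hw, w0⟩ := (Submodule.ne_bot_iff _).1 n1
  constructor
  · intro hg
    have st : ∀ s : GL (Fin n) F, St s {m : Mt n F | ∀ x, m *ᵥ x ∈ W₁} ↔ Sb s W₁ := fun s => by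
      refine ⟨fun h v hv => ?_, fun h m hm x => ?_⟩
      · obtain ⟨φ, p1, -⟩ := l2 ⊥ w (by simpa using w0)
        obtain ⟨m, hm⟩ := rk1 v φ
        have := h m (fun x => by rw [hm]; exact W₁.smul_mem _ hv) ((s : Mt n F) *ᵥ w)
        rwa [cj_app, inv_mulVec, hm, p1, one_smul] at this
      · rw [cj_app]
        exact h _ (hm _)
    obtain ⟨s, hs, ns⟩ := l3 W₁ n1 t1
    refine not_mem c.cf (c.cf.mp {m : Mt n F | ∀ x, m *ᵥ x ∈ W₁} (fun j hj m hm x => ?_)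
      ⟨s, hs, fun h => ns ((st s).1 h)⟩ g c.cf.gS ((st g).2 (sb_of_eq hg)))
    rw [← (tw j hj).1]
    exact ((ta n F j (ha j hj)).2.2 m W₁).1 hm x
  · intro hg
    have st : ∀ s : GL (Fin n) F, St s {m : Mt n F | ∀ x ∈ W₂, m *ᵥ x = 0} ↔ Sb s W₂ := fun s => by
      refine ⟨fun h => ?_, fun h m hm x hx => ?_⟩
      · have : Sb s⁻¹ W₂ := fun v hv => by
          by_contra hn
          obtain ⟨φ, p1, p2⟩ := l2 W₂ _ hn
          obtain ⟨m, hm⟩ := rk1 w φ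
          have := h m (fun x hx => by rw [hm, p2 x hx, zero_smul]) v hv
          rw [cj_app, hm, p1, one_smul] at this
          exact w0 (by rw [← inv_mulVec s w, this, mulVec_zero])
        simpa using this.inv
      · rw [cj_app, hm _ (h.inv x hx), mulVec_zero]
    obtain ⟨s, hs, ns⟩ := l3 W₂ b2 n2
    refine not_mem c.cf (c.cf.mp {m : Mt n F | ∀ x ∈ W₂, m *ᵥ x = 0} (fun j hj m hm x hx => ?_)
      ⟨s, hs, fun h => ns ((st s).1 h)⟩ g c.cf.gS ((st g).2 (sb_of_eq hg)))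
    rw [← (tw j hj).2] at hx
    exact ((ta n F j (ha j hj)).2.2 m W₂).2 hm x hx

end H52.SimD6L
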