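import Mathlib
import Cfsg.Agent.Base
import Cfsg.Prelude.Def_Classical
import Cfsg.Prelude.Def_Sz
import Cfsg.Prelude.Def_CaseTheorems
import Cfsg.Prelude.Def_Local

/-! Tower RC (S3860): real classes with constant 2-part. Proofs: blueprints/RC.md. -/

set_option autoImplicit false

namespace H52.RC
open Subgroup
universe u

section defs
variable {G : Type u} [Group G]

/-- 2-element -/
def P2 (x : G) : Prop := ∃ k : ℕ, x ^ 2 ^ k = 1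
/-- `g` inverts `x` -/
def Inv (g x : G) : Prop := g * x * g⁻¹ = x⁻¹
/-- real element -/
def Re (x : G) : Prop := ∃ g : G, Inv g x
/-- exponent of 2 in the order -/
noncomputable def v2 (K : Subgroup G) : ℕ := (Nat.card K).factorization 2
/-- centraliser of an element -/
abbrev C1 (x : G) : Subgroup G := centralizer ({x} : Set G)

theorem mem_C1 {g x : G} : g ∈ C1 x ↔ Commute g x := by
  rw [C1, mem_centralizer_singleton_iff]; rfl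

/-- extended centraliser -/
def Cs (x : G) : Subgroup G where
  carrier := {g | g * x * g⁻¹ = x ∨ g * x * g⁻¹ = x⁻¹}
  one_mem' := by simp
  mul_mem' := by
    intro g h hg hh
    have e : g * h * x * (g * h)⁻¹ = g * (h * x * h⁻¹) * g⁻¹ := by group
    have e2 : g * x⁻¹ * g⁻¹ = (g * x * g⁻¹)⁻¹ := by group
    simp only [Set.mem_ofPred_eq] at *
    rcases hg with hg | hg <;> rcases hh with hh | hh <;> rw [e, hh]
    · exact Or.inl hg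
    · rw [e2, hg]; exact Or.inr rfl
    · exact Or.inr hg
    · rw [e2, hg, inv_inv]; exact Or.inl rfl
  inv_mem' := by
    intro g hg
    simp only [Set.mem_ofPred_eq] at *
    rcases hg with hg | hg
    · left
      calc g⁻¹ * x * g⁻¹⁻¹ = g⁻¹ * (g * x * g⁻¹) * g := by rw [hg, inv_inv]
        _ = x := by group
    · right
      have : x = g * x⁻¹ * g⁻¹ := by
        calc x = (g * x * g⁻¹)⁻¹ := by rw [hg, inv_inv]
          _ = g * x⁻¹ * g⁻¹ := by group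
      calc g⁻¹ * x * g⁻¹⁻¹ = g⁻¹ * (g * x⁻¹ * g⁻¹) * g := by rw [← this, inv_inv]
        _ = x⁻¹ := by group

theorem mem_Cs {g x : G} : g ∈ Cs x ↔ g * x * g⁻¹ = x ∨ Inv g x := Iff.rfl

/-- The hypothesis: non-central real elements have centralisers with 2-part `2 ^ m`. -/
def H (G : Type u) [Group G] (m : ℕ) : Prop :=
  ∀ x : G, Re x → x ∉ center G → v2 (C1 x) = m
/-- 2-closed: the 2-elements of `K` form a subgroup -/
def Cl (K : Subgroup G) : Prop :=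
  ∃ T : Subgroup G, T ≤ K ∧ IsPGroup 2 T ∧ ∀ x ∈ K, P2 x → x ∈ T
/-- no nontrivial element of odd order is real in `K` -/
def NRO (K : Subgroup G) : Prop :=
  ∀ x ∈ K, ∀ g ∈ K, Odd (orderOf x) → Inv g x → x = 1
/-- quasisimple with centre a 2-group -/
def QS (X : Type u) [Group X] : Prop := Cfsg.IsQuasisimple X ∧ IsPGroup 2 (center X)
/-- the centre of `L` as a subgroup of `G` -/
abbrev Zc (L : Subgroup G) : Subgroup G := L ⊓ centralizer (L : Set G)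

instance zcNormal (L : Subgroup G) [hL : L.Normal] : (Zc L).Normal := by
  unfold Zc; infer_instance

/-- centraliser of `v` modulo `Zc L` -/
def Ct (L : Subgroup G) [L.Normal] (v : G) : Subgroup G where
  carrier := {g | g * v * g⁻¹ * v⁻¹ ∈ Zc L}
  one_mem' := by simp
  mul_mem' := by
    intro g h hg hh
    simp only [Set.mem_ofPred_eq] at *
    have e : g * h * v * (g * h)⁻¹ * v⁻¹
        = (g * (h * v * h⁻¹ * v⁻¹) * g⁻¹) * (g * v * g⁻¹ * v⁻¹) := by group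
    rw [e]; exact mul_mem ((zcNormal L).conj_mem _ hh g) hg
  inv_mem' := by
    intro g hg
    simp only [Set.mem_ofPred_eq] at *
    have e : g⁻¹ * v * g⁻¹⁻¹ * v⁻¹ = g⁻¹ * (g * v * g⁻¹ * v⁻¹)⁻¹ * g⁻¹⁻¹ := by group
    rw [e]; exact (zcNormal L).conj_mem _ (inv_mem hg) g⁻¹

theorem mem_Ct {L : Subgroup G} [L.Normal] {g v : G} :
    g ∈ Ct L v ↔ g * v * g⁻¹ * v⁻¹ ∈ Zc L := Iff.rfl

/-- `Q` is a Sylow 2-subgroup of `L` -/
def SylL (L Q : Subgroup G) : Prop := Q ≤ L ∧ IsPGroup 2 Q ∧ Odd (Q.relIndex L)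
/-- good element: real in `L`, an involution modulo `Zc L` -/
def RG (L : Subgroup G) (v : G) : Prop :=
  v ∈ L ∧ v ∉ Zc L ∧ v ^ 2 ∈ Zc L ∧ ∃ g ∈ L, Inv g v
/-- strongly good element -/
def SG (L : Subgroup G) (v : G) : Prop :=
  v ∈ L ∧ v ∉ Zc L ∧ v ^ 2 ∈ Zc L ∧ ∃ g ∈ L, g ^ 2 ∈ Zc L ∧ Inv g v

theorem SG.rg {L : Subgroup G} {v : G} (h : SG L v) : RG L v :=
  ⟨h.1, h.2.1, h.2.2.1, let ⟨g, hg, _, hi⟩ := h.2.2.2; ⟨g, hg, hi⟩⟩

/-- `v` has at most one other conjugate under `Ct L v` -/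
def Two (L : Subgroup G) [L.Normal] (v : G) : Prop :=
  ∀ g ∈ Ct L v, ∀ h ∈ Ct L v, g * v * g⁻¹ ≠ v → h * v * h⁻¹ ≠ v → g * v * g⁻¹ = h * v * h⁻¹
/-- `y` has odd order and centralises every 2-element of `C(v)` -/
def Wv (v y : G) : Prop := Odd (orderOf y) ∧ ∀ t : G, P2 t → Commute t v → Commute t y
/-- `T` is a Sylow 2-subgroup of the extended centraliser of `x` -/
def XS (m : ℕ) (x : G) (T : Subgroup G) : Prop :=
  T ≤ Cs x ∧ IsPGroup 2 T ∧ Nat.card T = 2 ^ (m + 1) ∧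
    Nat.card (T ⊓ C1 x : Subgroup G) = 2 ^ m ∧ ∃ s ∈ T, Inv s x
/-- the standing situation -/
def St (m : ℕ) (L : Subgroup G) : Prop := H G m ∧ QS L
/-- no good element commutes with both -/
def NG (L : Subgroup G) (a b : G) : Prop := ∀ d : G, RG L d → Commute d a → Commute d b → False
/-- powers keep the 2-part of the centraliser -/
def F4 (L : Subgroup G) : Prop :=
  ∀ g ∈ L, P2 g → Re g → ∀ k : ℕ, RG L (g ^ k) → ∀ t : G, P2 t → Commute t (g ^ k) → Commute t g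
/-- a good element moved modulo the centre is 2-central modulo the centre -/
def F5 (L : Subgroup G) [L.Normal] : Prop :=
  ∀ v : G, RG L v → (∃ g ∈ Ct L v, g * v * g⁻¹ ≠ v) → ∀ R : Subgroup G, IsPGroup 2 R →
    R ≤ L → R ≤ Ct L v → ∃ Q : Subgroup G, SylL L Q ∧ R ≤ Q ∧ Q ≤ Ct L v

/-- configuration of the case `a = 1` -/
structure BC (L : Subgroup G) [L.Normal] (P : Subgroup G) (v x : G) : Prop where
  p2 : IsPGroup 2 P
  syl : SylL L (P ⊓ L)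
  vP : v ∈ P
  cen : P ≤ Ct L v
  rg : RG L v
  xL : x ∈ L
  x1 : x ≠ 1
  wv : Wv v x
  inv : ∀ p ∈ P, ¬ Commute p v → Inv p x
  ex : ∃ s ∈ P, s ∈ L ∧ Inv s x

/-- configuration of chapter D; `T = Q ⊓ C1 a`, `D = T ⊓ C1 b`, `z = a ^ 2` -/
structure DC (L : Subgroup G) [L.Normal] (Q : Subgroup G) (a b : G) : Prop where
  qs : QS L
  two : ∀ v : G, RG L v → Two L v
  f4 : F4 L
  syl : SylL L Q
  ha : RG L a
  hb : RG L b
  aQ : a ∈ Q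
  bQ : b ∈ Q
  a2 : a ^ 2 ≠ 1
  ba : Inv b a
  cen : Q ≤ Ct L a
  ng : NG L a b

/-- `Q` is dihedral modulo the centre, by generators -/
def Dih (L Q : Subgroup G) : Prop :=
  ∃ t ∈ Q, ∃ b ∈ Q, t ∉ Zc L ∧ b ^ 2 ∈ Zc L ∧ b * t * b⁻¹ * t ∈ Zc L ∧
    (∀ i : ℤ, b * t ^ i ∉ Zc L) ∧ ∀ q ∈ Q, ∃ i : ℤ, q * t ^ i ∈ Zc L ∨ q * t ^ i * b ∈ Zc L

theorem mem_Zc {L : Subgroup G} {z : G} : z ∈ Zc L ↔ z ∈ L ∧ ∀ g ∈ L, Commute g z := by
  rw [Zc, mem_inf, mem_centralizer_iff]; rfl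

theorem mem_center_iff_Zc {L : Subgroup G} {z : L} : z ∈ center L ↔ (z : G) ∈ Zc L := by
  rw [mem_center_iff, mem_Zc]
  exact ⟨fun h => ⟨z.2, fun g hg => congrArg Subtype.val (h ⟨g, hg⟩)⟩,
    fun h g => Subtype.ext (h.2 g g.2)⟩

theorem mk_eq_one_iff {L : Subgroup G} {z : L} :
    (QuotientGroup.mk z : L ⧸ center L) = 1 ↔ (z : G) ∈ Zc L := by
  rw [QuotientGroup.eq_one_iff, mem_center_iff_Zc]

theorem map_center (L : Subgroup G) : (center L).map L.subtype = Zc L := by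
  ext z
  constructor
  · rintro ⟨y, hy, rfl⟩; exact mem_center_iff_Zc.1 hy
  · intro hz; exact ⟨⟨z, hz.1⟩, mem_center_iff_Zc.2 hz, rfl⟩

theorem card_Zc (L : Subgroup G) : Nat.card (Zc L) = Nat.card (center L) := by
  rw [← map_center, card_map_of_injective L.subtype_injective]

theorem QS.zc {L : Subgroup G} (h : QS L) : IsPGroup 2 (Zc L) := by
  rw [← map_center]; exact h.2.map _

/-- equal squares give a real element -/
theorem inv_of_sq {a b : G} (h : a ^ 2 = b ^ 2) : Inv a (a⁻¹ * b) := by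
  unfold Inv
  have : b * a⁻¹ = b⁻¹ * a := by
    calc b * a⁻¹ = b⁻¹ * b ^ 2 * a⁻¹ := by rw [pow_two]; group
      _ = b⁻¹ * a := by rw [← h, pow_two]; group
  calc a * (a⁻¹ * b) * a⁻¹ = b * a⁻¹ := by group
    _ = (a⁻¹ * b)⁻¹ := by rw [this]; group

theorem Inv.pow {g x : G} (h : Inv g x) (k : ℕ) : Inv g (x ^ k) := by
  unfold Inv at *
  rw [← conj_pow, h, inv_pow]

theorem P2.pow {x : G} (h : P2 x) (k : ℕ) : P2 (x ^ k) := by
  obtain ⟨n, hn⟩ := h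
  exact ⟨n, by rw [← pow_mul, mul_comm, pow_mul, hn, one_pow]⟩

theorem P2.conj {x : G} (h : P2 x) (g : G) : P2 (g * x * g⁻¹) := by
  obtain ⟨n, hn⟩ := h
  exact ⟨n, by rw [conj_pow, hn]; group⟩

theorem eq_one_of_P2 {x : G} (h : P2 x) (ho : Odd (orderOf x)) : x = 1 := by
  obtain ⟨n, hn⟩ := h
  have h1 := orderOf_dvd_of_pow_eq_one hn
  have h2 : Nat.Coprime (orderOf x) (2 ^ n) := (Nat.coprime_two_right.2 ho).pow_right n
  exact orderOf_eq_one_iff.1 (Nat.Coprime.eq_one_of_dvd h2 h1)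

theorem eq_one_of_inv_comm {g x : G} (h : Inv g x) (hc : Commute g x) (ho : Odd (orderOf x)) :
    x = 1 := by
  apply eq_one_of_P2 ⟨1, _⟩ ho
  have : x = x⁻¹ := by rw [← h, hc.eq]; group
  rw [pow_one, pow_two]; nth_rewrite 1 [this]; group

theorem RG.conj {L : Subgroup G} {v g : G} (h : RG L v) (hg : g ∈ L) : RG L (g * v * g⁻¹) := by
  obtain ⟨h1, h2, h3, s, hs, hi⟩ := h
  refine ⟨mul_mem (mul_mem hg h1) (inv_mem hg), fun hz => h2 ?_, ?_,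
    g * s * g⁻¹, mul_mem (mul_mem hg hs) (inv_mem hg), ?_⟩
  · have := ((mem_Zc.1 hz).2 g hg).eq
    have e : g * v * g⁻¹ = v := by
      calc g * v * g⁻¹ = g⁻¹ * (g * (g * v * g⁻¹)) := by group
        _ = v := by rw [this]; group
    rwa [e] at hz
  · have := ((mem_Zc.1 h3).2 g hg).eq
    rw [conj_pow, this]; simpa using h3
  · unfold Inv at *
    calc g * s * g⁻¹ * (g * v * g⁻¹) * (g * s * g⁻¹)⁻¹ = g * (s * v * s⁻¹) * g⁻¹ := by group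
      _ = (g * v * g⁻¹)⁻¹ := by rw [hi]; group

end defs

/-- a real element of odd order with centraliser of odd order -/
def ROC (S : Type u) [Group S] : Prop :=
  ∃ x : S, x ≠ 1 ∧ Odd (orderOf x) ∧ Re x ∧ Odd (Nat.card (C1 x))
/-- Baumann's list -/
def Lst (S : Type u) [Group S] : Prop :=
  (∃ (F : Type) (_ : Field F) (_ : Fintype F) (n : ℕ), 2 ≤ n ∧ Fintype.card F = 2 ^ n ∧
      (Nonempty (S ≃* Matrix.ProjectiveSpecialLinearGroup (Fin 2) F) ∨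
        Nonempty (S ≃* Matrix.ProjectiveSpecialLinearGroup (Fin 3) F) ∨
        Nonempty (S ≃* Cfsg.PSp 2 F))) ∨
    Cfsg.Lie.IsoSuzuki S ∨
    (∃ (F : Type) (_ : Field F) (_ : Fintype F) (n : ℕ), 2 ≤ n ∧ Fintype.card F = (2 ^ n) ^ 2 ∧
      Nonempty (S ≃* Cfsg.PSU 3 F (2 ^ n))) ∨
    (∃ (F : Type) (_ : Field F) (_ : Fintype F) (n : ℕ), 3 < Fintype.card F ∧
      (Fintype.card F = 2 ^ n + 1 ∨ Fintype.card F + 1 = 2 ^ n) ∧
      Nonempty (S ≃* Matrix.ProjectiveSpecialLinearGroup (Fin 2) F))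
def E1 (S : Type u) [Group S] : Prop :=
  ∃ (F : Type) (_ : Field F) (_ : Fintype F), Odd (Fintype.card F) ∧ 3 < Fintype.card F ∧
    Nonempty (S ≃* Matrix.ProjectiveSpecialLinearGroup (Fin 2) F)
def E2 (S : Type u) [Group S] : Prop :=
  ∃ (F : Type) (_ : Field F) (_ : Fintype F), Fintype.card F = 4 ∧
    Nonempty (S ≃* Matrix.ProjectiveSpecialLinearGroup (Fin 3) F)
def E3 (S : Type u) [Group S] : Prop :=
  ∃ (F : Type) (_ : Field F) (_ : Fintype F), Fintype.card F = 8 ∧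
    Nonempty (S ≃* Cfsg.Lie.Sz F 4)
def EA (S : Type u) [Group S] (n : ℕ) : Prop := Nonempty (S ≃* alternatingGroup (Fin n))

/-! ### Kit -/

def KA : Prop := ∀ (G : Type u) [Group G] [Finite G],
  (∀ K : Subgroup G, NRO K ↔ Cl K) ∧
  (∀ g : G, ∃ k : ℕ, Odd k ∧ P2 (g ^ k) ∧ ∀ x : G, Inv g x → Inv (g ^ k) x) ∧
  (∀ w : G, ∃ i j : ℕ, P2 (w ^ i) ∧ Odd (orderOf (w ^ j)) ∧ w ^ i * w ^ j = w) ∧
  (∀ (Z : Subgroup G) (g : G), P2 g → g ∉ Z → ∃ k : ℕ, g ^ 2 ^ k ∉ Z ∧ (g ^ 2 ^ k) ^ 2 ∈ Z) ∧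
  (∀ R : Subgroup G, IsPGroup 2 R ↔ ∀ g ∈ R, P2 g) ∧
  (∀ (P R : Subgroup G), IsPGroup 2 P → R ≤ P → R ≠ P →
    ∃ g ∈ P, g ∉ R ∧ g ^ 2 ∈ R ∧ g ∈ normalizer (R : Set G)) ∧
  (∀ (K R : Subgroup G), IsPGroup 2 R → R ≤ K →
    ∃ P : Subgroup G, R ≤ P ∧ SylL K P ∧ Nat.card P = 2 ^ v2 K) ∧
  (∀ (K P : Subgroup G), SylL K P → Nat.card P = 2 ^ v2 K ∧
    (∀ N : Subgroup G, K ≤ normalizer (N : Set G) → N ≤ K → SylL N (P ⊓ N)) ∧
    ∀ R : Subgroup G, IsPGroup 2 R → R ≤ K → ∃ k ∈ K, ∀ r ∈ R, k * r * k⁻¹ ∈ P) ∧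
  (∀ (K R : Subgroup G), IsPGroup 2 R → R ≤ K → Nat.card R ≤ 2 ^ v2 K ∧
    (Nat.card R = 2 ^ v2 K → SylL K R))

def KB : Prop := ∀ (G : Type u) [Group G] [Finite G] (m : ℕ), H G m →
  ∀ x : G, Odd (orderOf x) → x ≠ 1 → Re x → x ∉ center G ∧ v2 (C1 x) = m ∧ v2 (Cs x) = m + 1 ∧
    ∀ R : Subgroup G, IsPGroup 2 R → R ≤ Cs x → ∃ T : Subgroup G, R ≤ T ∧ XS m x T

def KW : Prop := ∀ (G : Type u) [Group G] [Finite G] (T : Subgroup G), IsPGroup 2 T →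
  (∀ t ∈ centralizer (T : Set G), P2 t → t ∈ T) →
  ∃ B : Subgroup G, Odd (Nat.card B) ∧
    ∀ y : G, y ∈ B ↔ Odd (orderOf y) ∧ y ∈ centralizer (T : Set G)

def ZS : Prop := ∀ (G : Type u) [Group G] [Finite G] (L Q : Subgroup G), QS L → SylL L Q →
  Zc L ≤ Q ∧ ¬ Q ≤ Zc L ∧ IsPGroup 2 (Zc L) ∧
  ∀ d ∈ Q, d ∉ Zc L → d ^ 2 ∈ Zc L → ∃ h ∈ L, h * d * h⁻¹ ∈ Q ∧ d⁻¹ * (h * d * h⁻¹) ∉ Zc L

def EX : Prop := ∀ (G : Type u) [Group G] [Finite G] (L : Subgroup G), QS L →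
  (∃ x ∈ L, x ≠ 1 ∧ Odd (orderOf x) ∧ ∃ g ∈ L, Inv g x) ∧
  ∀ Q : Subgroup G, SylL L Q → ∃ v ∈ Q, SG L v

def LC : Prop := ∀ (G : Type u) [Group G] [Finite G] (m : ℕ), H G m →
  (∀ v y g : G, P2 v → v ∉ center G → Odd (orderOf y) → y ≠ 1 → Commute v y → Inv g v →
    Inv g y → v2 (C1 v ⊓ C1 y) = m ∧ ∀ s : G, Commute s v → ¬ Inv s y) ∧
  ∀ i : G, i ^ 2 = 1 → i ∉ center G → NRO (C1 i)

def LX : Prop := ∀ (G : Type u) [Group G] [Finite G] (m : ℕ), H G m →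
  ∀ (x : G) (T Q : Subgroup G), Odd (orderOf x) → x ≠ 1 → XS m x T → IsPGroup 2 Q →
    x ∈ normalizer (Q : Set G) → T ≤ normalizer (Q : Set G) → ∀ q ∈ Q, Commute q x

def LZ : Prop := ∀ (G : Type u) [Group G] [Finite G] (m : ℕ) (L : Subgroup G) [L.Normal],
  St m L → m < v2 (⊤ : Subgroup G) ∧ (∀ z ∈ Zc L, z ^ 2 = 1 → z ∈ center G) ∧
    (∀ g ∈ L, g ∈ center G → g ∈ Zc L) ∧
    ∀ v : G, RG L v → P2 v ∧ v ∉ center G ∧ v2 (C1 v) = m ∧ v ^ 2 ∈ center G ∧ v ^ 4 = 1 ∧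
      (∀ g ∈ Ct L v, g * v * g⁻¹ * v⁻¹ ∈ center G ∧ (g * v * g⁻¹ * v⁻¹) ^ 2 = 1 ∧
        Commute (g ^ 2) v ∧ g ∈ normalizer (C1 v : Set G) ∧
        (Odd (orderOf g) → Commute g v)) ∧
      (∀ P : Subgroup G, SylL (Ct L v) P → Nat.card (P ⊓ C1 v : Subgroup G) = 2 ^ m ∧
        Nat.card P = 2 ^ m * (C1 v).relIndex (Ct L v)) ∧
      (C1 v).relIndex (Ct L v) ≤ Nat.card (Zc L) ∧
      (Two L v ↔ (C1 v).relIndex (Ct L v) ≤ 2)

def HYP : Prop := ∀ (G : Type u) [Group G] [Finite G] (m : ℕ), H G m →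
  ∀ (P T : Subgroup G) (x s : G), IsPGroup 2 P → T ≤ P → (∀ p ∈ P, p ^ 2 ∈ T) →
    (∀ t ∈ centralizer (T : Set G), P2 t → t ∈ T) → Odd (orderOf x) → x ≠ 1 →
    x ∈ centralizer (T : Set G) → s ∈ P → Inv s x → Nat.card P ≤ 2 ^ (m + 1)

/-! ### Good elements -/

def Y1 : Prop := ∀ (G : Type u) [Group G] [Finite G] (m : ℕ) (L : Subgroup G) [L.Normal],
  St m L → ∀ v : G, RG L v → Two L v → NRO (C1 v)

def Y2a : Prop := ∀ (G : Type u) [Group G] [Finite G] (m : ℕ) (L : Subgroup G) [L.Normal],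
  St m L → ∀ v : G, RG L v → ¬ Two L v →
    ∀ g y : G, Inv g v → Inv g y → Commute v y → Odd (orderOf y) → y = 1

def Y2b : Prop := ∀ (G : Type u) [Group G] [Finite G] (L : Subgroup G) [L.Normal],
  QS L → ∀ v : G, SG L v →
    (∀ g y : G, Inv g v → Inv g y → y ∈ Ct L v → Odd (orderOf y) → y = 1) → NRO (C1 v)

def YY : Prop := ∀ (G : Type u) [Group G] [Finite G] (m : ℕ) (L : Subgroup G) [L.Normal],
  St m L → ∀ v : G, (SG L v → Cl (C1 v)) ∧ (RG L v → Two L v → Cl (C1 v))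

def BAL : Prop := ∀ (G : Type u) [Group G] [Finite G] (m : ℕ) (L : Subgroup G) [L.Normal],
  St m L → ∀ v w y : G, P2 v → RG L w → Cl (C1 w) → v ∈ Ct L w → Wv v y → Commute y w → Wv w y

def DS : Prop := ∀ (G : Type u) [Group G] [Finite G] (m : ℕ) (L : Subgroup G) [L.Normal],
  St m L → ∀ (P : Subgroup G) (w : G), IsPGroup 2 P → w ∈ P → RG L w → ¬ P ≤ Ct L w →
    ∃ g ∈ P, SG L (w⁻¹ * (g * w * g⁻¹)) ∧ w⁻¹ * (g * w * g⁻¹) ∈ Ct L w ∧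
      P ⊓ Ct L w < P ⊓ Ct L (w⁻¹ * (g * w * g⁻¹))

def V0 : Prop := ∀ (G : Type u) [Group G] [Finite G] (m : ℕ) (L : Subgroup G) [L.Normal],
  St m L → ∃ v : G, SG L v ∧ v2 (Ct L v) = v2 (⊤ : Subgroup G)

def LW : Prop := ∀ (G : Type u) [Group G] [Finite G] (m : ℕ) (L : Subgroup G) [L.Normal],
  St m L → ∀ v x : G, RG L v → Cl (C1 v) → Odd (orderOf x) → Re x → Commute x v → Wv v x

def B1 : Prop := ∀ (G : Type u) [Group G] [Finite G] (m : ℕ) (L : Subgroup G) [L.Normal],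
  St m L → ∀ v : G, SG L v → v2 (Ct L v) = v2 (⊤ : Subgroup G) → ¬ NRO (Ct L v ⊓ L) →
    v2 (⊤ : Subgroup G) = m + 1 ∧ ∃ (P : Subgroup G) (x : G), BC L P v x

def FA : Prop := ∀ (G : Type u) [Group G] [Finite G] (m : ℕ) (L : Subgroup G) [L.Normal],
  St m L → v2 (⊤ : Subgroup G) = m + 1 →
    (∀ v : G, RG L v → Two L v ∧ Cl (C1 v)) ∧ F4 L ∧ F5 L

def B4 : Prop := ∀ (G : Type u) [Group G] [Finite G] (m : ℕ) (L : Subgroup G) [L.Normal],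
  St m L → (∀ v : G, RG L v → Cl (C1 v)) → ∀ (P : Subgroup G) (v x : G), BC L P v x →
    ∀ c ∈ P, RG L c → ¬ Commute c v → NG L v c

def HS : Prop := ∀ (S : Type u) [Group S] [Finite S] [IsSimpleGroup S], ¬ IsMulCommutative S →
  ∀ (M W : Subgroup S) (r x s : S), orderOf r = 2 → Odd (C1 r).index → C1 r ≤ M →
    (∀ g : S, g * r * g⁻¹ ∈ M → g ∈ M) → W ≤ M → Odd (Nat.card W) →
    M ≤ normalizer (W : Set S) → x ∈ W → x ≠ 1 → s ∈ M → Inv s x → False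

def HOL : Prop := ∀ (G : Type u) [Group G] [Finite G] (m : ℕ) (L : Subgroup G) [L.Normal],
  St m L → (∀ v : G, RG L v → Cl (C1 v)) → ∀ (P : Subgroup G) (v x : G), BC L P v x →
    ∃ g ∈ L, g * v * g⁻¹ ∈ P ∧ ¬ Commute (g * v * g⁻¹) v

/-! ### Chapter D -/

def DPair : Prop := ∀ (G : Type u) [Group G] [Finite G] (L : Subgroup G) [L.Normal], QS L →
  (∀ v : G, RG L v → Two L v) → F4 L → F5 L → ∀ v g : G, RG L v → g ∈ L →
    g * v * g⁻¹ ∈ Ct L v → ¬ Commute (g * v * g⁻¹) v → NG L v (g * v * g⁻¹) →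
    ∃ (Q : Subgroup G) (a b : G), DC L Q a b

def DJ : Prop := ∀ (G : Type u) [Group G] [Finite G] (L : Subgroup G) [L.Normal]
  (Q : Subgroup G) (a b : G), DC L Q a b →
    ∀ g ∈ Q, Commute g a → Inv b g → ∀ t ∈ Q, Commute t a → Commute t g

def DP : Prop := ∀ (G : Type u) [Group G] [Finite G] (L : Subgroup G) [L.Normal]
  (Q : Subgroup G) (a b : G), DC L Q a b →
    a ^ 4 = 1 ∧ (∀ q ∈ Q, Commute q a ∨ (Inv q a ∧ Commute (b⁻¹ * q) a)) ∧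
    (b ^ 2 = 1 ∨ b ^ 2 = a ^ 2) ∧
    (∀ d ∈ L, Commute d a → Commute d b → d ^ 2 = 1 → d ∈ Zc L) ∧
    (∀ c ∈ Q, Commute c a → ¬ Commute c b → c ^ 2 ∈ Zc L →
      b * c * b⁻¹ = c * a ^ 2 ∧ Commute (a⁻¹ * c) b) ∧
    ∀ d ∈ Q, Commute d a → Commute d b → ∀ q ∈ Q,
      Commute (q * d * q⁻¹) a ∧ Commute (q * d * q⁻¹) b

def DA : Prop := ∀ (G : Type u) [Group G] [Finite G] (L : Subgroup G) [L.Normal]
  (Q : Subgroup G) (a b : G), DC L Q a b →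
    ∀ c ∈ Q, RG L c → c ^ 2 = a ^ 2 → ∀ d ∈ Q, Commute d a → Commute d b →
      d * c * d⁻¹ ≠ c * a ^ 2

def DSW : Prop := ∀ (G : Type u) [Group G] [Finite G] (L : Subgroup G) [L.Normal]
  (Q : Subgroup G) (d h r : G), SylL L Q → d ∈ L → Q ≤ Ct L d → h ∈ L → r ∈ L → P2 r →
    r ∈ Ct L (h * d * h⁻¹) →
    ∃ g ∈ L, g * r * g⁻¹ ∈ Q ∧ g * (h * d * h⁻¹) * g⁻¹ * d⁻¹ ∈ Zc L

def DD : Prop := ∀ (G : Type u) [Group G] [Finite G] (L : Subgroup G) [L.Normal]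
  (Q : Subgroup G) (a b : G), DC L Q a b → ∀ d ∈ Q, Commute d a → Commute d b → d ∈ Zc L

def DH : Prop := ∀ (G : Type u) [Group G] [Finite G] (L : Subgroup G) [L.Normal]
  (Q : Subgroup G) (a b : G), DC L Q a b → (∀ d ∈ Q, Commute d a → Commute d b → d ∈ Zc L) →
    Dih L Q

def GW : Prop := ∀ (G : Type u) [Group G] [Finite G] (L Q : Subgroup G), QS L → SylL L Q →
  Dih L Q → E1 (L ⧸ center L) ∨ EA (L ⧸ center L) 7

/-! ### Endgame -/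

def BAU : Prop := ∀ (G : Type u) [Group G] [Finite G] (L : Subgroup G) [L.Normal], QS L →
  ∀ v : G, RG L v → v2 (Ct L v) = v2 (⊤ : Subgroup G) → Cl (Ct L v ⊓ L) → Lst (L ⧸ center L)

def ROK : Prop := ∀ (G : Type u) [Group G] [Finite G] (m : ℕ) (L : Subgroup G) [L.Normal],
  St m L → ROC (L ⧸ center L) → ∀ s : ℕ, 2 ^ s ∣ Nat.card (L ⧸ center L) →
    m + s ≤ v2 (⊤ : Subgroup G)

def MU : Prop := ∀ (X : Type u) [Group X] [Finite X], QS X → Lst (X ⧸ center X) →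
  Nat.card (center X) = 1 ∨
    ((E1 (X ⧸ center X) ∨ EA (X ⧸ center X) 5) ∧ Nat.card (center X) ≤ 2) ∨
    (E2 (X ⧸ center X) ∧ Nat.card (center X) ≤ 16) ∨
    (E3 (X ⧸ center X) ∧ Nat.card (center X) ≤ 4)

def RO1 : Prop := ∀ (S : Type u) [Group S], E1 S → ROC S ∧ 2 ^ 2 ∣ Nat.card S
def RO2 : Prop := ∀ (S : Type u) [Group S], E2 S → ROC S ∧ 2 ^ 5 ∣ Nat.card S
def RO3 : Prop := ∀ (S : Type u) [Group S], E3 S → ROC S ∧ 2 ^ 3 ∣ Nat.card S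
def RO4 : Prop := ∀ (S : Type u) [Group S], EA S 5 ∨ EA S 7 → ROC S ∧ 2 ^ 2 ∣ Nat.card S

/-! ### Reductions -/

def R0 : Prop := ∀ (G : Type u) [Group G] [Finite G] (m : ℕ) (N : Subgroup G) [N.Normal],
  Odd (Nat.card N) → H G m → H (G ⧸ N) m

def R1a : Prop := ∀ (G : Type u) [Group G] [Finite G] (m : ℕ), H G m → Cfsg.oddCore G = ⊥ →
  ¬ NRO (⊤ : Subgroup G) → ∃ L : Subgroup G, Cfsg.IsComponent L ∧ QS L

def R1b : Prop := ∀ (G : Type u) [Group G] [Finite G] (m : ℕ), H G m →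
  ∀ L : Subgroup G, Cfsg.IsComponent L → QS L → L.Normal

/-! ### Jobs -/

def JobKA : Prop := KA.{u}
def JobKB : Prop := KA.{u} → KB.{u}
def JobKW : Prop := KA.{u} → KW.{u}
def JobZS : Prop := KA.{u} → ZS.{u}
def JobEX : Prop := KA.{u} → ZS.{u} → EX.{u}
def JobLC : Prop := KA.{u} → KB.{u} → LC.{u}
def JobLX : Prop := KA.{u} → KB.{u} → LX.{u}
def JobLZ : Prop := KA.{u} → KB.{u} → ZS.{u} → EX.{u} → LC.{u} → LZ.{u}
def JobHYP : Prop := KA.{u} → KB.{u} → KW.{u} → HYP.{u}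
def JobY1 : Prop := KA.{u} → KB.{u} → LC.{u} → LZ.{u} → Y1.{u}
def JobY2a : Prop := KA.{u} → KB.{u} → LC.{u} → LZ.{u} → HYP.{u} → Y2a.{u}
def JobY2b : Prop := KA.{u} → ZS.{u} → Y2b.{u}
def JobYY : Prop := KA.{u} → LZ.{u} → Y1.{u} → Y2a.{u} → Y2b.{u} → YY.{u}
def JobBAL : Prop := KA.{u} → LZ.{u} → BAL.{u}
def JobDS : Prop := KA.{u} → LZ.{u} → DS.{u}
def JobV0 : Prop := KA.{u} → EX.{u} → DS.{u} → V0.{u}
def JobLW : Prop := KA.{u} → KB.{u} → LX.{u} → LZ.{u} → YY.{u} → BAL.{u} → DS.{u} → LW.{u}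
def JobB1 : Prop := KA.{u} → KB.{u} → LZ.{u} → HYP.{u} → YY.{u} → LW.{u} → B1.{u}
def JobFA : Prop := KA.{u} → ZS.{u} → LZ.{u} → YY.{u} → FA.{u}
def JobB4 : Prop := KA.{u} → LZ.{u} → BAL.{u} → B4.{u}
def JobHS : Prop := KA.{u} → HS.{u}
def JobHOL : Prop := KA.{u} → KW.{u} → ZS.{u} → LZ.{u} → BAL.{u} → HS.{u} → HOL.{u}
def JobDPair : Prop := KA.{u} → ZS.{u} → DPair.{u}
def JobDJ : Prop := KA.{u} → ZS.{u} → DJ.{u}
def JobDP : Prop := KA.{u} → ZS.{u} → DJ.{u} → DP.{u}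
def JobDA : Prop := KA.{u} → ZS.{u} → DJ.{u} → DP.{u} → DA.{u}
def JobDSW : Prop := KA.{u} → DSW.{u}
def JobDD : Prop := KA.{u} → ZS.{u} → DJ.{u} → DP.{u} → DA.{u} → DSW.{u} → DD.{u}
def JobDH : Prop := KA.{u} → ZS.{u} → DJ.{u} → DP.{u} → DH.{u}
def JobGW : Prop := KA.{u} → ZS.{u} → GW.{u}
def JobBAU : Prop := KA.{u} → ZS.{u} → BAU.{u}
def JobROK : Prop := KA.{u} → KB.{u} → ZS.{u} → ROK.{u}
def JobMU : Prop := MU.{u}
def JobRO1 : Prop := RO1.{u}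
def JobRO2 : Prop := RO2.{u}
def JobRO3 : Prop := RO3.{u}
def JobRO4 : Prop := RO4.{u}
def JobR0 : Prop := KA.{u} → R0.{u}
def JobR1a : Prop := KA.{u} → KB.{u} → LX.{u} → R1a.{u}
def JobR1b : Prop := KA.{u} → ZS.{u} → EX.{u} → LC.{u} → R1b.{u}

end H52.RC
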