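import Cfsg.Agent.H0.SimSpec

/-! # S3694 (tower SIM), chapter XS: jobs. Proofs: `blueprints/SIMXS.md`. -/

set_option autoImplicit false

namespace H52.XS

open Subgroup Cfsg H98 Matrix H0.Sim
open scoped commutatorElement

universe u

section Defs

variable {n : ℕ} {F : Type} [Field F]

/-- The adjoint. -/
def ad (q : ℕ) (m : Mt n F) : Mt n F := (m.map (· ^ q))ᵀ

/-- `m` is a scalar matrix. -/
def Sc (m : Mt n F) : Prop := ∃ c : F, m = Matrix.scalar (Fin n) c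

def AE (E : Subgroup (GL (Fin n) F)) : Subalgebra F (Mt n F) := Algebra.adjoin F (mat E)

def CE (E : Subgroup (GL (Fin n) F)) : Subalgebra F (Mt n F) := Subalgebra.centralizer F (mat E)

/-- The elements of `Gam` that are units of `R`. -/
def GR (u : Bool) (q : ℕ) (R : Subalgebra F (Mt n F)) : Subgroup (GL (Fin n) F) :=
  Gam n F u q ⊓ R.toSubmonoid.units

structure Ex (Z E : Subgroup (GL (Fin n) F)) : Prop where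
  pos : 0 < n
  ZE : Z ≤ E
  Zc : ∀ z ∈ Z, Sc (z : Mt n F)
  cm : ∀ a ∈ E, ∀ b ∈ E, ⁅a, b⁆ ∈ Z
  ce : ∀ a ∈ E, (∀ b ∈ E, a * b = b * a) → a ∈ Z
  un : (Nat.card E : F) ≠ 0

/-- The averaging map. -/
structure Av0 (E : Subgroup (GL (Fin n) F)) (P : Mt n F →ₗ[F] Mt n F) : Prop where
  fm : ∀ w, (Nat.card E : F) • P w =
    ∑ᶠ e : E, ((e : GL (Fin n) F) : Mt n F) * w * (((e : GL (Fin n) F)⁻¹ : GL (Fin n) F) : Mt n F)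
  mem : ∀ w, P w ∈ CE E
  l : ∀ c ∈ CE E, ∀ w, P (c * w) = c * P w
  r : ∀ c ∈ CE E, ∀ w, P (w * c) = P w * c
  one : P 1 = 1
  cyc : ∀ y ∈ E, ∀ w, P ((y : Mt n F) * w) = P (w * (y : Mt n F))
  sub : ∀ W : Submodule F (Mt n F), (∀ e ∈ E, St e (W : Set (Mt n F))) → ∀ w ∈ W, P w ∈ W

def Sm1 (Z E : Subgroup (GL (Fin n) F)) (P : Mt n F →ₗ[F] Mt n F) : Prop :=
  ∀ w, ∑ᶠ x : E, ((x : GL (Fin n) F) : Mt n F) *
    P ((((x : GL (Fin n) F)⁻¹ : GL (Fin n) F) : Mt n F) * w) = (Nat.card Z : F) • w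

structure Av (Z E : Subgroup (GL (Fin n) F)) (P : Mt n F →ₗ[F] Mt n F) : Prop extends Av0 E P where
  zero : ∀ x ∈ E, x ∉ Z → P (x : Mt n F) = 0
  sum : ∃ T : Finset (GL (Fin n) F), (∀ x ∈ T, x ∈ E) ∧ (∀ x ∈ T, ∀ y ∈ T, x⁻¹ * y ∈ Z → x = y) ∧
    T.card = Z.relIndex E ∧
    ∀ w, w = ∑ x ∈ T, (x : Mt n F) * P (((x⁻¹ : GL (Fin n) F) : Mt n F) * w)

/-- A matrix model of the ring `R`. -/
def Md [Fintype F] (u : Bool) (q : ℕ) (R : Subalgebra F (Mt n F)) (k : ℕ) : Prop :=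
  ∃ (K : Type) (_ : Field K) (_ : Fintype K) (φ : R ≃+* Mt k K), Fintype.card K = Fintype.card F ∧
    (u = true → ∀ a b : R, (b : Mt n F) = ad q (a : Mt n F) → φ b = ad q (φ a))

def Md2 [Fintype F] (u : Bool) (q : ℕ) (R : Subalgebra F (Mt n F)) (k : ℕ) : Prop :=
  Nat.card R = Fintype.card F ^ (k * k) ∧ ∃ (K : Type) (_ : Field K) (_ : Fintype K),
    Fintype.card K = Fintype.card F ∧ Nonempty (GR u q R ≃* Gam k K u q)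

def sm (u : Bool) (q k : ℕ) : Prop := (k = 2 ∧ q ≤ 3) ∨ (u = true ∧ k = 3 ∧ q = 2)

/-- The second group for the case of dimension 9. -/
structure T3 [Fintype F] (u : Bool) (q p : ℕ) (Θ : Set (Jm n F)) (Q E E₃ : Subgroup (GL (Fin n) F)) :
    Prop where
  Z3 : Zg n F u q ≤ E₃
  ne : ¬ E₃ ≤ Zg n F u q
  Q3 : E₃ ≤ Q
  C3 : E₃ ≤ centralizer (E : Set (GL (Fin n) F))
  iv : Iv Θ (mat E₃)
  pw : ∀ a ∈ E₃, a ^ p ∈ Zg n F u q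
  cm : ∀ a ∈ E₃, ∀ b ∈ E₃, ⁅a, b⁆ ∈ Zg n F u q

end Defs

/-! ### Kits -/

def AD : Prop := ∀ (n : ℕ) (F : Type) [Field F] [Fintype F] (q : ℕ), Fintype.card F = q ^ 2 →
  (∀ a b : Mt n F, ad q (a + b) = ad q a + ad q b) ∧ (∀ a b : Mt n F, ad q (a * b) = ad q b * ad q a) ∧
  (∀ a : Mt n F, ad q (ad q a) = a) ∧ ad q (1 : Mt n F) = 1 ∧
  (∀ (c : F) (a : Mt n F), ad q (c • a) = c ^ q • ad q a) ∧ (∃ c : F, c ^ q ≠ c) ∧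
  ∀ x : GL (Fin n) F, x ∈ GU n F q ↔ ad q (x : Mt n F) * (x : Mt n F) = 1

def TH : Prop := ∀ (n : ℕ) (F : Type) [Field F] [Fintype F] (j : Jm n F),
  (∀ a b, th j (a + b) = th j a + th j b) ∧
  (∀ a b, th j (a * b) = if j.a then th j b * th j a else th j a * th j b) ∧ th j 1 = 1 ∧
  (∀ (c : F) a, th j (c • a) = j.σ c • th j a) ∧ Function.Bijective (th j) ∧
  ∃ α : GL (Fin n) F ≃* GL (Fin n) F, ∀ Y : Subgroup (GL (Fin n) F),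
    (∀ m ∈ mat Y, th j m ∈ mat Y) ↔ Y.map α.toMonoidHom = Y

def NS : Prop := ∀ (n : ℕ) (F : Type) [Field F] [Fintype F] (u : Bool) (q : ℕ), Par n F u q →
  ∀ (R : Subalgebra F (Mt n F)) (x : GL (Fin n) F) (m : Mt n F), x ∈ Gam n F u q →
  (x : Mt n F) ∈ R → x ∉ Zg n F u q → (∀ a ∈ R, m * a = a * m) → ¬ Sc m →
  ∃ s ∈ Sg n F u q, ¬ St s (R : Set (Mt n F))

def JobNS : Prop := JobSQ → NS

/-! ### The group `E` and the two rings -/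

def EX : Prop := ∀ (n : ℕ) (F : Type) [Field F] [Fintype F] (u : Bool) (q p : ℕ) (Θ : Set (Jm n F))
  (H Q E : Subgroup (GL (Fin n) F)), Cf0 u q p Θ H Q E → p ≠ ringChar F →
  (∃ a ∈ E, ∃ b ∈ E, a * b ≠ b * a) →
  Ex (Zg n F u q) E ∧ (∃ k : ℕ, (Zg n F u q).relIndex E = p ^ k) ∧
    ∀ x ∈ Gam n F u q, Sc (x : Mt n F) → x ∈ Zg n F u q

def JobEx : Prop := TH → EX

def JobAv1 : Prop := ∀ (n : ℕ) (F : Type) [Field F] [Fintype F] (E : Subgroup (GL (Fin n) F)),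
  (Nat.card E : F) ≠ 0 → ∃ P, Av0 E P

def JobAv2 : Prop := ∀ (n : ℕ) (F : Type) [Field F] [Fintype F] (Z E : Subgroup (GL (Fin n) F))
  (P : Mt n F →ₗ[F] Mt n F), Ex Z E → Av0 E P → Sm1 Z E P

def JobAv3 : Prop := ∀ (n : ℕ) (F : Type) [Field F] [Fintype F] (Z E : Subgroup (GL (Fin n) F))
  (P : Mt n F →ₗ[F] Mt n F), Ex Z E → Av0 E P → Sm1 Z E P → Av Z E P

def JobK : Prop := ∀ (n : ℕ) (F : Type) [Field F] [Fintype F] (Z E : Subgroup (GL (Fin n) F))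
  (P : Mt n F →ₗ[F] Mt n F), Ex Z E → Av Z E P → ∀ y : GL (Fin n) F, (∀ e ∈ E, ⁅e, y⁆ ∈ Z) →
  ∃ x ∈ E, x⁻¹ * y ∈ centralizer (E : Set (GL (Fin n) F))

def JobSA : Prop := ∀ (n : ℕ) (F : Type) [Field F] [Fintype F] (Z E : Subgroup (GL (Fin n) F))
  (P : Mt n F →ₗ[F] Mt n F), Ex Z E → Av Z E P →
  IsSimpleRing (AE E) ∧ (∀ m ∈ AE E, m ∈ CE E → Sc m) ∧
    Nat.card ↥(AE E ⊓ CE E) = Fintype.card F

def JobSC : Prop := ∀ (n : ℕ) (F : Type) [Field F] [Fintype F] (Z E : Subgroup (GL (Fin n) F))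
  (P : Mt n F →ₗ[F] Mt n F), Ex Z E → Av Z E P →
  IsSimpleRing (CE E) ∧ ∀ m ∈ CE E, (∀ c ∈ CE E, m * c = c * m) → Sc m

def JobCard : Prop := ∀ (n : ℕ) (F : Type) [Field F] [Fintype F] (Z E : Subgroup (GL (Fin n) F))
  (P : Mt n F →ₗ[F] Mt n F), Ex Z E → Av Z E P → ∀ R : Subalgebra F (Mt n F), mat E ⊆ R →
  Nat.card R = Nat.card ↥(R ⊓ CE E) ^ Z.relIndex E

def IV : Prop := ∀ (n : ℕ) (F : Type) [Field F] [Fintype F] (u : Bool) (q p : ℕ) (Θ : Set (Jm n F))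
  (H Q E : Subgroup (GL (Fin n) F)), Cf0 u q p Θ H Q E →
  Iv Θ (AE E : Set (Mt n F)) ∧ Iv Θ (CE E : Set (Mt n F)) ∧
    (u = true → (∀ m ∈ AE E, ad q m ∈ AE E) ∧ ∀ m ∈ CE E, ad q m ∈ CE E)

def JobIv : Prop := TH → AD → IV

def MD : Prop := ∀ (n : ℕ) (F : Type) [Field F] [Fintype F] (u : Bool) (q : ℕ), Par n F u q →
  ∀ R : Subalgebra F (Mt n F), IsSimpleRing R → (∀ m ∈ R, (∀ c ∈ R, m * c = c * m) → Sc m) →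
  (u = true → ∀ m ∈ R, ad q m ∈ R) → (∃ m ∈ R, ¬ Sc m) → ∃ k, 2 ≤ k ∧ Md u q R k

def JobMd : Prop := JobStL → JobStU → AD → MD

def ISO : Prop := ∀ (n : ℕ) (F : Type) [Field F] [Fintype F] (u : Bool) (q : ℕ), Par n F u q →
  ∀ (R : Subalgebra F (Mt n F)) (k : ℕ), (u = true → ∀ m ∈ R, ad q m ∈ R) → Md u q R k → Md2 u q R k

def JobIso : Prop := AD → ISO

def SM : Prop := ∀ (n : ℕ) (F : Type) [Field F] [Fintype F] (u : Bool) (q p : ℕ) (Θ : Set (Jm n F))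
  (H Q E : Subgroup (GL (Fin n) F)), Cf0 u q p Θ H Q E → ∀ (R : Subalgebra F (Mt n F)) (k : ℕ),
  Iv Θ (R : Set (Mt n F)) → (∃ s ∈ Sg n F u q, ¬ St s (R : Set (Mt n F))) → Md2 u q R k → 2 ≤ k →
  sm u q k

def JobSm : Prop := JobNC → JobQSL → JobQSU → SM

/-! ### The bound -/

def JobBd : Prop := ∀ (G : Type) [Group G] [Finite G] (Z E H D : Subgroup G) (p : ℕ), p.Prime →
  Z ≤ center G → Z ≤ E → Z ≤ D → H ≤ normalizer (E : Set G) → Z.relIndex E = p ^ 2 →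
  (∃ a ∈ E, ∃ b ∈ E, a * b ≠ b * a) →
  (∀ h ∈ H, (∀ e ∈ E, ⁅e, h⁆ ∈ Z) → ∃ x ∈ E, x⁻¹ * h ∈ D) → Nat.card H ≤ p ^ 6 * Nat.card D

def JobOrd : Prop := ∀ (K : Type) [Field K] [Fintype K],
  (Fintype.card K = 3 → Nat.card (Gam 2 K false 3) ≤ 81) ∧
  (Fintype.card K = 9 → Nat.card (Gam 2 K true 3) ≤ 96) ∧
  (Fintype.card K = 4 → Nat.card (Gam 2 K true 2) ≤ 18)

/-! ### Dimension 9 over the field with 4 elements -/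

def E3 : Prop := ∀ (n : ℕ) (F : Type) [Field F] [Fintype F] (u : Bool) (q p : ℕ) (Θ : Set (Jm n F))
  (H Q E : Subgroup (GL (Fin n) F)), Cf0 u q p Θ H Q E → ∀ c ∈ Q,
  c ∈ centralizer (E : Set (GL (Fin n) F)) → c ∉ Zg n F u q → ∃ E₃, T3 u q p Θ Q E E₃

def JobE3 : Prop := TH → E3

def JobZ4 : Prop := ∀ (n : ℕ) (F : Type) [Field F] [Fintype F] (Z : Subgroup (GL (Fin n) F)),
  Fintype.card F = 4 → (∀ z ∈ Z, Sc (z : Mt n F)) →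
  Z ≤ center (GL (Fin n) F) ∧ (∀ z ∈ Z, z ^ 3 = 1) ∧ (∀ z ∈ Z, z ≠ 1 → Z ≤ zpowers z) ∧
    ∀ z ∈ Z, z ≠ 1 → ∃ w : F, w ^ 2 + w + 1 = 0 ∧ (z : Mt n F) = w • (1 : Mt n F)

def JobCub : Prop := ∀ (G : Type) [Group G] (Z Y : Subgroup G), Z ≤ center G → (∀ z ∈ Z, z ^ 3 = 1) →
  (∀ z ∈ Z, z ≠ 1 → Z ≤ zpowers z) → (∀ a ∈ Y, a ^ 3 ∈ Z) → (∀ a ∈ Y, ∀ b ∈ Y, ⁅a, b⁆ ∈ Z) →
  ((∃ a ∈ Y, ∃ b ∈ Y, a * b ≠ b * a) → ∃ e ∈ Y, e ∉ Z ∧ e ^ 3 = 1) ∧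
  ((∀ e ∈ Y, e ^ 3 = 1 → e ∈ Z) → ∀ t ∈ normalizer (Y : Set G), t * t = 1 → ∀ x ∈ Y, t * x = x * t)

def CY : Prop := ∀ (n : ℕ) (F : Type) [Field F] [Fintype F] (R : Subalgebra F (Mt n F)),
  Fintype.card F = 4 → (∀ m ∈ R, ad 2 m ∈ R) → Md true 2 R 3 →
  ∃ t ∈ GR true 2 R, t ∈ Sg n F true 2 ∧ t * t = 1 ∧ ∀ x : GL (Fin n) F, (x : Mt n F) ∈ R →
    t * x = x * t → Sc ((x ^ 3 : GL (Fin n) F) : Mt n F) → x ^ 3 = 1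

def JobCY : Prop := AD → CY

def JobDet : Prop := ∀ (F : Type) [Field F] [Fintype F] (w : F) (b y : GL (Fin 9) F),
  Fintype.card F = 4 → w ^ 2 + w + 1 = 0 → b ^ 3 = 1 →
  ((y * b * y⁻¹ : GL (Fin 9) F) : Mt 9 F) = w • (b : Mt 9 F) →
  Matrix.det (1 + w ^ 2 • (1 + (b : Mt 9 F) + (b : Mt 9 F) * (b : Mt 9 F)) : Mt 9 F) = 1

def TAU : Prop := ∀ (n : ℕ) (F : Type) [Field F] [Fintype F] (w : F) (b : GL (Fin n) F),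
  Fintype.card F = 4 → w ^ 2 + w + 1 = 0 → b ^ 3 = 1 → b ∈ GU n F 2 →
  ∃ τ ∈ GU n F 2, (τ : Mt n F) = 1 + w ^ 2 • (1 + (b : Mt n F) + (b : Mt n F) * (b : Mt n F)) ∧
    (∀ y : GL (Fin n) F, y * b = b * y → τ * y * τ⁻¹ = y) ∧
    (∀ y : GL (Fin n) F, ((y * b * y⁻¹ : GL (Fin n) F) : Mt n F) = w • (b : Mt n F) →
      ((τ * y * τ⁻¹ : GL (Fin n) F) : Mt n F) = w • ((b * b * y : GL (Fin n) F) : Mt n F)) ∧
    ∀ y : GL (Fin n) F, ((y * b * y⁻¹ : GL (Fin n) F) : Mt n F) = w ^ 2 • (b : Mt n F) →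
      ((τ * y * τ⁻¹ : GL (Fin n) F) : Mt n F) = w • ((b * y : GL (Fin n) F) : Mt n F)

def JobTau : Prop := AD → TAU

def YY : Prop := ∀ (n : ℕ) (F : Type) [Field F] [Fintype F] (u : Bool) (q p : ℕ) (Θ : Set (Jm n F))
  (H Q E E₃ : Subgroup (GL (Fin n) F)), Cf0 u q p Θ H Q E → T3 u q p Θ Q E E₃ →
  (∀ a ∈ E ⊔ E₃, ∀ b ∈ E ⊔ E₃, ⁅a, b⁆ ∈ Zg n F u q) ∧
    ∀ s ∈ Sg n F u q, s ∈ normalizer ((E ⊔ E₃ : Subgroup (GL (Fin n) F)) : Set (GL (Fin n) F)) →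
      s ∈ normalizer (E : Set (GL (Fin n) F))

def JobY : Prop := TH → JobSQ → YY

def U9 : Prop := ∀ (F : Type) [Field F] [Fintype F] (Θ : Set (Jm 9 F))
  (H Q E E₃ : Subgroup (GL (Fin 9) F)), Cf0 true 2 3 Θ H Q E → Ex (Zg 9 F true 2) E →
  T3 true 2 3 Θ Q E E₃ → ∀ a ∈ E, ∀ e ∈ E₃, a ∉ Zg 9 F true 2 → e ∉ Zg 9 F true 2 → a ^ 3 = 1 →
  e ^ 3 = 1 → False

def JobU9 : Prop := JobZ4 → JobDet → TAU → YY → U9

/-- The case of dimension 9. -/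
def N9 : Prop := ∀ (F : Type) [Field F] [Fintype F] (Θ : Set (Jm 9 F))
  (H Q E : Subgroup (GL (Fin 9) F)), Cf0 true 2 3 Θ H Q E → Ex (Zg 9 F true 2) E →
  (∃ a ∈ E, ∃ b ∈ E, a * b ≠ b * a) → Iv Θ (CE E : Set (Mt 9 F)) →
  (∃ s ∈ Sg 9 F true 2, ¬ St s (CE E : Set (Mt 9 F))) → (∀ m ∈ CE E, ad 2 m ∈ CE E) →
  Md true 2 (CE E) 3 → ∀ c ∈ Q, c ∈ centralizer (E : Set (GL (Fin 9) F)) → c ∉ Zg 9 F true 2 → False

def JobN9 : Prop := E3 → JobZ4 → JobCub → CY → U9 → N9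

end H52.XS
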