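/- C3 tower, job L5: there is no five-dimensional configuration. -/
import Cfsg.Agent.H20.C3Spec
import Cfsg.Agent.H90.U5Q

set_option autoImplicit false
set_option linter.unusedSectionVars false

open Subgroup Matrix H20.C3

namespace H52.C3L5

abbrev V5 : Type := Fin 5 → F3

theorem uM5_mul (a b d A B D : F3) :
    uM5 a b d * uM5 A B D = uM5 (a + A) (b + B) (d + D + a * B) := by
  ext i k
  fin_cases i <;> fin_cases k <;> simp [uM5, Matrix.mul_apply, Fin.sum_univ_five] <;> ring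
theorem uM5_zero : uM5 0 0 0 = 1 := by decide +kernel
theorem uM5_inj (a b d A B D : F3) (e : uM5 a b d = uM5 A B D) : a = A ∧ b = B ∧ d = D :=
  ⟨congrFun (congrFun e 1) 0, congrFun (congrFun e 3) 1,
    mul_left_cancel₀ (a := 2) (by decide) (congrFun (congrFun e 4) 1)⟩

/-- the commutator of `j 0 b d` with a vector -/
def nn (b d e f : F3) : V5 := ![0, 0, 2 * b * e, d * e + b * f, 2 * d * f]

theorem act_V1 (b d : F3) (v : V5) : uM5 0 b d *ᵥ v = v + nn b d (v 0) (v 1) := by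
  ext i
  fin_cases i <;> simp [uM5, nn, mulVec, dotProduct, Fin.sum_univ_five] <;> ring

theorem fix_W (b d : F3) {v : V5} (h0 : v 0 = 0) (h1 : v 1 = 0) : uM5 0 b d *ᵥ v = v := by
  rw [act_V1, h0, h1]
  ext i
  fin_cases i <;> simp [nn]

theorem faith : ∀ b d t t' x y z : F3, nn b d 1 0 = t • ![0, 0, x, y, z] → nn b d 0 1 = t' • ![0, 0, x, y, z] →
    b = 0 ∧ d = 0 := by decide +kernel

theorem three_vals : ∀ b d e0 f0 : F3, nn b d e0 f0 ≠ 0 → ∃ e1 f1 : F3, ∀ e f : F3, ∃ t l : F3,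
    nn b d e f = t • nn b d e1 f1 + l • nn b d e0 f0 := by decide +kernel

variable {X : Type} [Group X] [Finite X] {ρ : X →* Matrix (Fin 5) (Fin 5) F3} {j : F3 → F3 → F3 → X}
  {H : Subgroup X}

/-- the action on vectors -/
def act (ρ : X →* Matrix (Fin 5) (Fin 5) F3) : X →* MulAut (Multiplicative V5) := MonoidHom.mk' (fun g =>
  { toFun := fun v => .ofAdd (ρ g *ᵥ v.toAdd)
    invFun := fun v => .ofAdd (ρ g⁻¹ *ᵥ v.toAdd)
    left_inv := fun v => by simp [← map_mul]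
    right_inv := fun v => by simp [← map_mul]
    map_mul' := fun s t => by rw [toAdd_mul, mulVec_add, ofAdd_add] })
  fun g k => MulEquiv.ext fun v => by simp

/-- the stabilizer of a vector -/
def st (ρ : X →* Matrix (Fin 5) (Fin 5) F3) (w : V5) : Subgroup X where
  carrier := {g | ρ g *ᵥ w = w}
  one_mem' := by simp
  mul_mem' := fun {a b} ha hb => by
    show ρ (a * b) *ᵥ w = w
    rw [map_mul, ← mulVec_mulVec, hb, ha]
  inv_mem' := fun {a} ha => by
    show ρ a⁻¹ *ᵥ w = w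
    conv_lhs => rw [← show ρ a *ᵥ w = w from ha, mulVec_mulVec, ← map_mul, inv_mul_cancel, map_one, one_mulVec]

/-- the line through a vector -/
def ln (w : V5) : Subgroup (Multiplicative V5) where
  carrier := {v | ∃ t : F3, v.toAdd = t • w}
  one_mem' := ⟨0, by simp⟩
  mul_mem' := fun ⟨t, ht⟩ ⟨s, hs⟩ => ⟨t + s, by rw [toAdd_mul, ht, hs, add_smul]⟩
  inv_mem' := fun ⟨t, ht⟩ => ⟨-t, by rw [toAdd_inv, ht, neg_smul]⟩

theorem mk_eq {w x y : V5} : ((Multiplicative.ofAdd x : Multiplicative V5) : Multiplicative V5 ⧸ ln w) =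
    (Multiplicative.ofAdd y : Multiplicative V5) ↔ ∃ t : F3, y = x + t • w :=
  QuotientGroup.eq.trans (exists_congr fun _ => neg_add_eq_iff_eq_add)

variable (h : SEm uM5 ρ j H)
include h

theorem j_mul (a b d A B D : F3) : j a b d * j A B D = j (a + A) (b + B) (d + D + a * B) :=
  h.inj (by rw [map_mul, h.rj, h.rj, h.rj, uM5_mul])

theorem j_zero : j 0 0 0 = 1 := h.inj (by rw [h.rj, uM5_zero, map_one])

theorem j_inv (a b d : F3) : (j a b d)⁻¹ = j (-a) (-b) (a * b - d) :=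
  inv_eq_of_mul_eq_one_right (by rw [j_mul h, ← j_zero h]; congr 1 <;> ring)

/-- the Sylow subgroup -/
def sU : Subgroup X where
  carrier := {x | ∃ a b d, x = j a b d}
  one_mem' := ⟨0, 0, 0, (j_zero h).symm⟩
  mul_mem' := by rintro _ _ ⟨a, b, d, rfl⟩ ⟨A, B, D, rfl⟩; exact ⟨_, _, _, j_mul h ..⟩
  inv_mem' := by rintro _ ⟨a, b, d, rfl⟩; exact ⟨_, _, _, j_inv h ..⟩

theorem j_inj {a b d A B D : F3} (e : j a b d = j A B D) : a = A ∧ b = B ∧ d = D :=
  uM5_inj _ _ _ _ _ _ (by rw [← h.rj, ← h.rj, e])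

theorem card_U : Nat.card (sU h) = 3 ^ 3 := by
  have b : Function.Bijective fun t : F3 × F3 × F3 => (⟨j t.1 t.2.1 t.2.2, _, _, _, rfl⟩ : sU h) := by
    refine ⟨fun s t e => ?_, ?_⟩
    · obtain ⟨e1, e2, e3⟩ := j_inj h (congrArg Subtype.val e)
      exact Prod.ext e1 (Prod.ext e2 e3)
    · rintro ⟨_, a, b, d, rfl⟩
      exact ⟨(a, b, d), rfl⟩
  rw [← Nat.card_congr (Equiv.ofBijective _ b)]
  simp

theorem le_H {P : Subgroup X} (hP : IsPGroup 3 P) {a b d : F3} (hu : j a b d ∈ P)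
    (ne : ¬ (a = 0 ∧ b = 0 ∧ d = 0)) : P ≤ H := by
  have : Fact (Nat.Prime 3) := ⟨Nat.prime_three⟩
  obtain ⟨S, hS⟩ := (IsPGroup.of_card (card_U h)).exists_le_sylow
  obtain ⟨Q, hQ⟩ := hP.exists_le_sylow
  obtain ⟨k, hk⟩ := S.isPGroup'.exists_card_eq
  have e : sU h = S := by
    refine eq_of_le_of_card_ge hS ?_
    have : k < 4 := by
      by_contra c
      exact h.syl (((pow_dvd_pow 3 (not_lt.1 c)).trans hk.symm.dvd).trans (card_subgroup_dvd_card _))
    rw [hk, card_U]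
    exact Nat.pow_le_pow_right (by norm_num) (by omega)
  obtain ⟨g, rfl⟩ := MulAction.exists_smul_eq X S Q
  have k : ∀ x ∈ P, g⁻¹ * x * g⁻¹⁻¹ ∈ H := fun x hx => by
    have := hQ hx
    rw [Sylow.coe_subgroup_smul, mem_pointwise_smul_iff_inv_smul_mem, ← e] at this
    obtain ⟨a, b, d, e⟩ := this
    rw [show g⁻¹ * x * g⁻¹⁻¹ = j a b d by simpa using e]
    exact h.le a b d
  have hg : g⁻¹ ∈ H := by
    by_contra c
    exact ne (h.ti _ c a b d (k _ hu))
  intro x hx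
  simpa [mul_assoc] using H.mul_mem (H.mul_mem (H.inv_mem hg) (k x hx)) hg

/-- a tangent vector of `W` lies in no other conjugate of `W` -/
theorem claim {y : X} (hy : y ∉ H) {b d e f : F3} (ne : nn b d e f ≠ 0) {w' : V5} (h0 : w' 0 = 0)
    (h1 : w' 1 = 0) (hw : nn b d e f = ρ y *ᵥ w') : False := by
  have : Fact (Nat.Prime 3) := ⟨Nat.prime_three⟩
  set w := nn b d e f with ew
  have vK : ∀ b d, j 0 b d ∈ st ρ w := fun b d => by
    show ρ (j 0 b d) *ᵥ w = w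
    rw [h.rj]
    exact fix_W b d rfl rfl
  obtain ⟨σ, hσ⟩ := H90.U5.exists_quot (act ρ) (st ρ w) (ln w) fun g hg u ⟨t, ht⟩ =>
    ⟨t, by show ρ g *ᵥ u.toAdd = _; rw [ht, mulVec_smul, show ρ g *ᵥ w = w from hg]⟩
  have hσ' : ∀ (g : st ρ w) (v : V5), σ g (Multiplicative.ofAdd v : Multiplicative V5) =
      (Multiplicative.ofAdd (ρ g *ᵥ v) : Multiplicative V5) := fun g v => hσ g _
  have tr : ∀ g : st ρ w, σ g = 1 → ∀ v : V5, ∃ t : F3, ρ g *ᵥ v = v + t • w := fun g e v =>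
    mk_eq.1 (by rw [← hσ', e]; rfl)
  let A : Subgroup (st ρ w) :=
    { carrier := {k | ∃ b d, (k : X) = j 0 b d}
      one_mem' := ⟨0, 0, (j_zero h).symm⟩
      mul_mem' := fun ⟨b, d, e⟩ ⟨B, D, E⟩ => ⟨_, _, by rw [Subgroup.coe_mul, e, E, j_mul h, add_zero]⟩
      inv_mem' := fun ⟨b, d, e⟩ => ⟨_, _, by rw [Subgroup.coe_inv, e, j_inv h, neg_zero]⟩ }
  have fa : ∀ b d, σ ⟨j 0 b d, vK b d⟩ = 1 → b = 0 ∧ d = 0 := fun b d e => by
    obtain ⟨t, ht⟩ := tr _ e ![1, 0, 0, 0, 0]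
    obtain ⟨t', ht'⟩ := tr _ e ![0, 1, 0, 0, 0]
    rw [h.rj, act_V1, add_left_cancel_iff] at ht ht'
    exact faith b d t t' _ _ _ ht ht'
  have bd : ¬ (b = 0 ∧ d = 0) := fun ⟨c1, c2⟩ => ne (by
    rw [ew, c1, c2]; ext i; fin_cases i <;> simp [nn])
  have pA : IsPGroup 3 A := fun ⟨k, B, D, e⟩ => ⟨1, Subtype.ext (Subtype.ext (by
    show (k : X) ^ 3 = 1
    rw [e, pow_succ, pow_two, j_mul h, j_mul h, ← j_zero h]
    congr 1
    · linear_combination B * three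
    · linear_combination D * three))⟩
  have pN : IsPGroup 3 σ.ker := fun ⟨n, hn⟩ => ⟨1, Subtype.ext (Subtype.ext (h.inj (by
    show ρ ((n : X) ^ 3) = ρ 1
    refine Matrix.ext_iff_mulVec.2 fun v => ?_
    obtain ⟨t, ht⟩ := tr n hn v
    have hw : ρ n *ᵥ w = w := n.2
    rw [map_one, one_mulVec, pow_succ, pow_two, map_mul, map_mul, ← mulVec_mulVec, ← mulVec_mulVec]
    simp only [ht, mulVec_add, mulVec_smul, hw, add_assoc, ← add_smul]
    rw [show t + (t + t) = 0 by linear_combination t * three, zero_smul, add_zero])))⟩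
  have kH : σ.ker ≤ H.subgroupOf (st ρ w) := fun n hn =>
    le_H h ((pN.to_sup_of_normal_left pA).map (st ρ w).subtype) (a := 0) (b := b) (d := d)
      ⟨⟨_, vK b d⟩, mem_sup_right (S := σ.ker) ⟨b, d, rfl⟩, rfl⟩ (fun c => bd c.2)
      ⟨n, mem_sup_left hn, rfl⟩
  have dif : ∀ B D (v : V5), ((Multiplicative.ofAdd v : Multiplicative V5) : Multiplicative V5 ⧸ ln w)⁻¹ *
      σ ⟨j 0 B D, vK B D⟩ (Multiplicative.ofAdd v : Multiplicative V5) =
      (Multiplicative.ofAdd (nn B D (v 0) (v 1)) : Multiplicative V5) := fun B D v => by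
    rw [hσ', h.rj, act_V1, ofAdd_add, QuotientGroup.mk_mul, inv_mul_cancel_left]
  have pV : IsPGroup 3 (Multiplicative V5) := IsPGroup.of_card (n := 5) (by simp)
  have q := H90.U5.jobQ 3 (st ρ w) (Multiplicative V5 ⧸ ln w) (H.subgroupOf _) A σ (pV.to_quotient _)
    (fun c => by
      have m : y * j 0 1 0 * y⁻¹ ∈ st ρ w := by
        show ρ (y * j 0 1 0 * y⁻¹) *ᵥ w = w
        rw [hw, mulVec_mulVec, ← map_mul, inv_mul_cancel_right, map_mul, ← mulVec_mulVec, h.rj,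
          fix_W 1 0 h0 h1]
      exact one_ne_zero (h.ti y hy 0 1 0 (subgroupOf_eq_top.1 c m)).2.1)
    (fun k ⟨B, D, e⟩ => show (k : X) ∈ H from e ▸ h.le 0 B D) kH
    (fun g hg k ⟨B, D, e⟩ c => by
      obtain ⟨-, rfl, rfl⟩ := h.ti g hg 0 B D (e ▸ c)
      rw [show k = 1 from Subtype.ext (e.trans (j_zero h)), map_one])
    (by
      rintro ⟨_, _⟩ ⟨B, D, rfl⟩ ⟨_, _⟩ ⟨B', D', rfl⟩ v
      induction v using QuotientGroup.induction_on with
      | H v =>
        rw [← ofAdd_toAdd v, dif, hσ', h.rj, fix_W B D rfl rfl])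
    ⟨_, vK b d⟩ ⟨b, d, rfl⟩ fun c => bd (fa b d c)
  have l1 : Nat.card (F3 × F3) ≤ Nat.card (A.map σ) :=
    Nat.card_le_card_of_injective (fun t => ⟨σ ⟨_, vK t.1 t.2⟩, _, ⟨t.1, t.2, rfl⟩, rfl⟩) fun s t c => by
      have c' : σ ⟨_, vK s.1 s.2⟩ = σ ⟨_, vK t.1 t.2⟩ := congrArg Subtype.val c
      obtain ⟨c1, c2⟩ := fa (t.1 - s.1) (t.2 - s.2) (by
        rw [← inv_mul_eq_one, ← map_inv, ← map_mul] at c'
        rw [← c']
        refine congrArg σ (Subtype.ext ?_)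
        show _ = (j 0 s.1 s.2)⁻¹ * j 0 t.1 t.2
        rw [j_inv h, j_mul h]
        ring_nf)
      exact Prod.ext (sub_eq_zero.1 c1).symm (sub_eq_zero.1 c2).symm
  obtain ⟨e1, f1, k⟩ := three_vals b d e f ne
  have l2 := Set.ncard_le_ncard (s := Set.range fun v : Multiplicative V5 ⧸ ln w => v⁻¹ * σ ⟨_, vK b d⟩ v)
    (t := Set.range fun t : F3 => ((Multiplicative.ofAdd (t • nn b d e1 f1) : Multiplicative V5) :
      Multiplicative V5 ⧸ ln w)) (by
      rintro _ ⟨v, rfl⟩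
      induction v using QuotientGroup.induction_on with
      | H v =>
        obtain ⟨t, l, c⟩ := k (v.toAdd 0) (v.toAdd 1)
        exact ⟨t, (mk_eq.2 ⟨l, c⟩).trans (dif b d v.toAdd).symm⟩)
  have l3 := Finite.card_range_le fun t : F3 =>
    ((Multiplicative.ofAdd (t • nn b d e1 f1) : Multiplicative V5) : Multiplicative V5 ⧸ ln w)
  rw [Nat.card_coe_set_eq] at l3
  simp only [Nat.card_prod, Nat.card_zmod] at l1 l3
  omega

omit h in
theorem tang : ∀ x y z : F3, y ^ 2 - x * z ≠ -1 → ∃ b d e f : F3, nn b d e f = ![0, 0, x, y, z] := by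
  decide +kernel

omit h in
theorem jobL5 : JobL5 := fun X _ _ ρ j H h => by
  obtain ⟨g, hg⟩ : ∃ g, g ∉ H := by
    by_contra c
    exact h.ne (eq_top_iff.2 fun g _ => not_not.1 (not_exists.1 c g))
  let O := {x : F3 × F3 × F3 // x ≠ 0 ∧ x.2.1 ^ 2 - x.1 * x.2.2 ≠ -1}
  let v : O → V5 := fun x => ![0, 0, x.1.1, x.1.2.1, x.1.2.2]
  have cO : Nat.card O = 20 := by rw [Nat.card_eq_fintype_card]; decide +kernel
  have := Nat.card_le_card_of_injective (fun p : sU h × O => ρ (p.1 * g) *ᵥ v p.2) fun ⟨u, x⟩ ⟨u', x'⟩ c => by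
    have c' : v x = ρ (g⁻¹ * ((u⁻¹ * u' : sU h) : X) * g⁻¹⁻¹) *ᵥ v x' := by
      have := congrArg (fun z => ρ ((u : X) * g)⁻¹ *ᵥ z) c
      simp only [mulVec_mulVec, ← map_mul, inv_mul_cancel, map_one, one_mulVec] at this
      rw [this]
      simp [mul_assoc]
    obtain ⟨a, b, d, e⟩ := (u⁻¹ * u').2
    by_cases z : a = 0 ∧ b = 0 ∧ d = 0
    · obtain ⟨rfl, rfl, rfl⟩ := z
      rw [j_zero h] at e
      rw [e, mul_one, mul_inv_cancel, map_one, one_mulVec] at c'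
      refine Prod.ext (inv_mul_eq_one.1 (Subtype.ext e)) (Subtype.ext ?_)
      exact Prod.ext (congrFun c' 2) (Prod.ext (congrFun c' 3) (congrFun c' 4))
    · obtain ⟨B, D, E, F, k⟩ := tang _ _ _ x.2.2
      refine (claim h (fun m => z (h.ti g⁻¹ (fun n => hg (by simpa using H.inv_mem n)) a b d (e ▸ m)))
        (b := B) (d := D) (e := E) (f := F) (fun n => x.2.1 ?_) (w' := v x') rfl rfl (k.trans c')).elim
      rw [k] at n
      exact Prod.ext (congrFun n 2) (Prod.ext (congrFun n 3) (congrFun n 4))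
  rw [Nat.card_prod, card_U, cO] at this
  simp at this

end H52.C3L5
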