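import Cfsg.Agent.H48.DP3Spec
import Cfsg.Agent.H3.DihQuat

/-! DP3-Inv: jobs `JobInv` and `JobM9`. -/

set_option autoImplicit false

namespace H52.DP3Inv

open Subgroup Cfsg H48.DP

universe u

/-- The dihedral quotient of `⟨c, t⟩` by `⟨t²⟩`. -/
theorem dih {H : Type*} [Group H] {p n : ℕ} (hp : p.Prime) (h3 : 3 < p) {c t : H}
    (hc : orderOf c = p) (ht : t ^ 2 ^ n = 1) (hi : t * c * t⁻¹ = c⁻¹) (hcm : Commute (t ^ 2) c)
    (htop : closure ({c, t} : Set H) = ⊤) :
    ∃ (N : Subgroup H) (_ : N.Normal), Nonempty (H ⧸ N ≃* DihedralGroup p) := by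
  have hcen : t ^ 2 ∈ center H := by
    rw [mem_center_iff]
    intro g
    have hg : g ∈ closure ({c, t} : Set H) := htop ▸ mem_top g
    have : closure ({c, t} : Set H) ≤ centralizer ({t ^ 2} : Set H) := by
      rw [closure_le]
      rintro x (rfl | rfl)
      · exact mem_centralizer_singleton_iff.2 hcm.eq.symm
      · exact mem_centralizer_singleton_iff.2 ((Commute.refl x).pow_right 2).eq
    exact mem_centralizer_singleton_iff.1 (this hg)
  have hle : zpowers (t ^ 2) ≤ center H := by rwa [zpowers_le]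
  have hN : (zpowers (t ^ 2)).Normal := ⟨fun a ha g => by
    have := mem_center_iff.1 (hle ha) g
    rw [this, mul_inv_cancel_right]; exact ha⟩
  refine ⟨zpowers (t ^ 2), hN, ?_⟩
  set π := QuotientGroup.mk' (zpowers (t ^ 2)) with hπ
  have := Fact.mk hp
  have hp2 : Nat.Coprime p 2 := (Nat.coprime_primes hp Nat.prime_two).2 (by omega)
  have hc1 : π c ≠ 1 := by
    intro h
    have hm : c ∈ zpowers (t ^ 2) := by
      rwa [hπ, QuotientGroup.mk'_apply, QuotientGroup.eq_one_iff] at h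
    obtain ⟨k, hk⟩ := mem_zpowers_iff.1 hm
    have h1 : c ^ 2 ^ n = 1 := by
      rw [← hk, ← zpow_natCast, ← zpow_mul, mul_comm, zpow_mul, zpow_natCast, ← pow_mul, mul_comm,
        pow_mul, ht, one_pow, one_zpow]
    have h2 : p ∣ 2 ^ n := hc ▸ orderOf_dvd_of_pow_eq_one h1
    have := (Nat.Coprime.pow_right n hp2).eq_one_of_dvd h2
    omega
  have hco : orderOf (π c) = p := by
    refine orderOf_eq_prime ?_ hc1
    rw [← map_pow, ← hc, pow_orderOf_eq_one, map_one]
  have hinv : π t * π c * (π t)⁻¹ = (π c)⁻¹ := by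
    rw [← map_inv, ← map_mul, ← map_mul, hi, map_inv]
  refine H3.nonempty_mulEquiv_dihedral_of_closure (a := π c) (b := π t) hco ?_ hinv ?_ ?_
  · rw [← map_pow, hπ, QuotientGroup.mk'_apply, QuotientGroup.eq_one_iff]
    exact mem_zpowers _
  · intro hm
    obtain ⟨k, hk⟩ := mem_zpowers_iff.1 hm
    have hcom : Commute (π t) (π c) := hk ▸ ((Commute.refl (π c)).zpow_left k)
    have h1 : π c = (π c)⁻¹ := by rw [← hinv, hcom.eq, mul_inv_cancel_right]
    have h2 : π c ^ 2 = 1 := (sq (π c)).trans (eq_inv_iff_mul_eq_one.1 h1)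
    have h4 : p ∣ 2 := hco ▸ orderOf_dvd_of_pow_eq_one h2
    have := Nat.le_of_dvd two_pos h4
    omega
  · have : closure ({π c, π t} : Set _) = (closure ({c, t} : Set H)).map π := by
      rw [MonoidHom.map_closure, Set.image_pair]
    rw [this, htop]
    exact map_top_of_surjective _ (QuotientGroup.mk'_surjective _)

theorem jobInv : JobInv.{u} := by
  classical
  intro X _ _ hND p hp h3 A B hA hB hAB a ha
  by_contra hna
  obtain ⟨n, hn⟩ := hA ⟨a, ha⟩
  have hn' : a ^ 2 ^ n = 1 := by simpa using congrArg Subtype.val hn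
  have hex : ∃ k, a ^ 2 ^ k ∈ Ce B := ⟨n, hn' ▸ one_mem _⟩
  have hk := Nat.find_spec hex
  have hk0 : Nat.find hex ≠ 0 := by
    intro h; rw [h] at hk; exact hna (by simpa using hk)
  obtain ⟨j, hj⟩ := Nat.exists_eq_succ_of_ne_zero hk0
  have hjn : a ^ 2 ^ j ∉ Ce B := Nat.find_min hex (by omega)
  set t := a ^ 2 ^ j with htd
  have ht2 : t ^ 2 ∈ Ce B := by
    rw [htd, ← pow_mul, ← pow_succ]; rw [hj] at hk; exact hk
  have htn : t ^ 2 ^ n = 1 := by rw [htd, ← pow_mul, mul_comm, pow_mul, hn', one_pow]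
  have htN : t ∈ No B := hAB (pow_mem ha _)
  have : ∃ b ∈ B, b * t ≠ t * b := by
    by_contra h
    push Not at h
    exact hjn (mem_centralizer_iff.2 h)
  obtain ⟨b, hb, hbt⟩ := this
  have hconj : ∀ x ∈ B, t * x * t⁻¹ ∈ B := fun x hx => (mem_normalizer_iff.1 htN x).1 hx
  set c0 := b⁻¹ * (t * b * t⁻¹) with hc0
  have hc0B : c0 ∈ B := mul_mem (inv_mem hb) (hconj b hb)
  have hc01 : c0 ≠ 1 := by
    intro h
    apply hbt
    have : t * b * t⁻¹ = b := by
      have := congrArg (b * ·) h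
      simpa [hc0] using this
    calc b * t = t * b * t⁻¹ * t := by rw [this]
      _ = t * b := by group
  have hbt2 : b * t ^ 2 = t ^ 2 * b := mem_centralizer_iff.1 ht2 b hb
  have hi0 : t * c0 * t⁻¹ = c0⁻¹ := by
    have e : t * c0 * t⁻¹ = t * b⁻¹ * t⁻¹ * (t ^ 2 * b) * (t ^ 2)⁻¹ := by rw [hc0, sq]; group
    rw [e, ← hbt2, hc0]; group
  have := Fact.mk hp
  obtain ⟨m, hm⟩ := IsPGroup.iff_orderOf.1 hB ⟨c0, hc0B⟩
  have hm' : orderOf c0 = p ^ m := by rw [← hm]; exact (Subgroup.orderOf_mk _ _).symm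
  have hm0 : m ≠ 0 := by
    rintro rfl
    exact hc01 (orderOf_eq_one_iff.1 (by simpa using hm'))
  obtain ⟨l, rfl⟩ := Nat.exists_eq_succ_of_ne_zero hm0
  set c := c0 ^ p ^ l with hcd
  have hco : orderOf c = p := by
    rw [hcd, orderOf_pow_of_dvd (pow_ne_zero _ hp.ne_zero) (hm' ▸ pow_dvd_pow p (Nat.le_succ l)),
      hm', pow_succ, Nat.mul_div_cancel_left _ (pow_pos hp.pos l)]
  have hcB : c ∈ B := pow_mem hc0B _
  have hi : t * c * t⁻¹ = c⁻¹ := by rw [hcd, ← conj_pow, hi0, inv_pow]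
  have hcm : c * t ^ 2 = t ^ 2 * c := mem_centralizer_iff.1 ht2 c hcB
  set H := closure ({c, t} : Set X) with hH
  have hcH : c ∈ H := subset_closure (by simp)
  have htH : t ∈ H := subset_closure (by simp)
  obtain ⟨N, hN, ⟨e⟩⟩ := dih (H := H) (n := n) hp h3 (c := ⟨c, hcH⟩) (t := ⟨t, htH⟩)
    (by rw [Subgroup.orderOf_mk, hco]) (Subtype.ext (by simpa using htn))
    (Subtype.ext (by simpa using hi)) (Subtype.ext (by simpa using hcm.symm)) (by
      have h := closure_closure_coe_preimage (k := ({c, t} : Set X))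
      rw [← h]
      congr 1
      ext x
      simp [Subtype.ext_iff])
  exact (hND p hp h3 H N).false e

theorem jobM9 : JobM9.{u} := by
  classical
  intro G _ _ D y a hD hy hyN
  set x := y ^ 3 ^ (a + 1) with hx
  have hyx : ∀ g ∈ zpowers y, Commute g x := fun g hg => by
    obtain ⟨k, rfl⟩ := mem_zpowers_iff.1 hg
    exact ((Commute.refl y).pow_right _).zpow_left k
  have hzN : zpowers y ≤ No D := by rwa [zpowers_le]
  let S := {d : G // d ∈ D ∧ d ∉ C1 x}
  let : MulAction (zpowers y) S :=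
    { smul := fun g s => ⟨g * s * (g : G)⁻¹, (mem_normalizer_iff.1 (hzN g.2) s).1 s.2.1, fun h => by
        apply s.2.2
        have h1 := mem_centralizer_singleton_iff.1 h
        have h2 := (hyx g g.2).eq
        apply mem_centralizer_singleton_iff.2
        calc (s : G) * x = (g : G)⁻¹ * (g * s * (g : G)⁻¹ * (g * x)) := by group
          _ = (g : G)⁻¹ * (g * s * (g : G)⁻¹ * x) * g := by rw [h2]; group
          _ = (g : G)⁻¹ * (x * g) * s := by rw [h1]; group
          _ = x * s := by rw [← h2]; group⟩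
      one_smul := fun s => Subtype.ext (by
        change ((1 : zpowers y) : G) * s * ((1 : zpowers y) : G)⁻¹ = s
        simp)
      mul_smul := fun g h s => Subtype.ext (by
        change ((g * h : zpowers y) : G) * s * ((g * h : zpowers y) : G)⁻¹ =
          g * (h * s * (h : G)⁻¹) * (g : G)⁻¹
        push_cast; group) }
  have hfree : ∀ s : S, MulAction.stabilizer (zpowers y) s = ⊥ := by
    intro s
    rw [eq_bot_iff]
    intro g hg
    rw [mem_bot]
    by_contra hg1
    have hgs : (g : G) * s * (g : G)⁻¹ = s := congrArg Subtype.val hg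
    have hgC : (g : G) ∈ C1 (s : G) := mem_centralizer_singleton_iff.2 (by
      calc (g : G) * s = g * s * (g : G)⁻¹ * g := by group
        _ = s * g := by rw [hgs])
    obtain ⟨k, hk⟩ := (mem_powers_iff_mem_zpowers.2 g.2)
    have hk' : y ^ k = g := hk
    obtain ⟨i, hi, hgc⟩ := (Nat.dvd_prime_pow Nat.prime_three).1 (Nat.gcd_dvd_right k (3 ^ (a + 2)))
    have hia : i ≤ a + 1 := by
      by_contra h
      have hi2 : i = a + 2 := by omega
      have hd : orderOf y ∣ k := by rw [hy, ← hi2, ← hgc]; exact Nat.gcd_dvd_left _ _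
      apply hg1
      apply Subtype.ext
      rw [← hk']; exact orderOf_dvd_iff_pow_eq_one.1 hd
    have hy1 : y ^ 3 ^ (a + 2) = 1 := by rw [← hy]; exact pow_orderOf_eq_one y
    have hyi : y ^ 3 ^ i ∈ C1 (s : G) := by
      have e : y ^ 3 ^ i = (y ^ k) ^ (Nat.gcdA k (3 ^ (a + 2))) *
          (y ^ 3 ^ (a + 2)) ^ (Nat.gcdB k (3 ^ (a + 2))) := by
        rw [← hgc, ← zpow_natCast, Nat.gcd_eq_gcd_ab, zpow_add, zpow_mul, zpow_mul, zpow_natCast,
          zpow_natCast]
      rw [e, hy1, one_zpow, mul_one, hk']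
      exact zpow_mem hgC _
    have hxC : x ∈ C1 (s : G) := by
      have e : x = (y ^ 3 ^ i) ^ 3 ^ (a + 1 - i) := by
        rw [hx, ← pow_mul, ← pow_add, Nat.add_sub_cancel' hia]
      have hm := pow_mem hyi (3 ^ (a + 1 - i))
      rwa [← e] at hm
    exact s.2.2 (mem_centralizer_singleton_iff.2 (mem_centralizer_singleton_iff.1 hxC).symm)
  have hS : 9 ∣ Nat.card S := by
    rw [Nat.card_congr (MulAction.selfEquivOrbitsQuotientProd hfree), Nat.card_prod, Nat.card_zpowers,
      hy]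
    exact Dvd.dvd.mul_left ⟨3 ^ a, by ring⟩ _
  have hsum : Nat.card ((C1 x).subgroupOf D) + Nat.card S = Nat.card D := by
    have e1 : S ≃ {d : D // ¬ d ∈ (C1 x).subgroupOf D} :=
      { toFun := fun s => ⟨⟨s, s.2.1⟩, s.2.2⟩
        invFun := fun d => ⟨d.1, d.1.2, d.2⟩
        left_inv := fun _ => rfl
        right_inv := fun _ => rfl }
    rw [Nat.card_congr e1, ← Nat.card_sum]
    exact Nat.card_congr (Equiv.sumCompl (fun d : D => d ∈ (C1 x).subgroupOf D))
  have hmul := ((C1 x).subgroupOf D).card_mul_index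
  have := Fact.mk Nat.prime_two
  obtain ⟨j, hj⟩ := IsPGroup.iff_card.1 (hD.to_subgroup ((C1 x).subgroupOf D))
  have hr : (C1 x).relIndex D = ((C1 x).subgroupOf D).index := rfl
  rw [hr]
  set r := ((C1 x).subgroupOf D).index
  have hr0 : r ≠ 0 := FiniteIndex.index_ne_zero
  obtain ⟨r', hr'⟩ := Nat.exists_eq_succ_of_ne_zero hr0
  rw [hj] at hsum hmul
  have h1 : Nat.card S = 2 ^ j * r' := by
    rw [hr', Nat.mul_succ] at hmul; omega
  rw [h1] at hS
  have h2 : 9 ∣ r' := (Nat.Coprime.pow_right j (by norm_num : Nat.Coprime 9 2)).dvd_of_dvd_mul_left hS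
  omega

end H52.DP3Inv
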