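import Cfsg.Agent.H40.E7TSpec
import Cfsg.Agent.S2403

/-! Tower E7T: `L₄(3)` is `(2,5,5)`-generated. -/

set_option autoImplicit false

namespace H52.E7CL4

open Cfsg H40.E7S H40.E7T Matrix

abbrev M4 : Type := Matrix (Fin 4) (Fin 4) (ZMod 3)
abbrev S4 : Type := Matrix.SpecialLinearGroup (Fin 4) (ZMod 3)

/-- The matrix with a given code. -/
def dec (n : ℕ) : M4 := of fun i j => ((n / 3 ^ (4 * i.1 + j.1) % 3 : ℕ) : ZMod 3)

/-- The codes of the generators. -/
def gc : ℕ → ℕ
  | 0 => 34130584
  | 1 => 32020227
  | _ => 28816400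

/-- Checks a chain of products. -/
def run : ℕ → List (ℕ × ℕ) → ℕ → Bool
  | a, [], t => decide (a = t)
  | a, p :: L, t => decide (dec a * dec (gc p.1) = dec p.2) && run p.2 L t

theorem det_gc (k : ℕ) : (dec (gc k)).det = 1 := by
  match k with
  | 0 => simp only [det_succ_row_zero, Fin.sum_univ_succ]; decide +kernel
  | 1 => simp only [det_succ_row_zero, Fin.sum_univ_succ]; decide +kernel
  | k + 2 =>
    show (dec (gc 2)).det = 1
    simp only [det_succ_row_zero, Fin.sum_univ_succ]; decide +kernel

/-- The generators. -/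
def gs (k : ℕ) : S4 := ⟨dec (gc k), det_gc k⟩

theorem run_val (L : List (ℕ × ℕ)) {a t : ℕ} {A : S4} (hA : A.1 = dec a) (h : run a L t = true) :
    (A * (L.map fun p => gs p.1).prod).1 = dec t := by
  induction L generalizing a A with
  | nil => rw [List.map_nil, List.prod_nil, mul_one, hA, of_decide_eq_true h]
  | cons p L ih =>
    rw [run, Bool.and_eq_true, decide_eq_true_iff] at h
    rw [List.map_cons, List.prod_cons, ← mul_assoc]
    exact ih (by rw [← h.1, ← hA]; rfl) h.2

theorem run_one (L : List (ℕ × ℕ)) {t : ℕ} (h : run 14408200 L t = true) :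
    (L.map fun p => gs p.1).prod.1 = dec t := by
  rw [← run_val L (A := 1) (show (1 : M4) = dec 14408200 by decide +kernel) h, one_mul]

def LT : List (ℕ × ℕ) := [(0, 34130584), (1, 31423186), (0, 16545125), (1, 19857812), (0, 39804782), (1, 2393410), (1, 35788550), (0, 16365685), (1, 921564), (1, 19473756), (0, 29696516), (1, 35498496), (0, 21972711), (1, 33878848), (1, 26587639), (1, 30233177), (1, 11425670), (0, 6887004), (1, 25744151), (1, 6003144), (0, 1216649), (1, 38298471), (1, 21402426), (1, 14855904), (0, 34274997), (1, 31537613), (1, 28029133), (1, 39876285), (1, 38210775), (0, 27828233), (1, 40193357), (1, 37992488), (1, 34130587), (0, 14408203)]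

def LW : List (ℕ × ℕ) := [(1, 32020227), (1, 1426814), (1, 38697480), (0, 15682214), (1, 27520351), (1, 21059015), (1, 9934692), (0, 4968034), (1, 10727840), (0, 10788372), (1, 29683958), (1, 35205410), (1, 41755764), (0, 19026993), (1, 12317961), (1, 2742428), (0, 7581440), (1, 6651063), (1, 25923847), (1, 6174495), (1, 34912518), (0, 24630695), (1, 13388736), (0, 3882414), (1, 9487399), (1, 22982491), (0, 42524264), (1, 28938145), (1, 16471336), (1, 887199), (2, 1240761)]

theorem runT : run 14408200 LT 14408203 = true := by decide +kernel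
theorem runW : run 14408200 LW 1240761 = true := by decide +kernel

/-- The projection. -/
abbrev pr : S4 →* ProjectiveSpecialLinearGroup (Fin 4) (ZMod 3) := QuotientGroup.mk' _

theorem ord5 {g : S4} (h : g.1 ^ 5 = 1) (h1 : ¬ ∃ r, scalar (Fin 4) r = g.1) :
    orderOf (pr g) = 5 := by
  have := Fact.mk Nat.prime_five
  refine orderOf_eq_prime (by rw [← map_pow, show g ^ 5 = 1 from Subtype.ext h, map_one]) fun e => ?_
  obtain ⟨r, -, e⟩ := Matrix.SpecialLinearGroup.mem_center_iff.1 ((QuotientGroup.eq_one_iff g).1 e)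
  exact h1 ⟨r, e⟩

theorem jobCL4 : JobCL4 := by
  refine ⟨pr (gs 0), pr (gs 1), ?_, ord5 (by decide +kernel) (by decide +kernel), ?_, ?_⟩
  · rw [← map_pow, show gs 0 ^ 2 = 1 from Subtype.ext (by decide +kernel), map_one]
  · rw [← map_mul]
    exact ord5 (by decide +kernel) (by decide +kernel)
  set K := Subgroup.closure {pr (gs 0), pr (gs 1)}
  have hz : Subgroup.center S4 ≤ K.comap pr := fun g hg => by
    rw [Subgroup.mem_comap, show pr g = 1 from (QuotientGroup.eq_one_iff g).2 hg]
    exact one_mem _
  have hg : ∀ k, gs k ∈ K.comap pr := fun k => by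
    match k with
    | 0 => exact Subgroup.subset_closure (Set.mem_insert _ _)
    | 1 => exact Subgroup.subset_closure (Set.mem_insert_of_mem _ rfl)
    | k + 2 =>
      exact hz (Matrix.SpecialLinearGroup.mem_center_iff.2 ⟨-1, by decide,
        (by decide +kernel : scalar (Fin 4) (-1 : ZMod 3) = dec (gc 2))⟩)
  have hL : ∀ L : List (ℕ × ℕ), (L.map fun p => gs p.1).prod ∈ K.comap pr := fun L =>
    Subgroup.list_prod_mem _ fun a ha => by
      obtain ⟨p, -, rfl⟩ := List.mem_map.1 ha
      exact hg _
  have h := Cfsg.Agent.S2403.result (K := ZMod 3) (by decide) 3 (by decide) _ _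
    ((run_one LT runT).trans (by decide +kernel)) ((run_one LW runW).trans (by decide +kernel))
  have h2 : K.comap pr = ⊤ := eq_top_iff.2 (h.ge.trans (sup_le ((Subgroup.closure_le _).2 (by
    rintro _ (rfl | rfl)
    exacts [hL _, hL _])) hz))
  rw [← Subgroup.map_comap_eq_self_of_surjective (QuotientGroup.mk'_surjective _) K, h2,
    Subgroup.map_top_of_surjective _ (QuotientGroup.mk'_surjective _)]

end H52.E7CL4
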