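import Cfsg.Agent.H36.NGSpec

/-! Tower NG, job F1. -/

set_option autoImplicit false

namespace H52.NGF1

open Cfsg H87 H39 H2.PR H36.NG H28

universe u

/-- A sum of `κ` roots of unity that is a nonzero multiple of `κ` has one root only. -/
theorem conc {e κ : ℕ} {m : ℕ → ℕ} {ω : ℂ} (hω : IsPrimitiveRoot ω e) (he : 0 < e)
    (hs : ∑ i ∈ Finset.range e, m i = κ) {z : ℤ}
    (hz : (z : ℂ) = ∑ i ∈ Finset.range e, (m i : ℂ) * ω ^ (i * 1)) (hκ : (κ : ℤ) ∣ z)
    (hz0 : z ≠ 0) : ∃ i < e, m i = κ := by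
  have hn : ∀ i, ‖ω ^ i‖ = 1 := fun i => by rw [norm_pow, hω.norm'_eq_one he.ne', one_pow]
  obtain ⟨s, hs1, hsz⟩ : ∃ s : ℝ, (s = 1 ∨ s = -1) ∧ (κ : ℝ) ≤ s * z := by
    have h1 : (κ : ℤ) ≤ |z| := Int.le_of_dvd (abs_pos.2 hz0) ((dvd_abs _ _).2 hκ)
    rcases abs_choice z with h | h
    · exact ⟨1, Or.inl rfl, by rw [h] at h1; rw [one_mul]; exact_mod_cast h1⟩
    · exact ⟨-1, Or.inr rfl, by rw [h] at h1; rw [neg_one_mul]; exact_mod_cast h1⟩
  have hre : (z : ℝ) = ∑ i ∈ Finset.range e, (m i : ℝ) * (ω ^ i).re := by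
    have := congrArg Complex.re hz
    simpa [Complex.re_sum] using this
  have hle : ∀ i, s * (ω ^ i).re ≤ 1 := fun i => by
    have h1 := Complex.abs_re_le_norm (ω ^ i)
    rw [hn] at h1
    obtain ⟨h2, h3⟩ := abs_le.1 h1
    rcases hs1 with rfl | rfl <;> linarith
  have hnn : ∀ i ∈ Finset.range e, 0 ≤ (m i : ℝ) * (1 - s * (ω ^ i).re) := fun i _ =>
    mul_nonneg (Nat.cast_nonneg _) (sub_nonneg.2 (hle i))
  have hsum : ∑ i ∈ Finset.range e, (m i : ℝ) * (1 - s * (ω ^ i).re) = κ - s * z := by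
    rw [hre, ← hs, Nat.cast_sum, Finset.mul_sum, ← Finset.sum_sub_distrib]
    exact Finset.sum_congr rfl fun i _ => by ring
  have h0 : ∑ i ∈ Finset.range e, (m i : ℝ) * (1 - s * (ω ^ i).re) = 0 :=
    le_antisymm (by rw [hsum]; linarith) (Finset.sum_nonneg hnn)
  have hval : ∀ i ∈ Finset.range e, m i ≠ 0 → ω ^ i = s := fun i hi hm => by
    have h1 := (Finset.sum_eq_zero_iff_of_nonneg hnn).1 h0 i hi
    have h2 : s * (ω ^ i).re = 1 := by
      rcases mul_eq_zero.1 h1 with h | h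
      · exact absurd (by exact_mod_cast h) hm
      · linarith
    have h3 : (ω ^ i).re = s := by rcases hs1 with rfl | rfl <;> linarith
    have h4 : (ω ^ i).re * (ω ^ i).re + (ω ^ i).im * (ω ^ i).im = 1 := by
      rw [← Complex.normSq_apply, Complex.normSq_eq_norm_sq, hn, one_pow]
    have h5 : (ω ^ i).im = 0 := by
      have : (ω ^ i).im * (ω ^ i).im = 0 := by rcases hs1 with rfl | rfl <;> nlinarith
      exact mul_self_eq_zero.1 this
    exact Complex.ext (by simpa using h3) (by simpa using h5)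
  have hκ0 : κ ≠ 0 := by
    rintro rfl
    exact hz0 (by simpa using hκ)
  obtain ⟨i, hi, hm⟩ := Finset.exists_ne_zero_of_sum_ne_zero (hs ▸ hκ0 :
    ∑ i ∈ Finset.range e, m i ≠ 0)
  refine ⟨i, Finset.mem_range.1 hi, ?_⟩
  rw [← hs]
  refine (Finset.sum_eq_single_of_mem i hi fun j hj hji => ?_).symm
  by_contra hj0
  exact hji (hω.pow_inj (Finset.mem_range.1 hj) (Finset.mem_range.1 hi)
    ((hval j hj hj0).trans (hval i hi hm).symm))

theorem fin {p U K n κ a a1 : ℕ} (hUK : p = U * K + 1) (hU : 2 ≤ U) (hle : U ≤ K)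
    (hn : n + K + 1 = p + U) (hκ : 0 < κ) (haκ : (κ : ℤ) ≤ a)
    (hdeg' : a * ((U : ℤ) * p + 1 - p) + κ * (K * (p + U)) ≤ n * p + 1)
    (ha1 : U * a1 + 1 = (U + 1) * κ) : κ = 1 := by
  have hpZ : (p : ℤ) = U * K + 1 := by exact_mod_cast hUK
  have hnZ : (n : ℤ) = p + U - K - 1 := by omega
  have hp2 : 2 ≤ p := by nlinarith
  have hpos : (0 : ℤ) ≤ U * p + 1 - p := by
    have h2 : (2 : ℤ) ≤ U := by exact_mod_cast hU
    have h3 : (0 : ℤ) ≤ p := by positivity
    nlinarith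
  have h1 : (κ : ℤ) * (U + K) * p ≤ n * p + 1 := by
    have h2 := mul_le_mul_of_nonneg_right haκ hpos
    have h3 : (κ : ℤ) * (U + K) * p = κ * (U * p + 1 - p) + κ * (K * (p + U)) := by
      rw [hpZ]; ring
    linarith
  have hκU : κ < U := by
    by_contra h2
    have h3 : (U : ℤ) ≤ κ := by exact_mod_cast not_lt.1 h2
    have h4 : (2 : ℤ) ≤ p := by exact_mod_cast hp2
    have h5 : (n : ℤ) + 1 ≤ U * (U + K) := by
      have : (2 : ℤ) ≤ U := by exact_mod_cast hU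
      have : (U : ℤ) ≤ K := by exact_mod_cast hle
      rw [hnZ, hpZ]; nlinarith
    have h6 : (U : ℤ) * (U + K) ≤ κ * (U + K) := mul_le_mul_of_nonneg_right h3 (by positivity)
    have h7 : ((n : ℤ) + 1) * p ≤ κ * (U + K) * p :=
      mul_le_mul_of_nonneg_right (h5.trans h6) (by positivity)
    linarith
  have h2 : (U : ℤ) ∣ κ - 1 := ⟨a1 - κ, by
    have : (U : ℤ) * a1 + 1 = (U + 1) * κ := by exact_mod_cast ha1
    linear_combination -this⟩
  have h3 := Int.eq_zero_of_dvd_of_nonneg_of_lt (by omega) (by omega) h2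
  omega

theorem jobF1 : JobF1.{u} := by
  classical
  intro G _ _ p U K n e t h _ P X Y δ ε d x y lam ω hA hKF hA2 hB2 hd κ hK he ha1
  obtain ⟨cf, ty, sc, m1, m2⟩ := hA
  have br := cf.br
  have hUK := cf.UK
  have hU := cf.two
  have hle := cf.le
  have hn := cf.hn
  have ht := br.t_pos
  have hte := br.te
  have he2 := ty.nm.e2
  have hp2 := br.hp.two_le
  obtain ⟨θ, hθ⟩ := br.Y_nonempty
  have hκ : 0 < κ := Nat.pos_of_ne_zero fun h0 => by rw [h0] at he; omega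
  have hpZ : (p : ℤ) = U * K + 1 := by exact_mod_cast hUK
  have hnZ : (n : ℤ) = p + U - K - 1 := by omega
  have hKZ : (K : ℤ) = t * κ := by exact_mod_cast hK
  have hY := ty.hY θ hθ
  rw [hd] at hY
  have hε : ε = 1 := by
    rcases br.sε with h1 | h1
    · exact h1
    · exfalso
      rw [h1] at hY
      have : (0 : ℤ) ≤ t * dg θ := by positivity
      have h2 : (2 : ℤ) ≤ p := by exact_mod_cast hp2
      have h3 : (0 : ℤ) ≤ p * K := by positivity
      nlinarith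
  subst hε
  have hdθ : (t : ℤ) * dg θ = K * (p + U) := by rw [hpZ] at hY ⊢; linarith
  have hx1 : x ≠ 1 := fun h1 => by
    have := m1.ord
    rw [h1, orderOf_one] at this
    omega
  have hxp : ¬ p ∣ orderOf x := fun h1 => by
    rw [m1.ord] at h1
    have := Nat.le_of_dvd (by omega) h1
    nlinarith
  have he1 : ¬ e ∣ 1 := fun h1 => by have := Nat.le_of_dvd one_pos h1; omega
  -- the characters of degree `p - 1`
  have hB : ∀ χ ∈ B1 p X δ, ∀ i < e, mm (LL lam i) χ = 0 := fun χ hχ i hi => by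
    obtain ⟨h1, h2, h3⟩ := Finset.mem_filter.1 hχ
    have h4 := m2.sum χ χ.2.isCharacter (-1) fun g hg => by rw [br.valX χ h1 g hg, h2]
    have h5 : (charDegree (χ : G → ℂ) : ℤ) + 1 = p := by exact_mod_cast h3
    have h6 : (p : ℤ) * (∑ i ∈ Finset.range e, mm (LL lam i) χ : ℕ) = 0 := by rw [h4]; linarith
    have h7 : ∑ i ∈ Finset.range e, mm (LL lam i) χ = 0 := by
      rcases mul_eq_zero.1 h6 with h | h
      · omega
      · exact_mod_cast h
    exact Finset.sum_eq_zero_iff.1 h7 i (Finset.mem_range.2 hi)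
  have hBx : ∑ χ ∈ B1 p X δ, (χ : G → ℂ) x = 0 := Finset.sum_eq_zero fun χ hχ => by
    have := m2.val χ χ.2.isCharacter 1 he1
    rw [pow_one] at this
    rw [this]
    exact Finset.sum_eq_zero fun i hi => by rw [hB χ hχ i (Finset.mem_range.1 hi)]; simp
  obtain ⟨k1, k2, z, hz, e1, e2, e3⟩ := hKF x hx1 hxp θ hθ
  set C := Nat.card (Subgroup.centralizer ({x} : Set G)) with hC
  have hα : ∑ χ ∈ A1 p U X δ, (χ : G → ℂ) x = z - 1 := by
    rw [hBx] at e3; linear_combination -e3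
  rw [hα] at e2
  have e2' : (t : ℤ) * k1 * C = (n * p + 1) + (p + U) * (z - 1) - (U + 1) * (p - K) * z := by
    exact_mod_cast e2
  obtain ⟨c, hc⟩ : e ∣ C := by
    rw [← m1.ord, ← Nat.card_zpowers]
    exact Subgroup.card_dvd_of_le (by
      rw [Subgroup.zpowers_le]; exact Subgroup.mem_centralizer_singleton_iff.2 rfl)
  have hCZ : (C : ℤ) = U * κ * c := by rw [hc, he]; push_cast; ring
  have htκ : (0 : ℤ) < t * κ := by positivity
  have e4 : (k1 : ℤ) * U * c = (U - 1) * (p + U) - (U ^ 2 - U - 1) * z := by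
    apply mul_left_cancel₀ htκ.ne'
    rw [hCZ, hnZ] at e2'
    rw [hpZ] at e2' ⊢
    rw [hKZ] at e2' ⊢
    linear_combination e2'
  have hz0 : z ≠ 0 := by
    rintro rfl
    have h1 : (U : ℤ) ∣ 1 := ⟨(U - 1) * (K + 1) + 1 - k1 * c, by
      rw [hpZ] at e4; linear_combination e4⟩
    have h2 := Int.le_of_dvd one_pos h1
    omega
  have hκz : (κ : ℤ) ∣ z := by
    have hU0 : (U : ℤ) ≠ 0 := by omega
    have h1 : ((k2 : ℤ) - k1) * κ * c = (p - K) * z := by
      apply mul_left_cancel₀ hU0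
      rw [hCZ] at e1
      linear_combination e1
    refine ⟨(k2 - k1) * c - t * (U - 1) * z, ?_⟩
    rw [hpZ, hKZ] at h1
    linear_combination -h1
  have hsY : ∑ i ∈ Finset.range e, mm (LL lam i) θ = κ := by
    have h1 := m2.sumY θ hθ
    rw [hdθ] at h1
    have hp0 : (0 : ℤ) < p * t := by positivity
    have h2 : ((∑ i ∈ Finset.range e, mlt (LL lam i) θ : ℕ) : ℤ) = κ := by
      apply mul_left_cancel₀ hp0.ne'
      have h3 : (K : ℤ) * (p + U) - (p - 1) * 1 = p * (t * κ) := by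
        rw [← hKZ]; rw [hpZ]; ring
      linear_combination h1 + h3
    exact_mod_cast h2
  have hval := m2.val θ θ.2.isCharacter 1 he1
  rw [pow_one, hz] at hval
  obtain ⟨i, hi, hmi⟩ := conc sc.prim (by omega) hsY hval hκz hz0
  -- count and degrees for `LL i`
  have hA2' : A2 p n X δ = ∅ := Finset.card_eq_zero.1 hA2
  have hB2' : B2 p K X δ = ∅ := Finset.card_eq_zero.1 hB2
  have hv : ∀ g, p ∣ orderOf g → LL lam i g = ((1 : ℤ) : ℂ) := fun g hg => by
    rw [m1.vL i g hg]; simp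
  have hcnt := m1.count _ (m1.chL i) 1 hv θ hθ
  have hdeg := m1.deg _ (m1.chL i) 1 hv θ hθ
  rw [ty.sum_X, hA2', hB2', Finset.sum_empty] at hcnt hdeg
  set a := ∑ χ ∈ A1 p U X δ, mlt (LL lam i) χ with ha
  have s1 : ∑ χ ∈ A1 p U X δ, δ χ * (mlt (LL lam i) χ : ℤ) = a := by
    rw [ha, Nat.cast_sum]
    exact Finset.sum_congr rfl fun χ hχ => by rw [(Finset.mem_filter.1 hχ).2.1, one_mul]
  have s2 : ∑ χ ∈ B1 p X δ, δ χ * (mlt (LL lam i) χ : ℤ) = 0 :=
    Finset.sum_eq_zero fun χ hχ => by rw [mlt_eq_mm, hB χ hχ i hi]; simp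
  have s3 : ((∑ χ ∈ A1 p U X δ, mlt (LL lam i) χ * dg χ : ℕ) : ℤ) = a * (U * p + 1 - p) := by
    rw [ha, Nat.cast_sum, Nat.cast_sum, Finset.sum_mul]
    exact Finset.sum_congr rfl fun χ hχ => by
      have h1 : (dg χ : ℤ) + p = U * p + 1 := by exact_mod_cast (Finset.mem_filter.1 hχ).2.2
      push_cast
      rw [show (dg χ : ℤ) = U * p + 1 - p by linarith]
  have s4 : mlt (LL lam i) (one G) ≤ 1 := by
    rw [m1.one i hi]; split_ifs <;> omega
  have hmi' : mlt (LL lam i) θ = κ := hmi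
  rw [s1, s2, br.δ_one, hmi'] at hcnt
  have haκ : (κ : ℤ) ≤ a := by omega
  rw [m1.dgL i, hmi'] at hdeg
  have hdeg' : a * ((U : ℤ) * p + 1 - p) + κ * (K * (p + U)) ≤ n * p + 1 := by
    rw [← s3, ← hdθ]
    have : ∑ χ ∈ A1 p U X δ, mlt (LL lam i) χ * dg χ + κ * (t * dg θ) ≤ n * p + 1 := by omega
    exact_mod_cast this
  exact fin hUK hU hle hn hκ haκ hdeg' ha1

end H52.NGF1
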