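import Cfsg.Agent.H52.RCSpec
import Cfsg.Agent.S3861
import Cfsg.Agent.H2.PrimeCore

set_option autoImplicit false

namespace H52.RCTop
open Subgroup H52.RC
universe u

theorem main (ka : KA.{u}) (lz : LZ.{u}) (v0 : V0.{u}) (b1 : B1.{u}) (fa : FA.{u}) (b4 : B4.{u})
    (hol : HOL.{u}) (dpair : DPair.{u}) (dd : DD.{u}) (dh : DH.{u}) (gw : GW.{u}) (bau : BAU.{u})
    (rok : ROK.{u}) (mu : MU.{u}) (ro1 : RO1.{u}) (ro2 : RO2.{u}) (ro3 : RO3.{u}) (ro4 : RO4.{u})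
    (G : Type u) [Group G] [Finite G] (m : ℕ) (L : Subgroup G) [L.Normal] (st : St m L) :
    False := by
  obtain ⟨v, hv, hn⟩ := v0 G m L st
  obtain ⟨hm, -, -, hrg⟩ := lz G m L st
  obtain ⟨k1, -, -, -, -, -, k7, -, -⟩ := ka G
  by_cases hnro : NRO (Ct L v ⊓ L)
  · have hl := bau G L st.2 v hv.rg hn ((k1 _).1 hnro)
    obtain ⟨-, -, -, -, -, -, h7, h8, -⟩ := hrg v hv.rg
    obtain ⟨P, -, hP, hc⟩ := k7 (Ct L v) ⊥ IsPGroup.of_bot bot_le
    have h9 := (h7 P hP).2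
    rw [hc, hn] at h9
    rw [card_Zc] at h8
    have key : ∀ s : ℕ, Nat.card (center L) < 2 ^ s → m + s ≤ v2 (⊤ : Subgroup G) → False := by
      intro s hs hle
      have h1 : 2 ^ (m + s) ≤ 2 ^ v2 (⊤ : Subgroup G) := Nat.pow_le_pow_right (by norm_num) hle
      rw [h9, pow_add] at h1
      have h2 := Nat.le_of_mul_le_mul_left h1 (by positivity)
      omega
    rcases mu L st.2 hl with h | ⟨h, hc⟩ | ⟨h, hc⟩ | ⟨h, hc⟩
    · exact key 1 (by omega) hm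
    · rcases h with h | h
      · obtain ⟨r, hd⟩ := ro1 _ h
        exact key 2 (by omega) (rok G m L st r 2 hd)
      · obtain ⟨r, hd⟩ := ro4 _ (Or.inl h)
        exact key 2 (by omega) (rok G m L st r 2 hd)
    · obtain ⟨r, hd⟩ := ro2 _ h
      exact key 5 (by omega) (rok G m L st r 5 hd)
    · obtain ⟨r, hd⟩ := ro3 _ h
      exact key 3 (by omega) (rok G m L st r 3 hd)
  · obtain ⟨ha, P, x, bc⟩ := b1 G m L st v hv hn hnro
    obtain ⟨f2, f4, f5⟩ := fa G m L st ha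
    obtain ⟨g, hg, hgP, hnc⟩ := hol G m L st (fun w hw => (f2 w hw).2) P v x bc
    have ng := b4 G m L st (fun w hw => (f2 w hw).2) P v x bc _ hgP (bc.rg.conj hg) hnc
    obtain ⟨Q, a, b, dc⟩ :=
      dpair G L st.2 (fun w hw => (f2 w hw).1) f4 f5 v g bc.rg hg (bc.cen hgP) hnc ng
    have h := gw G L Q st.2 dc.syl (dh G L Q a b dc (dd G L Q a b dc))
    have : ROC (L ⧸ center L) ∧ 2 ^ 2 ∣ Nat.card (L ⧸ center L) := by
      rcases h with h | h
      · exact ro1 _ h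
      · exact ro4 _ (Or.inr h)
    have := rok G m L st this.1 2 this.2
    omega

theorem oddCore_quot (G : Type u) [Group G] [Finite G] :
    Cfsg.oddCore (G ⧸ Cfsg.oddCore G) = ⊥ := H2.pPrimeCore_quotient_pPrimeCore 2 G

theorem odd_oddCore (G : Type u) [Group G] [Finite G] : Odd (Nat.card (Cfsg.oddCore G)) :=
  H2.odd_card_oddCore G

theorem final (r0 : R0.{u}) (r1a : R1a.{u}) (r1b : R1b.{u})
    (mn : ∀ (G : Type u) [Group G] [Finite G] (m : ℕ) (L : Subgroup G) [L.Normal], St m L → False)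
    {G : Type u} [Group G] [Finite G] (a : ℕ)
    (h : ∀ x : G, IsConj x x⁻¹ → x ∉ Subgroup.center G →
      ((Subgroup.centralizer ({x} : Set G)).index).factorization 2 = a) :
    ∃ N K : Subgroup G, N.Normal ∧ K.Normal ∧ N ≤ K ∧ Odd (Nat.card N) ∧ Odd K.index ∧
      ∃ j : ℕ, N.relIndex K = 2 ^ j := by
  have hH : H G ((Nat.card G).factorization 2 - a) := by
    intro x hx hc
    obtain ⟨g, hg⟩ := hx
    have h1 := h x (isConj_iff.2 ⟨g, hg⟩) hc
    have h2 := (C1 x).card_mul_index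
    have h3 := Nat.factorization_mul (Nat.card_pos (α := C1 x)).ne' (C1 x).index_ne_zero_of_finite
    rw [h2] at h3
    have h4 := congrArg (fun f => f 2) h3
    simp only [Finsupp.add_apply] at h4
    unfold v2
    change (C1 x).index.factorization 2 = a at h1
    omega
  set N := Cfsg.oddCore G with hN
  have hq := r0 G _ N (odd_oddCore G) hH
  have hnro : NRO (⊤ : Subgroup (G ⧸ N)) := by
    by_contra hno
    obtain ⟨L, hL, hqs⟩ := r1a _ _ hq (oddCore_quot G) hno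
    have := r1b _ _ hq L hL hqs
    exact mn _ _ L ⟨hq, hqs⟩
  obtain ⟨P⟩ : Nonempty (Sylow 2 (G ⧸ N)) := inferInstance
  have hP : (P : Subgroup (G ⧸ N)).Normal := by
    refine (Cfsg.Agent.S3861.result P).1 fun x hx ho hc => hx ?_
    obtain ⟨g, hg⟩ := isConj_iff.1 hc
    exact hnro x (mem_top _) g (mem_top _) ho hg
  refine ⟨N, (P : Subgroup (G ⧸ N)).comap (QuotientGroup.mk' N), inferInstance, inferInstance,
    ?_, odd_oddCore G, ?_, ?_⟩
  · intro x hx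
    rw [mem_comap, QuotientGroup.mk'_apply, (QuotientGroup.eq_one_iff x).2 hx]
    exact one_mem _
  · rw [index_comap_of_surjective _ (QuotientGroup.mk'_surjective N)]
    exact Nat.odd_iff.2 (by
      have := P.not_dvd_index
      omega)
  · obtain ⟨j, hj⟩ := P.isPGroup'.exists_card_eq
    refine ⟨j, ?_⟩
    rw [← hj]
    have e : N = (⊥ : Subgroup (G ⧸ N)).comap (QuotientGroup.mk' N) := by
      rw [MonoidHom.comap_bot, QuotientGroup.ker_mk']
    conv_lhs => arg 1; rw [e]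
    rw [relIndex_comap, map_comap_eq_self_of_surjective (QuotientGroup.mk'_surjective N),
      relIndex_bot_left]

theorem top
    (jKA : JobKA.{u}) (jKB : JobKB.{u}) (jKW : JobKW.{u}) (jZS : JobZS.{u}) (jEX : JobEX.{u})
    (jLC : JobLC.{u}) (jLX : JobLX.{u}) (jLZ : JobLZ.{u}) (jHYP : JobHYP.{u}) (jY1 : JobY1.{u})
    (jY2a : JobY2a.{u}) (jY2b : JobY2b.{u}) (jYY : JobYY.{u}) (jBAL : JobBAL.{u})
    (jDS : JobDS.{u}) (jV0 : JobV0.{u}) (jLW : JobLW.{u}) (jB1 : JobB1.{u}) (jFA : JobFA.{u})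
    (jB4 : JobB4.{u}) (jHS : JobHS.{u}) (jHOL : JobHOL.{u}) (jDPair : JobDPair.{u})
    (jDJ : JobDJ.{u}) (jDP : JobDP.{u}) (jDA : JobDA.{u}) (jDSW : JobDSW.{u}) (jDD : JobDD.{u})
    (jDH : JobDH.{u}) (jGW : JobGW.{u}) (jBAU : JobBAU.{u}) (jROK : JobROK.{u})
    (jMU : JobMU.{u}) (jRO1 : JobRO1.{u}) (jRO2 : JobRO2.{u}) (jRO3 : JobRO3.{u})
    (jRO4 : JobRO4.{u}) (jR0 : JobR0.{u}) (jR1a : JobR1a.{u}) (jR1b : JobR1b.{u})
    {G : Type u} [Group G] [Finite G] (a : ℕ)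
    (h : ∀ x : G, IsConj x x⁻¹ → x ∉ Subgroup.center G →
      ((Subgroup.centralizer ({x} : Set G)).index).factorization 2 = a) :
    ∃ N K : Subgroup G, N.Normal ∧ K.Normal ∧ N ≤ K ∧ Odd (Nat.card N) ∧ Odd K.index ∧
      ∃ j : ℕ, N.relIndex K = 2 ^ j := by
  have pKA : KA.{u} := jKA
  have pKB : KB.{u} := jKB pKA
  have pKW : KW.{u} := jKW pKA
  have pZS : ZS.{u} := jZS pKA
  have pEX : EX.{u} := jEX pKA pZS
  have pLC : LC.{u} := jLC pKA pKB
  have pLX : LX.{u} := jLX pKA pKB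
  have pLZ : LZ.{u} := jLZ pKA pKB pZS pEX pLC
  have pHYP : HYP.{u} := jHYP pKA pKB pKW
  have pY1 : Y1.{u} := jY1 pKA pKB pLC pLZ
  have pY2a : Y2a.{u} := jY2a pKA pKB pLC pLZ pHYP
  have pY2b : Y2b.{u} := jY2b pKA pZS
  have pYY : YY.{u} := jYY pKA pLZ pY1 pY2a pY2b
  have pBAL : BAL.{u} := jBAL pKA pLZ
  have pDS : DS.{u} := jDS pKA pLZ
  have pV0 : V0.{u} := jV0 pKA pEX pDS
  have pLW : LW.{u} := jLW pKA pKB pLX pLZ pYY pBAL pDS
  have pB1 : B1.{u} := jB1 pKA pKB pLZ pHYP pYY pLW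
  have pFA : FA.{u} := jFA pKA pZS pLZ pYY
  have pB4 : B4.{u} := jB4 pKA pLZ pBAL
  have pHS : HS.{u} := jHS pKA
  have pHOL : HOL.{u} := jHOL pKA pKW pZS pLZ pBAL pHS
  have pDPair : DPair.{u} := jDPair pKA pZS
  have pDJ : DJ.{u} := jDJ pKA pZS
  have pDP : DP.{u} := jDP pKA pZS pDJ
  have pDA : DA.{u} := jDA pKA pZS pDJ pDP
  have pDSW : DSW.{u} := jDSW pKA
  have pDD : DD.{u} := jDD pKA pZS pDJ pDP pDA pDSW
  have pDH : DH.{u} := jDH pKA pZS pDJ pDP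
  have pGW : GW.{u} := jGW pKA pZS
  have pBAU : BAU.{u} := jBAU pKA pZS
  have pROK : ROK.{u} := jROK pKA pKB pZS
  have pMU : MU.{u} := jMU
  have pRO1 : RO1.{u} := jRO1
  have pRO2 : RO2.{u} := jRO2
  have pRO3 : RO3.{u} := jRO3
  have pRO4 : RO4.{u} := jRO4
  have pR0 : R0.{u} := jR0 pKA
  have pR1a : R1a.{u} := jR1a pKA pKB pLX
  have pR1b : R1b.{u} := jR1b pKA pZS pEX pLC
  exact final pR0 pR1a pR1b (fun G _ _ m L _ st => main pKA pLZ pV0 pB1 pFA pB4 pHOL pDPair pDD pDH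
    pGW pBAU pROK pMU pRO1 pRO2 pRO3 pRO4 G m L st) a h

end H52.RCTop
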