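import Cfsg.Agent.H30.SQSpec

/-! The local hypotheses on a Sylow 2-subgroup (slot SQ-Hy). -/

set_option autoImplicit false

open Cfsg Subgroup

namespace H52.SQHy

open H30.SQ

universe u

variable {G : Type*} [Group G]

theorem mem_c1 {x s : G} : s ∈ centralizer ({x} : Set G) ↔ Commute s x :=
  mem_centralizer_singleton_iff

theorem ext_of_syl [Finite G] {T : Subgroup G} (hT : IsPGroup 2 T) {x : G} (hx : x ∈ T)
    (ho : ¬ 2 ∣ (T ⊓ centralizer ({x} : Set G)).relIndex (centralizer ({x} : Set G))) :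
    Ext T x := by
  refine ⟨hx, fun y _ hyx => ?_⟩
  obtain ⟨k, hk⟩ := isConj_iff.mp hyx
  have hQ : IsPGroup 2 ((T ⊓ centralizer ({y} : Set G)).map (MulAut.conj k).toMonoidHom) :=
    (hT.to_le inf_le_left).map _
  have hQH : (T ⊓ centralizer ({y} : Set G)).map (MulAut.conj k).toMonoidHom ≤
      centralizer ({x} : Set G) := by
    rintro _ ⟨s, hs, rfl⟩
    rw [mem_c1, ← hk]
    exact (mem_c1.mp hs.2).map (MulAut.conj k)
  obtain ⟨c, hc, h⟩ := syl_conj inf_le_right (hT.to_le inf_le_left) ho hQ hQH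
  refine ⟨c * k, ?_, fun s hs hsy => ?_⟩
  · have e := (mem_c1.mp hc).eq
    calc c * k * y * (c * k)⁻¹ = c * (k * y * k⁻¹) * c⁻¹ := by group
      _ = x := by rw [hk, e, mul_inv_cancel_right]
  · have := (h (k * s * k⁻¹) ⟨s, ⟨hs, mem_c1.mpr hsy⟩, rfl⟩).1
    have e : c * k * s * (c * k)⁻¹ = c * (k * s * k⁻¹) * c⁻¹ := by group
    rwa [e]

theorem br_of_syl [Finite G] {T : Subgroup G} (hT : IsPGroup 2 T) {x : G} (hx : x ∈ T)
    (ho : ¬ 2 ∣ (T ⊓ centralizer ({x} : Set G)).relIndex (centralizer ({x} : Set G)))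
    (h4 : ¬ 4 ∣ (centralizer ({x} : Set G)).index) : Br T x := by
  have := Fact.mk Nat.prime_two
  set C := centralizer ({x} : Set G) with hC
  have e1 := relIndex_mul_index (inf_le_right : T ⊓ C ≤ C)
  have e2 := relIndex_mul_index (inf_le_left : T ⊓ C ≤ T)
  obtain ⟨j, hj⟩ := hT.index ((T ⊓ C).subgroupOf T)
  have hj' : (T ⊓ C).relIndex T = 2 ^ j := hj
  have hle : j ≤ 1 := by
    by_contra hlt
    apply h4
    have h1 : 4 ∣ (T ⊓ C).relIndex C * C.index := by
      rw [e1, ← e2, hj']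
      exact Dvd.dvd.mul_right (pow_dvd_pow 2 (by omega : 2 ≤ j)) _
    have h2 : Nat.Coprime 4 ((T ⊓ C).relIndex C) :=
      Nat.Coprime.pow_left 2 ((Nat.Prime.coprime_iff_not_dvd Nat.prime_two).mpr ho)
    exact h2.dvd_of_dvd_mul_left h1
  refine ⟨hx, fun a ha b hb => ?_⟩
  have key : ∀ s (hs : s ∈ T), (⟨s, hs⟩ : T) ∈ (T ⊓ C).subgroupOf T ↔ Commute s x := fun s hs =>
    ⟨fun h => mem_c1.mp h.2, fun h => ⟨hs, mem_c1.mpr h⟩⟩
  rcases Nat.le_one_iff_eq_zero_or_eq_one.mp hle with rfl | rfl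
  · left
    rw [pow_zero, index_eq_one] at hj
    exact (key a ha).mp (hj ▸ mem_top _)
  · rw [pow_one] at hj
    by_cases h1 : Commute a x
    · exact Or.inl h1
    by_cases h2 : Commute b x
    · exact Or.inr (Or.inl h2)
    refine Or.inr (Or.inr ((key (a * b) (T.mul_mem ha hb)).mp ?_))
    have := (mul_mem_iff_of_index_two hj (a := ⟨a, ha⟩) (b := ⟨b, hb⟩)).mpr
      (by rw [key, key]; exact iff_of_false h1 h2)
    exact this

theorem exists_star [Finite G] {T : Subgroup G} (hT : IsPGroup 2 T) (hi : ¬ 2 ∣ T.index) {x : G}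
    (hx : x ∈ T) : ∃ g : G, g * x * g⁻¹ ∈ T ∧
      ¬ 2 ∣ (T ⊓ centralizer ({g * x * g⁻¹} : Set G)).relIndex
        (centralizer ({g * x * g⁻¹} : Set G)) := by
  have := Fact.mk Nat.prime_two
  set C := centralizer ({x} : Set G) with hC
  have hz : IsPGroup 2 (zpowers x) := hT.to_le (zpowers_le.mpr hx)
  obtain ⟨P, hP⟩ := (hz.comap_subtype (K := C)).exists_le_sylow
  have hxC : x ∈ C := mem_c1.mpr (Commute.refl x)
  have hxP : x ∈ (P : Subgroup C).map C.subtype := ⟨⟨x, hxC⟩, hP (mem_zpowers x), rfl⟩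
  have hP0 : IsPGroup 2 ((P : Subgroup C).map C.subtype) := P.isPGroup'.map _
  have ho : ¬ 2 ∣ ((P : Subgroup C).map C.subtype).relIndex C := by
    rw [relIndex, subgroupOf, comap_map_eq_self_of_injective C.subtype_injective]
    exact P.not_dvd_index
  obtain ⟨g, -, hg⟩ := syl_conj (le_top : T ≤ ⊤) hT (by rwa [relIndex_top_right]) hP0 le_top
  refine ⟨g, hg x hxP, fun h => ho ?_⟩
  have hC' : centralizer ({g * x * g⁻¹} : Set G) = C.map (MulAut.conj g).toMonoidHom := by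
    ext s
    constructor
    · intro hs
      refine ⟨g⁻¹ * s * g, mem_c1.mpr ?_, by simp [mul_assoc]⟩
      have := (mem_c1.mp hs).map (MulAut.conj g⁻¹)
      simpa [mul_assoc] using this
    · rintro ⟨s, hs, rfl⟩
      exact mem_c1.mpr ((mem_c1.mp hs).map (MulAut.conj g))
  have hle : ((P : Subgroup C).map C.subtype).map (MulAut.conj g).toMonoidHom ≤
      T ⊓ centralizer ({g * x * g⁻¹} : Set G) := by
    refine le_inf ?_ ?_
    · rintro _ ⟨s, hs, rfl⟩
      exact hg s hs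
    · rw [hC']
      exact map_mono (map_subtype_le _)
  have h2 := h.trans (relIndex_dvd_of_le_left _ hle)
  rwa [hC', relIndex_map_map_of_injective _ _ (MulAut.conj g).injective] at h2

theorem jobHy : JobHy.{u} := by
  intro G _ _ T h4 hna hns
  have := Fact.mk Nat.prime_two
  have hT : IsPGroup 2 (T : Subgroup G) := T.isPGroup'
  have hi : ¬ 2 ∣ (T : Subgroup G).index := T.not_dvd_index
  have hex : ∃ e : ℕ, ∀ x ∈ (T : Subgroup G), x ^ 2 ^ e = 1 := by
    obtain ⟨k, hk⟩ := IsPGroup.iff_card.mp hT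
    refine ⟨k, fun x hx => ?_⟩
    have h : (⟨x, hx⟩ : (T : Subgroup G)) ^ Nat.card (T : Subgroup G) = 1 := pow_card_eq_one'
    rw [hk] at h
    exact congrArg Subtype.val h
  classical
  have hs := Nat.find_spec hex
  have h2 : 2 ≤ Nat.find hex := by
    by_contra hlt
    apply hna
    have hsq : ∀ x ∈ (T : Subgroup G), x * x = 1 := fun x hx => by
      have h1 : 2 ^ Nat.find hex ∣ 2 ^ 1 := pow_dvd_pow 2 (by omega)
      obtain ⟨c, hc⟩ := h1
      have : x ^ (2 ^ 1) = 1 := by rw [hc, pow_mul, hs x hx, one_pow]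
      rwa [pow_one, sq] at this
    refine ⟨⟨fun a b => Subtype.ext ?_⟩⟩
    have ha := eq_inv_of_mul_eq_one_left (hsq a a.2)
    have hb := eq_inv_of_mul_eq_one_left (hsq b b.2)
    have hab := eq_inv_of_mul_eq_one_left (hsq (a * b) (mul_mem a.2 b.2))
    show (a : G) * b = b * a
    rw [hab, mul_inv_rev, ← ha, ← hb]
  obtain ⟨m, hm⟩ : ∃ m, Nat.find hex = m + 2 := ⟨Nat.find hex - 2, by omega⟩
  refine ⟨2 ^ (m + 1), hT, hi, ⟨m, rfl⟩, fun x hx => ?_, ?_, fun x hx => ?_, fun z hz => ?_, hns⟩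
  · rw [← pow_succ', ← hm]
    exact hs x hx
  · have := Nat.find_min hex (show m + 1 < Nat.find hex by omega)
    push Not at this
    exact this
  · obtain ⟨g, hg, ho⟩ := exists_star hT hi hx
    refine ⟨g, br_of_syl hT hg ho (h4 _ ?_), ext_of_syl hT hg ho⟩
    obtain ⟨k, -, hk⟩ := (Nat.dvd_prime_pow Nat.prime_two).mp (orderOf_dvd_of_pow_eq_one (hs _ hg))
    exact ⟨2, k, Nat.prime_two, hk⟩
  · refine ext_of_syl hT hz.1 fun h => hi ?_
    have hle : (T : Subgroup G) ≤ centralizer ({z} : Set G) := fun s hs => mem_c1.mpr (hz.2 s hs)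
    rw [inf_eq_left.mpr hle] at h
    exact h.trans (relIndex_dvd_index_of_le hle)

end H52.SQHy
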