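/- STD-R (S3323): common tools for the jobs W2 and F2. -/
import Cfsg.Agent.H65.SRDW

set_option autoImplicit false
set_option linter.unusedSectionVars false
set_option linter.unusedVariables false
set_option linter.unusedSimpArgs false

open Subgroup H63.Oc H64.SG H65.SR
open scoped commutatorElement

universe u v

namespace H52.SR

attribute [-simp] Subgroup.mem_map

variable {K : Type*} [Field K] [Fintype K] [CharP K 2] {T : TF K} {G : Type*} [Group G] [Finite G]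
  {A : AD T G} {t : G} {P : Par A t (K × K)} {sw : Bool} {π : G → K × K}

theorem c8_mul (a b : G) : c8 A (a * b) = c8 A a * c8 A b := by simp only [c8_eq, c6_mul, c3_mul]
theorem c8_inv (a : G) : c8 A a⁻¹ = (c8 A a)⁻¹ := by simp only [cj_c8]; group
theorem c8_inj {a b : G} (h : c8 A a = c8 A b) : a = b := c6_inj (c3_inj (c6_inj h))
theorem c0_mul (a b : G) : c0 A (a * b) = c0 A a * c0 A b := by simp only [c0_eq, c8_mul, c3_mul]
theorem c8_t (h : H0 A t) (a : G) : c8 A (t * a * t) = t * c8 A a * t := by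
  simp only [c8_eq, h.c6_t, h.c3_t]
theorem mem_U8s {g : G} : g ∈ U8s A t ↔ ∃ y ∈ U4s A t, g = c8 A y := by
  simp only [U8s_eq, mem_cjs', cj_c8]
theorem mem_A8 {g : G} : g ∈ A8 A t ↔ ∃ y ∈ A4 A t, g = c8 A y := by
  have : A8 A t = cjs (A.n1 * (A.n8 * A.n1)) (A4 A t) := by rw [← cjs_cjs, ← cjs_cjs]; rfl
  simp only [this, mem_cjs', cj_c8]

theorem odd_card {O : Subgroup G} (h : ∀ g ∈ O, Odd (orderOf g)) : Odd (Nat.card O) := by
  by_contra h2
  rw [Nat.not_odd_iff_even, even_iff_two_dvd] at h2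
  have : Fact (Nat.Prime 2) := ⟨Nat.prime_two⟩
  obtain ⟨x, hx⟩ := exists_prime_orderOf_dvd_card' 2 h2
  have := h x x.2
  rw [orderOf_coe, hx] at this
  exact absurd this (by decide)

theorem mem_T2 (dw : DW P sw π) {k : G} : k ∈ T2 P sw π ↔
    ∃ a b : (K × K)ˣ, Dg2 P sw π k a b ∧ (a : K × K).1 = 1 ∧ (b : K × K).1 = 1 := by
  refine ⟨fun hk => ?_, fun hk => subset_closure hk⟩
  have inv1 : ∀ a : (K × K)ˣ, (a : K × K).1 = 1 → ((a⁻¹ : (K × K)ˣ) : K × K).1 = 1 := fun a ha => by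
    have := congrArg Prod.fst a.inv_mul
    rwa [Prod.fst_mul, ha, mul_one] at this
  induction hk using closure_induction with
  | mem x hx => exact hx
  | one => exact ⟨_, _, by simpa using dw.h 1, rfl, rfl⟩
  | mul x y _ _ hx hy =>
    obtain ⟨a, b, h, ha, hb⟩ := hx
    obtain ⟨a', b', h', ha', hb'⟩ := hy
    exact ⟨_, _, dw.mul h h', by simp [ha, ha'], by simp [hb, hb']⟩
  | inv x _ hx =>
    obtain ⟨a, b, h, ha, hb⟩ := hx
    exact ⟨_, _, dw.inv h, inv1 a ha, inv1 b hb⟩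

theorem T2_odd (dw : DW P sw π) : Odd (Nat.card (T2 P sw π)) := odd_card fun g hg => by
  obtain ⟨a, b, h, -⟩ := (mem_T2 dw).1 hg
  exact dw.odd h

theorem T2_ns (dw : DW P sw π) {k : G} {a b : (K × K)ˣ} (h : Dg2 P sw π k a b) : k ∈ Ns (T2 P sw π) :=
  mem_ns_of fun g hg => by
    obtain ⟨a', b', h', ha, hb⟩ := (mem_T2 dw).1 hg
    refine (mem_T2 dw).2 ⟨_, _, dw.mul (dw.mul h h') (dw.inv h), ?_, ?_⟩
    · rwa [mul_inv_cancel_comm]
    · rwa [mul_inv_cancel_comm]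

theorem T2_cH (dw : DW P sw π) : A.h.range ≤ Cs (T2 P sw π) := cs_symm fun g hg => by
  obtain ⟨a, b, h, -⟩ := (mem_T2 dw).1 hg
  exact h.1.cH

theorem exT (h : H10 P sw π) : ∃ k ∈ T2 P sw π, ∃ (b : (K × K)ˣ) (β : K), Dg2 P sw π k b b ∧ β ≠ 1 ∧
    (b : K × K) = (1, β) := by
  obtain ⟨s, hs⟩ := exists_s (T := T) h.cf.card
  have h0 : s ≠ 0 := by rintro rfl; simp at hs
  have h1 : s ≠ 1 := by rintro rfl; simp at hs
  let b : (K × K)ˣ := ⟨(1, s), (1, s⁻¹), by simp [h0], by simp [h0]⟩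
  obtain ⟨k, hk⟩ := h.tor b b
  exact ⟨k, subset_closure ⟨b, b, hk, rfl, rfl⟩, b, s, hk, h1, rfl⟩

theorem act_same {g g' : G} {M : Matrix (Fin 4) (Fin 4) (K × K)} (h : Act P g M) (h' : Act P g' M) :
    Act P (g⁻¹ * g') 1 := ⟨mul_mem (inv_mem h.1) h'.1, fun m => by
  have := cj_mem' h.1 (mul_mem (h'.2 m) (inv_mem (h.2 m)))
  rw [Matrix.one_mulVec]
  convert this using 1; group⟩

theorem mem_N8 (sm : SM P sw π) {g g' : G} {M : Matrix (Fin 4) (Fin 4) (K × K)}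
    (hg : g ∈ U8s A t ⊔ U0s A t) (hg' : g' ∈ U8s A t ⊔ U0s A t) (h : Act P g M) (h' : Act P g' M) :
    g⁻¹ * g' ∈ N8 A t := mem_inf.2 ⟨mul_mem (inv_mem hg) hg', sm.ker (act_same h h')⟩

/-- a commutator relation that holds for the matrices holds up to the kernel -/
theorem rel_N8 (sm : SM P sw π) {x y w : G} {M M' W : Matrix (Fin 4) (Fin 4) (K × K)}
    (hx : x ∈ U8s A t ⊔ U0s A t) (hy : y ∈ U8s A t ⊔ U0s A t) (hw : w ∈ U8s A t ⊔ U0s A t)
    (ax : Act P x M) (ay : Act P y M') (aw : Act P w W) (e : M * M' = W * (M' * M)) :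
    ∃ n ∈ N8 A t, ⁅x, y⁆ = w * n := by
  have m := mem_N8 sm (mul_mem hw (mul_mem hy hx)) (mul_mem hx hy) (sm.mul aw (sm.mul ay ax)) (e ▸ sm.mul ax ay)
  refine ⟨_, m, ?_⟩
  rw [← cj_eq_of_cs' (sm.cen m) (mul_mem hy hx), commutatorElement_def]
  group

theorem act_one : Act P 1 1 := ⟨one_mem _, fun m => by simp⟩

theorem comm_of (sm : SM P sw π) {x y : G} {M M' : Matrix (Fin 4) (Fin 4) (K × K)}
    (hx : x ∈ U8s A t ⊔ U0s A t) (hy : y ∈ U8s A t ⊔ U0s A t) (h2 : Is2 x)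
    (ax : Act P x M) (ay : Act P y M') (e : M * M' = M' * M) : Commute x y := by
  obtain ⟨n, hn, e1⟩ := rel_N8 sm hx hy (one_mem _) ax ay act_one (by rw [one_mul, e])
  rw [one_mul] at e1
  exact kit.odd' h2 (e1 ▸ (mem_Cs.1 (sm.cen hn) _ hx).symm) (e1 ▸ odd_of_mem sm.odd hn)

theorem rel_of (sm : SM P sw π) {x y w : G} {M M' W : Matrix (Fin 4) (Fin 4) (K × K)}
    (hx : x ∈ U8s A t ⊔ U0s A t) (hy : y ∈ U8s A t ⊔ U0s A t) (hw : w ∈ U8s A t ⊔ U0s A t)
    (x2 : x * x = 1) (w2 : w * w = 1) (c : Commute x w)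
    (ax : Act P x M) (ay : Act P y M') (aw : Act P w W) (e : M * M' = W * (M' * M)) : ⁅x, y⁆ = w := by
  obtain ⟨n, hn, e1⟩ := rel_N8 sm hx hy hw ax ay aw e
  rw [e1, kit.odd x2 w2 c (mem_Cs.1 (sm.cen hn) _ hx).symm (mem_Cs.1 (sm.cen hn) _ hw).symm
    (odd_of_mem sm.odd hn) e1, mul_one]

/-- the entries of a matrix commuting with a diagonal element -/
theorem ent (sm : SM P sw π) {k g : G} {a b : (K × K)ˣ} (hk : Dg P sw π k a b) (hc : g * k = k * g)
    {p p' p'' u v w : K × K} (ag : Act P g !![1, 0, 0, 0; p, 1, 0, 0; u, p', 1, 0; w, v, p'', 1]) :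
    b * p = p ∧ b * th T sw b * u = u ∧ b * th T sw b * v = v ∧ b ^ 2 * th T sw b * w = w := by
  have E := sm.uniq (sm.mul (sm.md hk) ag) (hc ▸ sm.mul ag (sm.md hk))
  have ua := a.isUnit.mul (a.isUnit.map (th T sw))
  have ub := b.isUnit.mul (b.isUnit.map (th T sw))
  have e1 := congrFun (congrFun E 1) 0
  have e2 := congrFun (congrFun E 2) 0
  have e3 := congrFun (congrFun E 3) 1
  have e4 := congrFun (congrFun E 3) 0
  simp [Matrix.diagonal_mul, Matrix.mul_diagonal, wt, th_th] at e1 e2 e3 e4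
  exact ⟨(ua.mul ub).mul_left_cancel (by linear_combination e1),
    (ua.mul ub).mul_left_cancel (by linear_combination e2),
    (ua.mul (ub.mul b.isUnit)).mul_left_cancel (by linear_combination e3),
    (ua.mul ub).mul_left_cancel (by linear_combination e4)⟩

/-- conjugation by `n₈` -/
theorem act_c3 (sm : SM P sw π) {g : G} {M : Matrix (Fin 4) (Fin 4) (K × K)} (h : Act P g M) :
    Act P (c3 A g) (!![0, 0, 0, 1; 0, 0, 1, 0; 0, 1, 0, 0; 1, 0, 0, 0] * M *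
      !![0, 0, 0, 1; 0, 0, 1, 0; 0, 1, 0, 0; 1, 0, 0, 0]) := sm.mul (sm.mul sm.mn h) sm.mn

theorem eq_zero_of_mul {x y : K} (hx : x ≠ 1) (h : x * y = y) : y = 0 := by
  by_contra h0
  exact hx (mul_right_cancel₀ h0 (h.trans (one_mul y).symm))

theorem sig_ne_one {x : K} (hx : x ≠ 1) : T.σ x ≠ 1 := fun e => hx (sig_inj T (by rw [e, map_one]))

theorem sq_ne_one (T : TF K) {x : K} (hx : x ≠ 1) : x ^ 2 ≠ 1 := by
  rw [← T.sq]; exact sig_ne_one (sig_ne_one hx)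

end H52.SR
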