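/- STD-R (S3323): job F2, the relations of type `B₂`. -/
import Cfsg.Agent.H52.SRC

set_option autoImplicit false
set_option linter.unusedSectionVars false
set_option linter.unusedVariables false
set_option linter.unusedSimpArgs false

open Subgroup H63.Oc H64.SG H65.SR
open scoped commutatorElement

universe u v

namespace H52.SR

attribute [-simp] Subgroup.mem_map

variable {K : Type*} [Field K] [Fintype K] [CharP K 2] {T : TF K} {G : Type*} [Group G] [Finite G]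
  {A : AD T G} {t : G} {P : Par A t (K × K)} {π : G → K × K}

/-- the matrices of the root elements -/
def mB (f : K → K) : Fin 8 → K → Matrix (Fin 4) (Fin 4) (K × K) :=
  ![fun x => !![1, 0, 0, 0; (0, x), 1, 0, 0; 0, (f x, 0), 1, 0; 0, 0, (0, x), 1],
    fun x => !![1, 0, 0, 0; 0, 1, 0, 0; (x, 0), 0, 1, 0; (0, f x), (x, 0), 0, 1],
    fun x => !![1, 0, 0, 0; 0, 1, 0, 0; (0, x), 0, 1, 0; (f x, 0), (0, x), 0, 1],
    fun x => !![1, 0, 0, 0; (x, 0), 1, 0, 0; 0, (0, f x), 1, 0; 0, 0, (x, 0), 1],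
    fun x => !![1, (0, x), 0, 0; 0, 1, (f x, 0), 0; 0, 0, 1, (0, x); 0, 0, 0, 1],
    fun x => !![1, 0, (x, 0), (0, f x); 0, 1, 0, (x, 0); 0, 0, 1, 0; 0, 0, 0, 1],
    fun x => !![1, 0, (0, x), (f x, 0); 0, 1, 0, (0, x); 0, 0, 1, 0; 0, 0, 0, 1],
    fun x => !![1, (x, 0), 0, 0; 0, 1, (0, f x), 0; 0, 0, 1, (x, 0); 0, 0, 0, 1]]

theorem mul4 {R : Type*} [CommRing R] (a11 a12 a13 a14 a21 a22 a23 a24 a31 a32 a33 a34 a41 a42 a43 a44
    b11 b12 b13 b14 b21 b22 b23 b24 b31 b32 b33 b34 b41 b42 b43 b44 : R) :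
    !![a11, a12, a13, a14; a21, a22, a23, a24; a31, a32, a33, a34; a41, a42, a43, a44] *
      !![b11, b12, b13, b14; b21, b22, b23, b24; b31, b32, b33, b34; b41, b42, b43, b44] =
    !![a11 * b11 + a12 * b21 + a13 * b31 + a14 * b41, a11 * b12 + a12 * b22 + a13 * b32 + a14 * b42,
        a11 * b13 + a12 * b23 + a13 * b33 + a14 * b43, a11 * b14 + a12 * b24 + a13 * b34 + a14 * b44;
      a21 * b11 + a22 * b21 + a23 * b31 + a24 * b41, a21 * b12 + a22 * b22 + a23 * b32 + a24 * b42,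
        a21 * b13 + a22 * b23 + a23 * b33 + a24 * b43, a21 * b14 + a22 * b24 + a23 * b34 + a24 * b44;
      a31 * b11 + a32 * b21 + a33 * b31 + a34 * b41, a31 * b12 + a32 * b22 + a33 * b32 + a34 * b42,
        a31 * b13 + a32 * b23 + a33 * b33 + a34 * b43, a31 * b14 + a32 * b24 + a33 * b34 + a34 * b44;
      a41 * b11 + a42 * b21 + a43 * b31 + a44 * b41, a41 * b12 + a42 * b22 + a43 * b32 + a44 * b42,
        a41 * b13 + a42 * b23 + a43 * b33 + a44 * b43, a41 * b14 + a42 * b24 + a43 * b34 + a44 * b44] := by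
  ext i j
  fin_cases i <;> fin_cases j <;> simp [Matrix.mul_apply, Fin.sum_univ_four]

theorem mB_c1 (i : Fin 8) (a b : K) : mB T.σ i a * mB T.σ (i + 1) b = mB T.σ (i + 1) b * mB T.σ i a := by
  fin_cases i <;> simp [mB, mul4, Prod.ext_iff]

theorem mB_c2 (i : Fin 8) (a b : K) : mB T.σ i a * mB T.σ (i + 2) b = mB T.σ (i + 2) b * mB T.σ i a := by
  fin_cases i <;> simp [mB, mul4, Prod.ext_iff] <;> grind

theorem mB_c3 (i : Fin 8) (a b : K) : mB T.σ i a * mB T.σ (i + 3) b =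
    mB T.σ (i + 1) (b * T.σ a) * mB T.σ (i + 2) (a * T.σ b) * (mB T.σ (i + 3) b * mB T.σ i a) := by
  fin_cases i <;> simp [mB, mul4, T.sq, Prod.ext_iff] <;> grind

theorem ys_uniq (h : H11 P true π) {y y' : G} (hy : y ∈ U4s A t) (hy' : y' ∈ U4s A t)
    (c : c8 A y ∈ Cs (T2 P true π)) (c' : c8 A y' ∈ Cs (T2 P true π)) (e : π y' = π y) : y' = y := by
  obtain ⟨r, hr⟩ := (P.a_mem _).1 (h.rp.eq hy hy' e)
  obtain ⟨k, hk, b, β, hd, h1, hb⟩ := exT h.toH10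
  have e1 := cj_eq_of_cs' (mul_mem c' (inv_mem c)) hk
  rw [← c8_inv, ← c8_mul, hr, hd.1.d8.1] at e1
  have e2 := P.a_inj (c8_inj e1)
  simp only [wt, hb, th_true, Prod.ext_iff, Prod.fst_mul, Prod.snd_mul, map_one, one_mul, mul_one] at e2
  rw [← mul_inv_eq_one, hr, show r = 0 from Prod.ext (eq_zero_of_mul (sig_ne_one h1) e2.1)
    (eq_zero_of_mul h1 e2.2), P.a_zero]

theorem ys_ex (h : H11 P true π) (x : K) : ∃ y ∈ U4s A t, π y = (x, 0) ∧ c8 A y ∈ Cs (T2 P true π) := by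
  obtain ⟨y, hy, e⟩ := h.rp.onto (x, 0)
  obtain ⟨y₀, h0, hc⟩ := cop' (y := c8 A y) h.db8.two1 (T2_odd h.dw) (fun k hk => mem_ns_of fun g hg => by
      obtain ⟨a, b, hd, -⟩ := (mem_T2 h.dw).1 hk
      obtain ⟨z, hz, rfl⟩ := mem_A8.1 hg
      obtain ⟨r, rfl⟩ := (P.a_mem _).1 hz
      rw [hd.1.d8.1]
      exact mem_A8.2 ⟨_, P.ma _, rfl⟩) fun k hk => by
      obtain ⟨a, b, hd, -, hb⟩ := (mem_T2 h.dw).1 hk
      obtain ⟨y', hy', e1, e2⟩ := hd.1.d8.2 y hy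
      rw [commutatorElement_def, e1, ← c8_inv, ← c8_mul]
      exact mem_A8.2 ⟨_, h.rp.eq hy hy' (by rw [e2, e]; ext <;> simp [wt, hb]), rfl⟩
  obtain ⟨z, hz, rfl⟩ := mem_A8.1 h0
  have hz' := h.db4.le0 hz
  exact ⟨z * y, mul_mem hz' hy, by rw [h.rp.mul _ hz' _ hy, (h.rp.ker _ hz').2 hz, zero_add, e], by rwa [c8_mul]⟩

theorem act_ys (h : H11 P true π) {y k : G} {a b : (K × K)ˣ} (hy : y ∈ U4s A t) (hk : Dg P true π k a b)
    (hc : c8 A y * k = k * c8 A y) {β : K} (h1 : β ≠ 1) (hb : (b : K × K) = (1, β) ∨ (b : K × K) = (β, 1)) :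
    Act P (c8 A y) !![1, 0, 0, 0; π y, 1, 0, 0; 0, th T true (π y), 1, 0; 0, 0, π y, 1] := by
  obtain ⟨u, v, w, hm⟩ := h.sm.my y hy
  obtain ⟨-, e1, e2, e3⟩ := ent h.sm hk hc hm
  have h2 := sig_ne_one (T := T) h1
  have h3 := sq_ne_one T h1
  have : u = 0 ∧ v = 0 ∧ w = 0 := by
    rcases hb with hb | hb <;>
    simp only [hb, th_true, Prod.ext_iff, Prod.fst_mul, Prod.snd_mul, map_one, one_mul, mul_one, Prod.pow_fst,
      Prod.pow_snd, one_pow] at e1 e2 e3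
    · exact ⟨Prod.ext (eq_zero_of_mul h2 e1.1) (eq_zero_of_mul h1 e1.2),
        Prod.ext (eq_zero_of_mul h2 e2.1) (eq_zero_of_mul h1 e2.2),
        Prod.ext (eq_zero_of_mul h2 e3.1) (eq_zero_of_mul h3 e3.2)⟩
    · exact ⟨Prod.ext (eq_zero_of_mul h1 e1.1) (eq_zero_of_mul h2 e1.2),
        Prod.ext (eq_zero_of_mul h1 e2.1) (eq_zero_of_mul h2 e2.2),
        Prod.ext (eq_zero_of_mul h3 e3.1) (eq_zero_of_mul h2 e3.2)⟩
  obtain ⟨rfl, rfl, rfl⟩ := this
  exact hm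

theorem b2r (h : H11 P true π) {ys : K → G} (mem : ∀ x, ys x ∈ U4s A t) (pi : ∀ x, π (ys x) = (x, 0))
    (add : ∀ x y, ys (x + y) = ys x * ys y) (cen : ∀ x, c8 A (ys x) ∈ Cs (T2 P true π)) :
    B2R T (zB P ys) := by
  have tt := h.cf.inv.1
  have memt : ∀ x, t * ys x * t ∈ U4s A t := fun x => t_mem h.cf.inv h.fr4.tY (mem x)
  have mema : ∀ r, P.a r ∈ U4s A t := fun r => h.db4.le0 (P.ma r)
  have m8 : ∀ {y}, y ∈ U4s A t → c8 A y ∈ U8s A t ⊔ U0s A t := fun hy => mem_sup_left (c8_mem8 hy)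
  have m0 : ∀ {y}, y ∈ U4s A t → c0 A y ∈ U8s A t ⊔ U0s A t := fun hy => mem_sup_right (cj8_mem A (c8_mem8 hy))
  have hm : ∀ i x, zB P ys i x ∈ U8s A t ⊔ U0s A t := fun i x => by
    fin_cases i
    exacts [m8 (memt x), m8 (mema _), m8 (mema _), m8 (mem x), m0 (memt x), m0 (mema _), m0 (mema _), m0 (mem x)]
  have addt : ∀ x y, t * ys (x + y) * t = t * ys x * t * (t * ys y * t) := fun x y => by
    rw [add]; simp only [mul_assoc, ← mul_assoc t t, tt, one_mul]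
  have add1 : ∀ x y : K, P.a (x + y, 0) = P.a (x, 0) * P.a (y, 0) := fun x y => by rw [← P.a_add]; simp
  have add2 : ∀ x y : K, P.a (0, x + y) = P.a (0, x) * P.a (0, y) := fun x y => by rw [← P.a_add]; simp
  have ha : ∀ i a b, zB P ys i (a + b) = zB P ys i a * zB P ys i b := fun i a b => by
    fin_cases i
    exacts [(congrArg _ (addt a b)).trans (c8_mul _ _), (congrArg _ (add1 a b)).trans (c8_mul _ _),
      (congrArg _ (add2 a b)).trans (c8_mul _ _), (congrArg _ (add a b)).trans (c8_mul _ _),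
      (congrArg _ (addt a b)).trans (c0_mul _ _), (congrArg _ (add1 a b)).trans (c0_mul _ _),
      (congrArg _ (add2 a b)).trans (c0_mul _ _), (congrArg _ (add a b)).trans (c0_mul _ _)]
  have sq : ∀ i a, zB P ys i a * zB P ys i a = 1 := fun i a => by
    have := ha i 0 0
    rw [add_zero, left_eq_mul] at this
    rw [← ha, CharTwo.add_self_eq_zero, this]
  obtain ⟨k, hk, b, β, hd, h1, hb⟩ := exT h.toH10
  have a3 : ∀ x, Act P (c8 A (ys x)) (mB T.σ 3 x) := fun x => by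
    have := act_ys h (mem x) hd.1 (mem_Cs.1 (cen x) k hk).symm h1 (Or.inl hb)
    rw [pi, th_true] at this
    simpa [mB] using this
  have a0 : ∀ x, Act P (c8 A (t * ys x * t)) (mB T.σ 0 x) := fun x => by
    have := act_ys h (memt x) (h.dw.tt hd).1 (by
      rw [c8_t h.toH0]
      simp only [mul_assoc, ← mul_assoc t t, tt, one_mul]
      rw [← mul_assoc k, mem_Cs.1 (cen x) k hk, mul_assoc]) h1 (Or.inr (by simp [hb]))
    rw [h.rp.pit _ (mem x), pi, th_true] at this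
    simpa [mB] using this
  have a1 : ∀ x, Act P (c8 A (P.a (x, 0))) (mB T.σ 1 x) := fun x => by
    simpa [mB, th_true] using h.sm.ma (x, 0)
  have a2 : ∀ x, Act P (c8 A (P.a (0, x))) (mB T.σ 2 x) := fun x => by
    simpa [mB, th_true] using h.sm.ma (0, x)
  have ac : ∀ i x, Act P (zB P ys i x) (mB T.σ i x) := fun i x => by
    fin_cases i
    · exact a0 x
    · exact a1 x
    · exact a2 x
    · exact a3 x
    · simpa [mB, mul4, zB, c0_eq] using act_c3 h.sm (a0 x)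
    · simpa [mB, mul4, zB, c0_eq] using act_c3 h.sm (a1 x)
    · simpa [mB, mul4, zB, c0_eq] using act_c3 h.sm (a2 x)
    · simpa [mB, mul4, zB, c0_eq] using act_c3 h.sm (a3 x)
  have i2 : ∀ i a, Is2 (zB P ys i a) := fun i a => ⟨1, by rw [pow_one, pow_two, sq]⟩
  have c1 : ∀ i a b, Commute (zB P ys i a) (zB P ys (i + 1) b) := fun i a b =>
    comm_of h.sm (hm _ _) (hm _ _) (i2 _ _) (ac _ _) (ac _ _) (mB_c1 i a b)
  have c2 : ∀ i a b, Commute (zB P ys i a) (zB P ys (i + 2) b) := fun i a b =>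
    comm_of h.sm (hm _ _) (hm _ _) (i2 _ _) (ac _ _) (ac _ _) (mB_c2 i a b)
  refine ⟨ha, c1, c2, fun i a b => rel_of h.sm (hm _ _) (hm _ _) (mul_mem (hm _ _) (hm _ _)) (sq _ _) ?_
    ((c1 _ _ _).mul_right (c2 _ _ _)) (ac _ _) (ac _ _) (h.sm.mul (ac _ _) (ac _ _)) (mB_c3 i a b)⟩
  have := c1 (i + 1) (b * T.σ a) (a * T.σ b)
  rw [add_assoc, show (1 : Fin 8) + 1 = 2 from rfl] at this
  rw [this.symm.mul_mul_mul_comm, sq, sq, one_mul]

theorem jobF2 : JobF2.{u, v} := by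
  intro kit K _ _ _ T G _ _ A t P π h
  choose ys mem pi cen using ys_ex h
  have add : ∀ x y, ys (x + y) = ys x * ys y := fun x y =>
    ys_uniq h (mul_mem (mem x) (mem y)) (mem _) (by rw [c8_mul]; exact mul_mem (cen x) (cen y)) (cen _)
      (by rw [h.rp.mul _ (mem x) _ (mem y), pi, pi, pi]; simp)
  refine ⟨ys, mem, pi, add, fun {k a b} hd x => ?_, fun y hy hc => ⟨(π y).1, ys_uniq h (mem _) hy (cen _) hc ?_⟩,
    b2r h mem pi add cen⟩
  · obtain ⟨y', hy', e1, e2⟩ := hd.1.d8.2 _ (mem x)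
    rw [e1, ys_uniq h (mem (b.1.1 * x)) hy' (cen _) (e1 ▸ cj_mem (ns_cs (T2_ns h.dw hd)) (cen x))
      (by rw [e2, pi, pi]; ext <;> simp [wt])]
  · obtain ⟨k, hk, b, β, hd, h1, hb⟩ := exT h.toH10
    obtain ⟨y', hy', e1, e2⟩ := hd.1.d8.2 _ hy
    rw [cj_eq_of_cs' hc hk] at e1
    rw [← c8_inj e1, show wt (th T true) (b : K × K) b 8 = b from rfl, hb] at e2
    rw [pi]
    exact Prod.ext rfl (eq_zero_of_mul h1 (congrArg Prod.snd e2).symm)

end H52.SR
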