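/- STD-R (S3323): job W2, the subgroup `L₁ L₂`. -/
import Cfsg.Agent.H52.SRC
import Cfsg.Agent.H21.Multiplier
import Cfsg.Agent.S2114

set_option autoImplicit false
set_option linter.unusedSectionVars false
set_option linter.unusedVariables false
set_option linter.unusedSimpArgs false

open Subgroup H63.Oc H64.SG H65.SR
open scoped commutatorElement

universe u v

namespace H52.SR

attribute [-simp] Subgroup.mem_map

variable {K : Type*} [Field K] [Fintype K] [CharP K 2] {T : TF K} {G : Type*} [Group G] [Finite G]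
  {A : AD T G} {t : G} {P : Par A t (K × K)} {π : G → K × K}

/-- the first factor -/
def L1 (P : Par A t (K × K)) (π : G → K × K) : Subgroup G :=
  X1 P π 1 ⊔ cjs A.n1 (X1 P π 1) ⊔ (X1 P π 8 ⊔ cjs A.n8 (X1 P π 8))

theorem cjs_tt (ht : Inv2 t) (Y : Subgroup G) : cjs t (cjs t Y) = Y := by rw [cjs_cjs, ht.1, cjs_one]

theorem cs_t_symm (ht : Inv2 t) {Y Y' : Subgroup G} (h : Y ≤ Cs (cjs t Y')) : Y' ≤ Cs (cjs t Y) := by
  have := cs_cj (g := t) (cs_symm h)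
  rwa [cjs_tt ht] at this

theorem cs_via (s : SW P π) {Y Y' : Subgroup G} {g : G} (hg : g ∈ Cz t) (hT : g ∈ Ns (T2 P false π))
    (hY : Y ≤ Cs (T2 P false π)) (hY' : Y' ≤ Cs (T2 P false π)) (u : cjs g Y ≤ Us A t) (u' : cjs g Y' ≤ Us A t) :
    Y ≤ Cs (cjs t Y') := fun y hy => mem_Cs.2 fun z hz => by
  obtain ⟨y', hy', rfl⟩ := mem_cjs'.1 hz
  have := mem_Cs.1 (s.comm (mem_inf.2 ⟨u (cj_mem_cjs hy), cj_mem (ns_cs hT) (hY hy)⟩)) _
    (cj_mem_cjs (g := t) (mem_inf.2 ⟨u' (cj_mem_cjs hy'), cj_mem (ns_cs hT) (hY' hy')⟩))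
  rw [← cj_cj, ← mem_Cz.1 hg, cj_cj, conj_mul, conj_mul] at this
  simpa using this

theorem mem_X11 (h : H10 P false π) {g : G} (hg : g ∈ X1 P π 1) : ∃ x, g = c1 A (P.b (x, 0)) := by
  obtain ⟨r, hr⟩ := (P.b_mem _).1 (mem_B1.1 (mem_inf.1 hg).1)
  obtain ⟨k, hk, b, β, hd, h1, hb⟩ := exT h
  have e := cj_eq_of_cs' (mem_inf.1 hg).2 hk
  rw [← c1_c1 (A := A) g, hr] at e ⊢
  rw [hd.1.d1, show wt (th T false) (b : K × K) b 1 = b from rfl, hb] at e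
  have e1 := congrArg (c1 A) e
  rw [c1_c1, c1_c1] at e1
  exact ⟨r.1, by rw [← eq_zero_of_mul h1 (congrArg Prod.snd (P.b_inj e1))]⟩

theorem cs19 (h : H10 P false π) : X1 P π 1 ≤ Cs (cjs t (cjs A.n1 (X1 P π 1))) := fun g hg =>
  mem_Cs.2 fun z hz => by
    obtain ⟨y, hy, rfl⟩ := mem_cjs'.1 hz
    obtain ⟨y', hy', rfl⟩ := mem_cjs'.1 hy
    obtain ⟨a, rfl⟩ := mem_X11 h hg
    obtain ⟨b, rfl⟩ := mem_X11 h hy'
    rw [← c6_eq, H65.SR.Inv2.inv_eq h.cf.inv, ← h.c6_t, ← h.c1_t, P.t_b, h.sp.bar]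
    exact (h.rp.c19 a b).symm

theorem act_one_of (h : H11 P false π) {y k : G} {a b : (K × K)ˣ} (hy : y ∈ U4s A t) (hk : Dg P false π k a b)
    (hc : c8 A y * k = k * c8 A y) (f : K × K →+* K) (hf : ∀ r, f (th T false r) = T.σ (f r)) (h1 : f b ≠ 1) :
    ∃ M, Act P (c8 A y) M ∧ M.map f = 1 := by
  obtain ⟨u, v, w, hm⟩ := h.sm.my y hy
  obtain ⟨e0, e1, e2, e3⟩ := ent h.sm hk hc hm
  have h2 : f b * T.σ (f b) ≠ 1 := fun e => h1 (nu_eq_one e)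
  have h3 : f b ^ 2 * T.σ (f b) ≠ 1 := by
    rw [← T.sq, mul_comm, ← map_mul]; exact sig_ne_one h2
  replace e0 := congrArg f e0
  replace e1 := congrArg f e1
  replace e2 := congrArg f e2
  replace e3 := congrArg f e3
  simp only [map_mul, map_pow, hf] at e0 e1 e2 e3
  refine ⟨_, hm, ?_⟩
  ext i j
  fin_cases i <;> fin_cases j <;>
    simp [hf, eq_zero_of_mul h1 e0, eq_zero_of_mul h2 e1, eq_zero_of_mul h2 e2, eq_zero_of_mul h3 e3]

theorem cs80 (h : H11 P false π) : X1 P π 8 ≤ Cs (cjs t (cjs A.n8 (X1 P π 8))) := fun g hg =>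
  mem_Cs.2 fun z hz => by
    have tt := h.cf.inv.1
    obtain ⟨z', hz', rfl⟩ := mem_cjs'.1 hz
    obtain ⟨g', hg', rfl⟩ := mem_cjs'.1 hz'
    obtain ⟨y, hy, rfl⟩ := mem_U8s.1 (mem_inf.1 hg).1
    obtain ⟨y', hy', rfl⟩ := mem_U8s.1 (mem_inf.1 hg').1
    obtain ⟨k, hk, b, β, hd, h1, hb⟩ := exT h.toH10
    have m := t_mem h.cf.inv h.fr4.tY hy'
    obtain ⟨M, aM, eM⟩ := act_one_of h hy hd.1 (mem_Cs.1 (mem_inf.1 hg).2 k hk).symm (RingHom.snd K K)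
      (fun _ => rfl) (by simpa [hb] using h1)
    obtain ⟨M', aM', eM'⟩ := act_one_of h m (h.dw.tt hd).1 (by
      rw [c8_t h.toH0]
      simp only [mul_assoc, ← mul_assoc t t, tt, one_mul]
      rw [← mul_assoc k, mem_Cs.1 (mem_inf.1 hg').2 k hk, mul_assoc]) (RingHom.fst K K)
      (fun _ => rfl) (by simpa [hb] using h1)
    rw [← c3_eq, H65.SR.Inv2.inv_eq h.cf.inv, ← h.c3_t, ← c8_t h.toH0]
    refine (comm_of h.sm (mem_sup_left (c8_mem8 hy)) (mem_sup_right (cj8_mem A (c8_mem8 m)))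
      (is2_of_mem h.fr8.two (c8_mem8 hy)) aM (act_c3 h.sm aM') ?_).symm
    generalize hJ : (!![0, 0, 0, 1; 0, 0, 1, 0; 0, 1, 0, 0; 1, 0, 0, 0] : Matrix (Fin 4) (Fin 4) (K × K)) = J
    have eJ : J * J = 1 := by
      rw [← hJ]; ext i j : 1
      fin_cases i <;> fin_cases j <;> simp [Matrix.mul_apply, Fin.sum_univ_four]
    have e0 : (J * M' * J).map (RingHom.fst K K) = 1 := by
      rw [Matrix.map_mul, Matrix.map_mul, eM', mul_one, ← Matrix.map_mul, eJ, Matrix.map_one _ (map_zero _) (map_one _)]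
    generalize J * M' * J = N at e0
    have e1 : (M * N).map (RingHom.fst K K) = (N * M).map (RingHom.fst K K) := by
      rw [Matrix.map_mul, Matrix.map_mul, e0, mul_one, one_mul]
    have e2 : (M * N).map (RingHom.snd K K) = (N * M).map (RingHom.snd K K) := by
      rw [Matrix.map_mul, Matrix.map_mul, eM, mul_one, one_mul]
    ext i j
    exacts [congrFun (congrFun e1 i) j, congrFun (congrFun e2 i) j]

theorem L1_cs (h : H11 P false π) (s : SW P π) : L1 P π ≤ Cs (cjs t (L1 P π)) := by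
  have ht := h.cf.inv
  have wf := h.dw.wf
  have c1' : X1 P π 1 ≤ Cs (T2 P false π) := inf_le_right
  have c8' : X1 P π 8 ≤ Cs (T2 P false π) := inf_le_right
  have c9' : cjs A.n1 (X1 P π 1) ≤ Cs (T2 P false π) := (cs_cj c1').trans (by rw [cjs_eq s.n1])
  have c0' : cjs A.n8 (X1 P π 8) ≤ Cs (T2 P false π) := (cs_cj c8').trans (by rw [cjs_eq s.n8])
  have u : ∀ i, X1 P π i ≤ Us A t := fun i => inf_le_left.trans (h.Ui_Us i)
  have u1 : ∀ i, cjs 1 (X1 P π i) ≤ Us A t := fun i => by rw [cjs_one]; exact u i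
  have u9 : cjs A.n1 (cjs A.n1 (X1 P π 1)) ≤ Us A t := by rw [cjs11]; exact u 1
  have u0 : cjs A.n8 (cjs A.n8 (X1 P π 8)) ≤ Us A t := by rw [cjs88]; exact u 8
  have u7 : cjs A.n8 (X1 P π 1) ≤ Us A t :=
    (cjs_mono inf_le_left).trans ((cjs88 A (B7 A t)).le.trans (h.Ui_Us 7))
  have u2 : cjs A.n1 (X1 P π 8) ≤ Us A t :=
    (cjs_mono inf_le_left).trans ((cjs11 A (U2s A t)).le.trans (h.Ui_Us 2))
  have w9 : cjs (w0 A) (cjs A.n1 (X1 P π 1)) ≤ Us A t := fun z hz => by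
    obtain ⟨z', hz', rfl⟩ := mem_cjs'.1 hz
    obtain ⟨g, hg, rfl⟩ := mem_cjs'.1 hz'
    rw [← c1_c1 (A := A) g, ← c6_eq, ← c9_eq, ← wf.c9 _ (mem_B1.1 (mem_inf.1 hg).1), ← cj_cj, wf.sq, c1_c1]
    simpa using u 1 hg
  have w0' : cjs (w0 A) (cjs A.n8 (X1 P π 8)) ≤ Us A t := fun z hz => by
    obtain ⟨z', hz', rfl⟩ := mem_cjs'.1 hz
    obtain ⟨g, hg, rfl⟩ := mem_cjs'.1 hz'
    obtain ⟨y, hy, rfl⟩ := mem_U8s.1 (mem_inf.1 hg).1
    rw [← c3_eq, ← c0_eq, ← wf.c0 _ hy, ← cj_cj, wf.sq]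
    simpa using u 8 hg
  have p11 := cs_via s (one_mem _) (one_mem _) c1' c1' (u1 1) (u1 1)
  have p18 := cs_via s (one_mem _) (one_mem _) c1' c8' (u1 1) (u1 8)
  have p88 := cs_via s (one_mem _) (one_mem _) c8' c8' (u1 8) (u1 8)
  have p10 := cs_via s h.cf.n8t s.n8 c1' c0' u7 u0
  have p00 := cs_via s h.cf.n8t s.n8 c0' c0' u0 u0
  have p99 := cs_via s h.cf.n1t s.n1 c9' c9' u9 u9
  have p98 := cs_via s h.cf.n1t s.n1 c9' c8' u9 u2
  have p90 := cs_via s wf.ct (pow_mem (mul_mem s.n1 s.n8) 4) c9' c0' w9 w0'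
  have p19 := cs19 h.toH10
  have p80 := cs80 h
  rw [L1, cjs_sup, cjs_sup, cjs_sup]
  exact sup_le (sup_le (le_cs_sup (le_cs_sup p11 p19) (le_cs_sup p18 p10))
      (le_cs_sup (le_cs_sup (cs_t_symm ht p19) p99) (le_cs_sup p98 p90)))
    (sup_le (le_cs_sup (le_cs_sup (cs_t_symm ht p18) (cs_t_symm ht p98)) (le_cs_sup p88 p80))
      (le_cs_sup (le_cs_sup (cs_t_symm ht p10) (cs_t_symm ht p90)) (le_cs_sup (cs_t_symm ht p80) p00)))

theorem X_comm (h : H1 A t) (s : SW P π) {i : ℕ} {x y : G} (hx : x ∈ X1 P π i) (hy : y ∈ X1 P π i) :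
    t * x * t * y = y * (t * x * t) := by
  have := mem_Cs.1 (s.comm (mem_inf.2 ⟨h.Ui_Us i hy.1, hy.2⟩)) _
    (cj_mem_cjs (g := t) (mem_inf.2 ⟨h.Ui_Us i hx.1, hx.2⟩))
  rwa [H65.SR.Inv2.inv_eq h.cf.inv] at this

theorem psi_mem (h : H1 A t) (s : SW P π) {i : ℕ} {x : G} (hx : x ∈ X1 P π i) : x * (t * x * t) ∈ A.G0 := by
  refine im_le A _ ((h.frU i).mem (mul_mem (mem_inf.1 hx).1 (t_mem h.cf.inv (h.frU i).tY (mem_inf.1 hx).1)) (mem_Cz.2 ?_))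
  conv_lhs => rw [← X_comm h s hx hx]
  simp only [mul_assoc]

theorem psi_onto (h : H1 A t) (s : SW P π) {i : ℕ} {u : G} (hu : u ∈ A.im (sU T i)) :
    ∃ x ∈ X1 P π i, x * (t * x * t) = u := by
  have tt := h.cf.inv.1
  obtain ⟨x, hx, x', hx', rfl⟩ := s.split i u ((h.frU i).le hu)
  have e := mem_Cz.1 ((h.frU i).cX hu)
  have e1 : x * (t * x' * t) = x' * (t * x * t) := by
    rw [← X_comm h s hx hx', ← mul_left_inj t, e]
    simp only [mul_assoc]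
  have e2 : x'⁻¹ * x = t * (x * x'⁻¹) * t⁻¹ := by
    calc _ = x'⁻¹ * (x * (t * x' * t)) * (t * x' * t)⁻¹ := by group
      _ = _ := by rw [e1]; group
  have m := mul_mem (inv_mem hx') hx
  have e3 : x'⁻¹ * x = 1 := mem_bot.1 (s.disj ▸ mem_inf.2 ⟨mem_inf.2 ⟨h.Ui_Us i m.1, m.2⟩,
    e2 ▸ cj_mem_cjs (mul_mem (mem_inf.1 hx).2 (inv_mem (mem_inf.1 hx').2))⟩)
  exact ⟨x, hx, by rw [inv_mul_eq_one.1 e3]⟩

theorem L1_le (h : H11 P false π) {N : Subgroup G} (hN : ∀ y ∈ L1 P π, ∀ l ∈ A.G0, ⁅y, l⁆ ∈ N)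
    (n : A.G0 ≤ Ns N) : L1 P π ≤ N := by
  obtain ⟨k, hk, k1⟩ := h.la.exT 4
  have key : ∀ i, (∀ c ∈ sU T i, c ∈ sU T 4 → c = 1) → X1 P π i ≤ L1 P π → X1 P π i ≤ N := fun i hi le y hy => by
    obtain ⟨p, rfl⟩ := TT_le_H A 4 hk
    obtain ⟨y', hy', rfl⟩ := surj_of_fpf (P := X1 P π i)
      (ns_inf (h.dw.nU (h.dw.h p) i) (ns_cs (cs_le_ns (T2_cH h.dw ⟨p, rfl⟩))))
      (le_bot_iff.1 ((inf_le_inf_right _ inf_le_left).trans (h.fp hk k1 (h.frU i) hi).le)) y hy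
    exact hN _ (le hy') _ (h_mem A p)
  have k1 := key 1 (fun c h1 h4 => by
    have h1 := (mem_sU1 T).1 h1
    have h4 := (mem_sU4 T).1 h4
    ext <;> simp [h1, h4]) (le_sup_left.trans le_sup_left)
  have k8 := key 8 (fun c h8 h4 => by
    have h8 : c ∈ sU8 T := h8
    have h4 := (mem_sU4 T).1 h4
    ext <;> simp_all) (le_sup_left.trans le_sup_right)
  exact sup_le (sup_le k1 ((cjs_mono k1).trans (cjs_eq (n (n1_mem A))).le))
    (sup_le k8 ((cjs_mono k8).trans (cjs_eq (n (n8_mem A))).le))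

theorem jobW2 : JobW2.{u, v} := by
  intro kit K _ _ _ T G _ _ A t P π h s
  have ht := h.cf.inv
  have hc := L1_cs h s
  have mt : ∀ {x}, x ∈ L1 P π → t * x * t ∈ cjs t (L1 P π) := fun hx => by
    have := cj_mem_cjs (g := t) hx
    rwa [H65.SR.Inv2.inv_eq ht] at this
  let ψ : L1 P π →* G := MonoidHom.mk' (fun x => x * (t * x * t)) fun x y => by
    have := mem_Cs.1 (hc y.2) _ (mt x.2)
    rw [mul_assoc (x : G), ← mul_assoc (t * x * t), this]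
    simp only [coe_mul, mul_assoc, ← mul_assoc t t, ht.1, one_mul]
  have cj : ∀ {n : G} (x : G), n ∈ Cz t → n * x * n⁻¹ * (t * (n * x * n⁻¹) * t) = n * (x * (t * x * t)) * n⁻¹ :=
    fun {n} x hn => by
      have e := mem_Cz.1 hn
      calc _ = n * x * (n⁻¹ * (t * n)) * x * (n⁻¹ * (t * n)) * n⁻¹ := by group
        _ = _ := by rw [← e]; group
  have l1 : X1 P π 1 ≤ L1 P π := le_sup_left.trans le_sup_left
  have l9 : cjs A.n1 (X1 P π 1) ≤ L1 P π := le_sup_right.trans le_sup_left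
  have l8 : X1 P π 8 ≤ L1 P π := le_sup_left.trans le_sup_right
  have l0 : cjs A.n8 (X1 P π 8) ≤ L1 P π := le_sup_right.trans le_sup_right
  have into : ∀ x, ψ x ∈ A.G0 := by
    have k1 : ∀ i, X1 P π i ≤ L1 P π → X1 P π i ≤ (A.G0.comap ψ).map (L1 P π).subtype := fun i le y hy =>
      ⟨⟨y, le hy⟩, psi_mem h.toH1 s hy, rfl⟩
    have k2 : ∀ i, ∀ n ∈ A.G0, cjs n (X1 P π i) ≤ L1 P π →
        cjs n (X1 P π i) ≤ (A.G0.comap ψ).map (L1 P π).subtype := fun i n hn le y hy => by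
      refine ⟨⟨y, le hy⟩, ?_, rfl⟩
      obtain ⟨x, hx, rfl⟩ := mem_cjs'.1 hy
      change n * x * n⁻¹ * (t * (n * x * n⁻¹) * t) ∈ A.G0
      rw [cj x (h.cf.ct hn)]
      exact mul_mem (mul_mem hn (psi_mem h.toH1 s hx)) (inv_mem hn)
    intro x
    obtain ⟨y, hy, e⟩ := (sup_le (sup_le (k1 1 l1) (k2 1 _ (n1_mem A) l9))
      (sup_le (k1 8 l8) (k2 8 _ (n8_mem A) l0)) : L1 P π ≤ _) x.2
    rwa [← Subtype.ext (p := (· ∈ L1 P π)) e]
  have onto : A.G0 ≤ ψ.range := by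
    have k1 : ∀ i, X1 P π i ≤ L1 P π → A.im (sU T i) ≤ ψ.range := fun i le u hu => by
      obtain ⟨x, hx, rfl⟩ := psi_onto h.toH1 s hu
      exact ⟨⟨x, le hx⟩, rfl⟩
    have k2 : ∀ i, ∀ n ∈ A.G0, cjs n (X1 P π i) ≤ L1 P π → cjs n (A.im (sU T i)) ≤ ψ.range := fun i n hn le u hu => by
      obtain ⟨u', hu', rfl⟩ := mem_cjs'.1 hu
      obtain ⟨x, hx, rfl⟩ := psi_onto h.toH1 s hu'
      exact ⟨⟨_, le (cj_mem_cjs hx)⟩, cj x (h.cf.ct hn)⟩
    rw [h.la.genL]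
    exact sup_le (sup_le (k1 1 l1) (k2 1 _ (n1_mem A) l9)) (sup_le (k1 8 l8) (k2 8 _ (n8_mem A) l0))
  have perf : L1 P π ≤ ⁅L1 P π, L1 P π⁆ := L1_le h (fun y hy l hl => by
      obtain ⟨x, rfl⟩ := onto hl
      change ⁅y, x * (t * x * t)⁆ ∈ _
      rw [comm_mul_right, comm_eq_one_of_cs (hc hy) (mt x.2), mul_one, mul_inv_cancel, mul_one]
      exact commutator_mem_commutator hy x.2) fun l hl => by
    obtain ⟨x, rfl⟩ := onto hl
    exact mul_mem (normalizer_commutator_ge_left _ _ x.2)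
      (cs_le_ns (cs_anti ((commutator_le_sup _ _).trans (sup_idem _).le) (cs_symm hc (mt x.2))))
  have ncl : ∀ N : Subgroup G, A.G0 ≤ N → L1 P π ≤ Ns N → L1 P π ≤ N := fun N h1 h2 =>
    L1_le h (fun y hy l hl => comm_mem_left (h2 hy) (h1 hl)) (h1.trans le_normalizer)
  obtain ⟨m, h1, h2, ⟨e⟩⟩ := h.cf.iso
  let τ : L1 P π →* A.G0 := ψ.codRestrict _ into
  have hτ : Function.Surjective τ := fun l => by
    obtain ⟨x, hx⟩ := onto l.2
    exact ⟨x, Subtype.ext hx⟩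
  have h4 : commutator (L1 P π) = ⊤ := by
    apply map_injective (L1 P π).subtype_injective
    rw [_root_.commutator_def (L1 P π), map_commutator, ← MonoidHom.range_eq_map, range_subtype]
    exact le_antisymm ((commutator_le_sup _ _).trans (sup_idem _).le) perf
  have h5 := H21.card_ker_dvd_of_stem (Cfsg.Agent.S2114.result h1 h2) _
    (H21.isStemExtension_comp_equiv (σ := τ) ⟨hτ, fun x hx => mem_center_iff.2 fun y => Subtype.ext (by
      have e1 : (x : G) * (t * x * t) = 1 := congrArg Subtype.val hx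
      rw [coe_mul, coe_mul, eq_inv_of_mul_eq_one_left e1]
      exact (mem_Cs.1 (hc y.2) _ (inv_mem (mt x.2))).symm), h4 ▸ le_top⟩ e)
  rw [Nat.card_congr Multiplicative.toAdd, Nat.card_zmod, Nat.dvd_one, card_eq_one, MonoidHom.ker_eq_bot_iff] at h5
  have f := MulEquiv.ofBijective τ ⟨Function.Injective.of_comp (f := e) h5, hτ⟩
  refine ⟨L1 P π ⊔ cjs t (L1 P π), fun l hl => ?_, fun N hN hn => sup_le (ncl N hN (le_sup_left.trans hn)) ?_,
    Or.inr ⟨_, _, rfl, hc, ⟨f⟩, ⟨(equivMapOfInjective _ _ (MulAut.conj t).injective).symm.trans f⟩⟩⟩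
  · obtain ⟨x, rfl⟩ := onto hl
    exact mul_mem (mem_sup_left x.2) (mem_sup_right (mt x.2))
  · have := cjs_mono (g := t) (ncl (cjs t N) ((cjs_eq (h.cf.t_ns le_rfl)).ge.trans (cjs_mono hN))
      ((cjs_tt ht _).ge.trans (ns_cj (le_sup_right.trans hn))))
    rwa [cjs_tt ht] at this

end H52.SR
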