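import Cfsg.Agent.H52.SimXSTop
import Cfsg.Agent.H30.SimNC
import Cfsg.Agent.H6.SimQSL
import Cfsg.Agent.H19.SimQSU
import Cfsg.Agent.H69.SimSQ
import Cfsg.Agent.H99.SimStL
import Cfsg.Agent.H49.SimStU
import Cfsg.Agent.H16.SimCY
import Cfsg.Agent.H18.SimXSE3
import Cfsg.Agent.H22.SimMd
import Cfsg.Agent.H23.SimEx
import Cfsg.Agent.H25.SimTau
import Cfsg.Agent.H27.XsAv3
import Cfsg.Agent.H29.SimTH
import Cfsg.Agent.H3.XSZ4
import Cfsg.Agent.H32.SimCard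
import Cfsg.Agent.H35.SimAD
import Cfsg.Agent.H38.SimBd
import Cfsg.Agent.H40.XSU9
import Cfsg.Agent.H45.SimXSY
import Cfsg.Agent.H47.SimSC
import Cfsg.Agent.H5.XSCub
import Cfsg.Agent.H59.SimXSDet
import Cfsg.Agent.H60.XsIv
import Cfsg.Agent.H62.SimAv2
import Cfsg.Agent.H65.SimNS
import Cfsg.Agent.H67.SimXSK
import Cfsg.Agent.H76.XSAv1
import Cfsg.Agent.H77.SimN9
import Cfsg.Agent.H81.SimXSSm
import Cfsg.Agent.H89.SimOrd
import Cfsg.Agent.H90.XsSA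
import Cfsg.Agent.H98.XsIso

/-! # S3694 (tower SIM), chapter XS: assembly. -/

set_option autoImplicit false

namespace H52.XS

theorem adK : AD := H35.SimAD.job
theorem thK : TH := H29.STH.job
theorem nsK : NS := H65.SimNS.job H69.SimSQ.jobSQ
theorem mdK : MD := H22.SimMd.job H99.SimStL.jobStL H49.SimStU.jobStU adK
theorem isoK : ISO := H98.XsIso.jobIso adK
theorem smK : SM := H81.SimXSSm.job H30.SimNC.jobNC H6.SimQSL.jobQSL H19.SimQSU.jobQSU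
theorem u9K : U9 := H40.XSU9.job H3.XSZ4.jobZ4 H59.SimXSDet.job (H25.SimTau.jobTau adK) (H45.SimXSY.job thK H69.SimSQ.jobSQ)
theorem n9K : N9 := H77.SimN9.job (H18.XS.jobE3 thK) H3.XSZ4.jobZ4 H5.XSCub.job (H16.SimCY.job adK) u9K

theorem jobXS : H0.Sim.JobXS :=
  top (H23.SimEx.job thK) H76.XSAv1.job H62.SimAv2.job H27.XsAv3.job H67.SimXSK.job H90.XsSA.jobSA
    H47.SimSC.job H32.SimCard.job (H60.XsIv.job thK adK) nsK mdK isoK smK H38.SimBd.job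
    H89.SimOrd.jobOrd n9K

end H52.XS
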