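import Cfsg.Agent.H52.SimXSSpec
import Cfsg.Agent.H30.SimNC

/-! # S3694 (tower SIM), chapter XS: the top. -/

set_option autoImplicit false
set_option maxHeartbeats 400000

namespace H52.XS

open Subgroup Cfsg H98 Matrix H0.Sim
open scoped commutatorElement

theorem mem_CE {n : ℕ} {F : Type} [Field F] {E : Subgroup (GL (Fin n) F)} {x : GL (Fin n) F}
    (hx : x ∈ centralizer (E : Set (GL (Fin n) F))) : (x : Mt n F) ∈ CE E := by
  rw [CE, Subalgebra.mem_centralizer_iff]
  rintro _ ⟨e, he, rfl⟩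
  exact congrArg Units.val (mem_centralizer_iff.1 hx e he)

theorem char_two {F : Type} [Field F] [Fintype F] {k : ℕ} (h : Fintype.card F = 2 ^ k) :
    ringChar F = 2 := by
  obtain ⟨m, hp, hm⟩ := FiniteField.card F (ringChar F)
  have h1 : ringChar F ∣ 2 ^ k := by
    rw [← h, hm]; exact dvd_pow_self _ m.ne_zero
  exact (Nat.prime_dvd_prime_iff_eq hp Nat.prime_two).1 (hp.dvd_of_dvd_pow h1)

theorem pow_eq_prime {r f s : ℕ} (_hr : r.Prime) (hs : s.Prime) (h : s = r ^ f) : f = 1 :=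
  (Nat.Prime.eq_one_of_pow (h ▸ hs))

theorem top (ex : EX) (a1 : JobAv1) (a2 : JobAv2) (a3 : JobAv3) (kk : JobK) (sa : JobSA)
    (sc : JobSC) (cd : JobCard) (iv : IV) (ns : NS) (md : MD) (iso : ISO) (smm : SM) (bd : JobBd)
    (ord : JobOrd) (n9 : N9) : JobXS := by
  intro n F _ _ u q p Θ H Q E g c hp hna r f hr hq
  have c0 := c.toCf0
  obtain ⟨e, ⟨k0, hk0⟩, scZ⟩ := ex n F u q p Θ H Q E c0 hp hna
  obtain ⟨P, p0⟩ := a1 n F E e.un
  have av := a3 n F _ E P e p0 (a2 n F _ E P e p0)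
  have K := kk n F _ E P e av
  have Zc : Zg n F u q ≤ center (GL (Fin n) F) := inf_le_right
  have QG : Q ≤ Gam n F u q := c0.QH.trans c0.HG
  have EG : E ≤ Gam n F u q := c0.EQ.trans QG
  obtain ⟨x, xQ, xC, xZ⟩ : ∃ x ∈ Q, x ∈ centralizer (E : Set (GL (Fin n) F)) ∧ x ∉ Zg n F u q := by
    by_contra h
    push Not at h
    refine c.Bne (eq_of_le_of_card_ge (fun b hb => ?_) (card_cj g E).ge)
    obtain ⟨y, hy, hyc⟩ := K b fun a ha => c0.cE a ha b (c.BQ hb)
    have := mul_mem hy (c0.ZE (h _ (mul_mem (inv_mem (c0.EQ hy)) (c.BQ hb)) hyc))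
    rwa [mul_inv_cancel_left] at this
  obtain ⟨a, aE, b, bE, hab⟩ := id hna
  have aZ : a ∉ Zg n F u q := fun h => hab (mem_center_iff.1 (Zc h) b).symm
  have aS : ¬ Sc (a : Mt n F) := fun h => aZ (scZ a (EG aE) h)
  have xS : ¬ Sc (x : Mt n F) := fun h => xZ (scZ x (QG xQ) h)
  have EA : mat E ⊆ AE E := Algebra.subset_adjoin
  have aA : (a : Mt n F) ∈ AE E := EA ⟨a, aE, rfl⟩
  have xCE := mem_CE xC
  have nsA := ns n F u q c0.par (AE E) a x (EG aE) aA aZ (fun m hm =>
    (Algebra.commute_of_mem_adjoin_of_forall_mem_commute hm fun y hy =>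
      ((Subalgebra.mem_centralizer_iff F).1 xCE y hy).symm).eq) xS
  have nsC := ns n F u q c0.par (CE E) x a (QG xQ) xCE xZ (fun m hm =>
    (Subalgebra.mem_centralizer_iff F).1 hm _ ⟨a, aE, rfl⟩) aS
  obtain ⟨ivA, ivC, hst⟩ := iv n F u q p Θ H Q E c0
  obtain ⟨sA, zA, cA⟩ := sa n F _ E P e av
  obtain ⟨sC, zC⟩ := sc n F _ E P e av
  obtain ⟨ka, ka2, mA⟩ := md n F u q c0.par (AE E) sA (fun m hm h => zA m hm
    ((Subalgebra.mem_centralizer_iff F).2 fun y hy => (h y (EA hy)).symm)) (fun h => (hst h).1)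
    ⟨a, aA, aS⟩
  obtain ⟨kc, kc2, mC⟩ := md n F u q c0.par (CE E) sC zC (fun h => (hst h).2) ⟨x, xCE, xS⟩
  have mA2 := iso n F u q c0.par _ _ (fun h => (hst h).1) mA
  have mC2 := iso n F u q c0.par _ _ (fun h => (hst h).2) mC
  have smA := smm n F u q p Θ H Q E c0 _ _ ivA nsA mA2 ka2
  have smC := smm n F u q p Θ H Q E c0 _ _ ivC nsC mC2 kc2
  have F2 : 2 ≤ Fintype.card F := Fintype.one_lt_card
  have hN : (Zg n F u q).relIndex E = ka * ka := by
    have h1 := cd n F _ E P e av (AE E) EA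
    rw [mA2.1, cA] at h1
    exact (Nat.pow_right_injective F2 h1).symm
  have hn : n * n = kc * kc * (ka * ka) := by
    have h1 := cd n F _ E P e av ⊤ (fun _ _ => trivial)
    have h2 : Nat.card (Mt n F) = Fintype.card F ^ (n * n) := by
      change Nat.card (Fin n → Fin n → F) = _
      rw [Nat.card_eq_fintype_card, Fintype.card_fun, Fintype.card_fun, ← pow_mul,
        Fintype.card_fin]
    rw [top_inf_eq, mC2.1, hN, ← pow_mul, Nat.card_congr Subalgebra.topEquiv.toEquiv, h2] at h1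
    exact Nat.pow_right_injective F2 h1
  have hpk : ka.Prime → p = ka := fun h => by
    have h1 : ka ∣ p ^ k0 := by rw [← hk0, hN]; exact dvd_mul_right _ _
    exact ((Nat.prime_dvd_prime_iff_eq h c0.pp).1 (h.dvd_of_dvd_pow h1)).symm
  have HE : H ≤ normalizer (E : Set (GL (Fin n) F)) := H30.SimNC.norm_of_iv c0.inn c0.ivE
  have bound : p = ka → Nat.card H ≤ p ^ 6 * Nat.card (GR u q (CE E)) := fun h => by
    refine bd _ (Zg n F u q) E H _ p c0.pp Zc c0.ZE (fun z hz => ⟨hz.1, ?_⟩) HE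
      (by rw [hN, h, pow_two]) hna fun h hh hc => ?_
    · have : ∀ z ∈ Zg n F u q, (z : Mt n F) ∈ CE E := fun z hz =>
        mem_CE (center_le_centralizer _ (Zc hz))
      exact (Submonoid.mem_units_iff _ _).2 ⟨this z hz, this _ (inv_mem hz)⟩
    · obtain ⟨y, hy, hyc⟩ := K h hc
      have hg : y⁻¹ * h ∈ Gam n F u q := mul_mem (inv_mem (EG hy)) (c0.HG hh)
      exact ⟨y, hy, hg, (Submonoid.mem_units_iff _ _).2 ⟨mem_CE hyc, mem_CE (inv_mem hyc)⟩⟩
  have Zpos : 1 ≤ Nat.card (Zg n F u q) := Nat.card_pos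
  have hcard := c0.par.card
  obtain ⟨-, L, _, _, hL, ⟨ψ⟩⟩ := mC2
  have hD := Nat.card_congr ψ.toEquiv
  obtain ⟨o1, o2, o3⟩ := ord L
  rcases smA with ⟨rfl, q3⟩ | ⟨rfl, rfl, rfl⟩
  · have p2 := hpk Nat.prime_two
    have hb := bound p2
    subst p2
    have hq3 : q = 3 := by
      have h2 : q ≠ 2 := by
        rintro rfl
        cases u
        · exact hp (char_two (k := 1) (by simpa using hcard)).symm
        · exact hp (char_two (k := 2) (by simpa using hcard)).symm
      have h1 : 2 ≤ q := by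
        by_contra h
        have : q = 0 ∨ q = 1 := by omega
        rcases this with rfl | rfl <;> cases u <;> simp at hcard <;> omega
      omega
    subst hq3
    obtain rfl : f = 1 := pow_eq_prime hr Nat.prime_three hq
    have hk : kc = 2 := by
      rcases smC with ⟨h, -⟩ | ⟨-, -, h⟩
      · exact h
      · omega
    subst hk
    rw [hD] at hb
    cases u
    · have := o1 (by simpa [hL] using hcard)
      omega
    · have := o2 (by simpa [hL] using hcard)
      omega
  · have p3 := hpk Nat.prime_three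
    have hb := bound p3
    subst p3
    obtain rfl : f = 1 := pow_eq_prime hr Nat.prime_two hq
    rcases smC with ⟨rfl, -⟩ | ⟨-, rfl, -⟩
    · rw [hD] at hb
      have := o3 (by simpa [hL] using hcard)
      omega
    · obtain rfl : n = 9 := by nlinarith
      exact (n9 F Θ H Q E c0 e hna ivC nsC (hst rfl).2 mC x xQ xC xZ).elim

end H52.XS
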