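import Cfsg.Agent.H98.Core
import Cfsg.Prelude.Def_SylowChains

/-! Chains of Sylow subgroups controlled by a family of subgroups. -/

set_option autoImplicit false
set_option linter.unusedSectionVars false

namespace H52.SC

open Cfsg Subgroup H98 Relation

theorem rtg_iff {α : Type*} {r : α → α → Prop} {a b : α} : ReflTransGen r a b ↔
    ∃ (n : ℕ) (c : Fin (n + 1) → α), c 0 = a ∧ c (Fin.last n) = b ∧
      ∀ i : Fin n, r (c i.castSucc) (c i.succ) := by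
  constructor
  · intro h
    induction h with
    | refl => exact ⟨0, fun _ => a, rfl, rfl, fun i => i.elim0⟩
    | @tail b d _ h2 ih =>
      obtain ⟨n, c, h0, h1, hc⟩ := ih
      refine ⟨n + 1, Fin.snoc (α := fun _ => α) c d, ?_, by simp, fun i => ?_⟩
      · rw [← h0]; exact Fin.snoc_castSucc (α := fun _ => α) d c 0
      · refine Fin.lastCases ?_ (fun j => ?_) i
        · rw [Fin.succ_last, Fin.snoc_last, Fin.snoc_castSucc, h1]; exact h2
        · rw [Fin.succ_castSucc, Fin.snoc_castSucc, Fin.snoc_castSucc]; exact hc j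
  · rintro ⟨n, c, rfl, rfl, hc⟩
    have : ∀ i, ReflTransGen r (c 0) (c i) := fun i =>
      Fin.induction ReflTransGen.refl (fun j ih => ih.tail (hc j)) i
    exact this _

theorem rtg_lift {α β : Type*} {r : α → α → Prop} {s : β → β → Prop} (f : α → β)
    (h : ∀ a b, r a b → s (f a) (f b)) {a b : α} (k : ReflTransGen r a b) :
    ReflTransGen s (f a) (f b) := by
  induction k with
  | refl => exact ReflTransGen.refl
  | tail _ h2 ih => exact ih.tail (h _ _ h2)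

variable {G : Type*} [Group G] [Finite G] {p : ℕ} [hp : Fact p.Prime]

/-- one step of a chain -/
def St (p : ℕ) (𝓕 : Set (Subgroup G)) (A S T : Subgroup G) : Prop :=
  ∃ X ∈ 𝓕, IsSyl p (S ⊓ X) X ∧ IsSyl p (T ⊓ X) X ∧ (∃ x ∈ X, cj x S = T) ∧ A ≤ S ∧ A ≤ T ∧ A ≤ X

abbrev Ch (p : ℕ) (𝓕 : Set (Subgroup G)) (A S T : Subgroup G) : Prop :=
  ReflTransGen (St p 𝓕 A) S T

/-- control of Sylow intersections inside the subgroup `M` -/
def Ctl (p : ℕ) (𝓕 : Set (Subgroup G)) (M : Subgroup G) : Prop :=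
  ∀ S T, IsSyl p S M → IsSyl p T M → S ⊓ T ≠ ⊥ → Ch p 𝓕 (S ⊓ T) S T

variable {𝓕 𝓖 : Set (Subgroup G)} {A B S T M : Subgroup G}

theorem St.mono (h : St p 𝓕 A S T) (h1 : 𝓕 ⊆ 𝓖) (h2 : B ≤ A) : St p 𝓖 B S T := by
  obtain ⟨X, a, b, c, d, e, f, g⟩ := h
  exact ⟨X, h1 a, b, c, d, h2.trans e, h2.trans f, h2.trans g⟩

theorem Ch.mono (h : Ch p 𝓕 A S T) (h1 : 𝓕 ⊆ 𝓖) (h2 : B ≤ A) : Ch p 𝓖 B S T :=
  rtg_lift id (fun _ _ k => St.mono k h1 h2) h

theorem St.map {H : Type*} [Group H] {f : G →* H} (hf : Function.Injective f) {𝓗 : Set (Subgroup H)}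
    (h1 : ∀ X ∈ 𝓕, X.map f ∈ 𝓗) (h : St p 𝓕 A S T) : St p 𝓗 (A.map f) (S.map f) (T.map f) := by
  obtain ⟨X, a, b, c, ⟨x, hx, rfl⟩, e, k, g⟩ := h
  refine ⟨X.map f, h1 X a, ?_, ?_, ⟨f x, mem_map_of_mem f hx, (map_cj f x S).symm⟩, map_mono e,
    map_mono k, map_mono g⟩
  · rw [← map_inf _ _ _ hf]; exact b.map_of_injective hf
  · rw [← map_inf _ _ _ hf]; exact c.map_of_injective hf

theorem Ch.map {H : Type*} [Group H] {f : G →* H} (hf : Function.Injective f) {𝓗 : Set (Subgroup H)}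
    (h1 : ∀ X ∈ 𝓕, X.map f ∈ 𝓗) (h : Ch p 𝓕 A S T) : Ch p 𝓗 (A.map f) (S.map f) (T.map f) :=
  rtg_lift (Subgroup.map f) (fun _ _ k => St.map hf h1 k) h

theorem Ch.cj (h1 : ∀ X ∈ 𝓕, ∀ g, cj g X ∈ 𝓕) (h : Ch p 𝓕 A S T) (g : G) :
    Ch p 𝓕 (cj g A) (cj g S) (cj g T) :=
  h.map (MulAut.conj g).injective fun X hX => h1 X hX g

theorem mem_sylowMembers {X : Subgroup G} :
    X ∈ sylowMembers p 𝓕 S ↔ X ∈ 𝓕 ∧ IsSyl p (S ⊓ X) X :=
  and_congr_right fun _ => isSyl_iff_exists_sylow_map.symm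

theorem ctl_top_iff : ControlsSylowIntersections p 𝓕 ↔ Ctl p 𝓕 ⊤ := by
  constructor
  · intro h S T hS hT hne
    obtain ⟨S, rfl⟩ := isSyl_top_iff.1 hS
    obtain ⟨T, rfl⟩ := isSyl_top_iff.1 hT
    by_cases e : S = T
    · rw [e]
    obtain ⟨n, c, X, x, h0, h1, hc⟩ := h S T e hne
    have hA : ∀ i, (S : Subgroup G) ⊓ T ≤ c i := fun i =>
      Fin.cases (by rw [h0]; exact inf_le_left) (fun j => (hc j).2.2.2.2.trans inf_le_left) i
    refine rtg_iff.2 ⟨n, fun i => c i, congrArg _ h0, congrArg _ h1, fun i => ?_⟩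
    obtain ⟨a, b, d, k, l⟩ := hc i
    rw [mem_sylowMembers] at a b
    refine ⟨X i, a.1, a.2, b.2, ⟨x i, d, ?_⟩, hA _, hA _, l.trans inf_le_right⟩
    beta_reduce
    rw [← k]
    exact cj_cj_inv _ _
  · intro h S T _ hne
    obtain ⟨n, c, h0, h1, hc⟩ := rtg_iff.1 (h S T (isSyl_sylow S) (isSyl_sylow T) hne)
    have hs : ∀ i, IsSyl p (c i) ⊤ := fun i => Fin.induction (h0 ▸ isSyl_sylow S) (fun j ih => by
      obtain ⟨X, -, -, -, ⟨x, -, e⟩, -⟩ := hc j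
      rw [← e]; exact ih.cj_of_mem trivial) i
    choose X a b d x e using hc
    choose x hx k using x
    refine ⟨n, fun i => (hs i).toSylowTop, X, x, Sylow.ext h0, Sylow.ext h1, fun i => ?_⟩
    simp only [IsSyl.coe_toSylowTop]
    refine ⟨mem_sylowMembers.2 ⟨a i, b i⟩, mem_sylowMembers.2 ⟨a i, d i⟩, hx i, ?_,
      le_inf (e i).2.1 (e i).2.2⟩
    rw [← k i]
    exact cj_inv_cj _ _

theorem St.subgroupOf (h1 : ∀ X ∈ 𝓕, X ≤ M) (h : St p 𝓕 A S T) :
    St p ((fun X : Subgroup G => X.subgroupOf M) '' 𝓕) (A.subgroupOf M) (S.subgroupOf M)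
      (T.subgroupOf M) := by
  obtain ⟨X, a, b, c, ⟨x, hx, rfl⟩, e, k, g⟩ := h
  refine ⟨X.subgroupOf M, ⟨X, a, rfl⟩, b.subgroupOf (h1 X a), c.subgroupOf (h1 X a),
    ⟨⟨x, h1 X a hx⟩, hx, ?_⟩, comap_mono e, comap_mono k, comap_mono g⟩
  ext y
  rw [mem_cj, mem_subgroupOf, mem_subgroupOf, mem_cj]
  rfl

theorem ctl_iff (h1 : ∀ X ∈ 𝓕, X ≤ M) :
    ControlsSylowIntersections p ((fun X : Subgroup G => X.subgroupOf M) '' 𝓕) ↔ Ctl p 𝓕 M := by
  rw [ctl_top_iff]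
  constructor
  · intro h S T hS hT hne
    have e : (S.subgroupOf M ⊓ T.subgroupOf M).map M.subtype = S ⊓ T := by
      rw [map_inf _ _ _ M.subtype_injective, map_subgroupOf_eq_of_le hS.le,
        map_subgroupOf_eq_of_le hT.le]
    have := (h _ _ hS.subgroupOf_top hT.subgroupOf_top fun k => hne (by
      rw [← e, k, Subgroup.map_bot])).map M.subtype_injective (𝓗 := 𝓕) (by
        rintro _ ⟨X, hX, rfl⟩
        rwa [map_subgroupOf_eq_of_le (h1 X hX)])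
    rwa [e, map_subgroupOf_eq_of_le hS.le, map_subgroupOf_eq_of_le hT.le] at this
  · intro h S T hS hT hne
    have k : ∀ U : Subgroup M, IsSyl p U ⊤ → IsSyl p (U.map M.subtype) M := fun U hU => by
      have := hU.map_of_injective M.subtype_injective
      rwa [map_subtype_top] at this
    have k' : ∀ U : Subgroup M, (U.map M.subtype).subgroupOf M = U := fun U =>
      comap_map_eq_self_of_injective M.subtype_injective U
    have e := map_inf S T _ M.subtype_injective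
    have h2 := h _ _ (k S hS) (k T hT) fun l => hne
      ((map_eq_bot_iff_of_injective _ M.subtype_injective).1 (e.trans l))
    have := rtg_lift (fun X : Subgroup G => X.subgroupOf M)
      (fun _ _ l => St.subgroupOf h1 l) h2
    simp only [← e, k'] at this
    exact this

variable {f : Subgroup G → Set (Subgroup G)}

theorem mem_fam {X : Subgroup G} : X ∈ functorFamily p f M ↔
    ∃ P, IsSyl p P M ∧ ∃ F ∈ f P, X = M ⊓ normalizer (F : Set G) := by
  constructor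
  · rintro ⟨P, h⟩
    exact ⟨_, isSyl_map_subtype P, h⟩
  · rintro ⟨P, hP, h⟩
    obtain ⟨P, rfl⟩ := hP.exists_sylow_map
    exact ⟨P, h⟩

theorem regular_iff : IsFunctorRegular p f M ↔ Ctl p (functorFamily p f M) M :=
  ctl_iff fun X hX => by
    obtain ⟨P, -, F, -, rfl⟩ := mem_fam.1 hX
    exact inf_le_left

theorem cj_mem_f (hf : IsNormalizerFunctor p f) {P F : Subgroup G} (hP : IsPGroup p P)
    (hF : F ∈ f P) (g : G) : cj g F ∈ f (cj g P) := by
  rw [(hf P hP).2 g]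
  exact ⟨F, hF, rfl⟩

theorem fam_cj (hf : IsNormalizerFunctor p f) : ∀ X ∈ functorFamily p f ⊤, ∀ g,
    cj g X ∈ functorFamily p f ⊤ := by
  intro X hX g
  obtain ⟨P, hP, F, hF, rfl⟩ := mem_fam.1 hX
  exact mem_fam.2 ⟨_, hP.cj_of_mem trivial, _, cj_mem_f hf hP.isPGroup hF g, by
    rw [cj_inf, cj_top, cj_normalizer]⟩

/-- the structure of a step for the family of a functor -/
theorem St.fam (hf : IsNormalizerFunctor p f) (h : St p (functorFamily p f M) A S T)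
    (hS : IsSyl p S M) : IsSyl p T M ∧ A ≤ S ∧ A ≤ T ∧ ∃ F ∈ f S, F ∈ f T ∧
      ∃ x ∈ normalizer (F : Set G), cj x S = T := by
  obtain ⟨X, a, b, c, ⟨x, hx, rfl⟩, e, k, -⟩ := h
  obtain ⟨P, hP, F, hF, rfl⟩ := mem_fam.1 a
  have hPX : P ≤ M ⊓ normalizer (F : Set G) :=
    le_inf hP.le (le_normalizer.trans ((hf P hP.isPGroup).1 F hF).2)
  obtain ⟨y, hy, l⟩ := b.exists_cj_le hP.isPGroup hPX
  have e1 : S = cj y P := (hP.cj_of_mem hy.1).eq_of_le hS.isPGroup (l.trans inf_le_left) hS.le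
  have h1 : F ∈ f S := by
    have := cj_mem_f hf hP.isPGroup hF y
    rwa [← e1, cj_eq_self hy.2] at this
  have h2 := cj_mem_f hf hS.isPGroup h1 x
  rw [cj_eq_self hx.2] at h2
  exact ⟨hS.cj_of_mem hx.1, e, k, F, h1, h2, x, hx.2, rfl⟩

theorem st_of_fam (hf : IsNormalizerFunctor p f) (hS : IsSyl p S ⊤) (hA : A ≤ S) (hB : A ≤ T)
    {F : Subgroup G} (h1 : F ∈ f S) (h2 : F ∈ f T) {x : G} (hx : x ∈ normalizer (F : Set G))
    (e : cj x S = T) : St p (functorFamily p f ⊤) A S T := by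
  have hT : IsSyl p T ⊤ := e ▸ hS.cj_of_mem trivial
  have k : ∀ U, IsSyl p U ⊤ → F ∈ f U → U ≤ ⊤ ⊓ normalizer (F : Set G) := fun U hU h =>
    le_inf le_top (le_normalizer.trans ((hf U hU.isPGroup).1 F h).2)
  refine ⟨_, mem_fam.2 ⟨S, hS, F, h1, rfl⟩, ?_, ?_, ⟨x, ⟨trivial, hx⟩, e⟩, hA, hB,
    hA.trans (k S hS h1)⟩
  · rw [inf_eq_left.2 (k S hS h1)]; exact hS.of_le (k S hS h1) le_top
  · rw [inf_eq_left.2 (k T hT h2)]; exact hT.of_le (k T hT h2) le_top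

theorem ch_top_of_fam (hf : IsNormalizerFunctor p f) (h : Ch p (functorFamily p f M) A S T)
    (hS : IsSyl p S ⊤) (hM : S ≤ M) : Ch p (functorFamily p f ⊤) A S T := by
  suffices IsSyl p T ⊤ ∧ T ≤ M ∧ Ch p (functorFamily p f ⊤) A S T from this.2.2
  induction h with
  | refl => exact ⟨hS, hM, ReflTransGen.refl⟩
  | tail _ h2 ih =>
    obtain ⟨a, b, c, F, h3, h4, x, hx, e⟩ := h2.fam hf (ih.1.of_le ih.2.1 le_top)
    exact ⟨e ▸ ih.1.cj_of_mem trivial, a.le, ih.2.2.tail (st_of_fam hf ih.1 b c h3 h4 hx e)⟩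

/-- a Sylow subgroup between the two factors of a factorization -/
theorem exists_between {G₁ G₂ : Subgroup G} (hS : IsSyl p S ⊤) (h1 : S ≤ G₁) (h2 : S ≤ G₂)
    (h : ∀ g : G, ∃ g₁ ∈ G₁, ∃ g₂ ∈ G₂, g = g₁ * g₂) (g : G) :
    ∃ U, IsSyl p U ⊤ ∧ S ⊓ cj g S ≤ U ∧ U ≤ G₁ ⊓ cj g G₂ := by
  obtain ⟨a, ha, b, hb, rfl⟩ := h g
  have e : cj (a * b) G₂ = cj a G₂ := by rw [← cj_cj, cj_eq_self_of_mem hb]
  have h3 : cj a S ≤ G₁ ⊓ cj (a * b) G₂ := le_inf (cj_le_of_le_of_mem h1 ha) (e ▸ cj_mono a h2)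
  obtain ⟨U, hU, l⟩ := exists_isSyl_le (hS.isPGroup.to_le (inf_le_left : S ⊓ cj (a * b) S ≤ S))
    (inf_le_inf h1 (cj_mono _ h2))
  exact ⟨U, hS.of_card_ge hU.isPGroup le_top
    (card_cj a S ▸ hU.card_le (isPGroup_cj a hS.isPGroup) h3), l, hU.le⟩

theorem ctl_of_prod (hf : IsNormalizerFunctor p f) {G₁ G₂ : Subgroup G} (hS : IsSyl p S ⊤)
    (h1 : S ≤ G₁) (h2 : S ≤ G₂) (h : ∀ g : G, ∃ g₁ ∈ G₁, ∃ g₂ ∈ G₂, g = g₁ * g₂)
    (r1 : Ctl p (functorFamily p f G₁) G₁) (r2 : Ctl p (functorFamily p f G₂) G₂) :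
    Ctl p (functorFamily p f ⊤) ⊤ := by
  have key : ∀ g, S ⊓ cj g S ≠ ⊥ → Ch p (functorFamily p f ⊤) (S ⊓ cj g S) S (cj g S) := by
    intro g hne
    obtain ⟨U, hU, l1, l2⟩ := exists_between hS h1 h2 h g
    have a1 := le_inf inf_le_left l1
    have c1 := (ch_top_of_fam hf (r1 S U (hS.of_le h1 le_top)
      (hU.of_le (l2.trans inf_le_left) le_top) fun e => hne (eq_bot_iff.2 (a1.trans e.le))) hS
      h1).mono le_rfl a1
    have hU' : IsSyl p (cj g⁻¹ U) ⊤ := hU.cj_of_mem trivial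
    have l3 : cj g⁻¹ U ≤ G₂ := le_cj_iff.1 (l2.trans inf_le_right)
    have a2 : S ⊓ cj g S ≤ cj g (cj g⁻¹ U ⊓ S) := by
      rw [cj_inf, cj_cj_inv]; exact le_inf l1 inf_le_right
    have c2 := (ch_top_of_fam hf (r2 _ S (hU'.of_le l3 le_top) (hS.of_le h2 le_top) fun e => hne
      (eq_bot_iff.2 (a2.trans (by rw [e, cj_bot])))) hU' l3).cj (fam_cj hf) g
    rw [cj_cj_inv] at c2
    exact c1.trans (c2.mono le_rfl a2)
  intro U T hU hT hne
  obtain ⟨a, -, rfl⟩ := hS.exists_cj_eq hU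
  obtain ⟨b, -, rfl⟩ := hS.exists_cj_eq hT
  have e : cj a (cj (a⁻¹ * b) S) = cj b S := by rw [cj_cj, mul_inv_cancel_left]
  have := (key (a⁻¹ * b) fun k => hne (by rw [← e, ← cj_inf, k, cj_bot])).cj (fam_cj hf) a
  rwa [cj_inf, e] at this

theorem exists_maxLocal {N : Subgroup G} (h : IsPLocal p N) : ∃ M, IsMaximalPLocal p M ∧ N ≤ M := by
  obtain ⟨M, hM, hmax⟩ := exists_maximal_ge_of_wellFoundedGT (IsPLocal p) N h
  exact ⟨M, ⟨hmax.1, fun N hN hle => le_antisymm (hmax.2 hN hle) hle⟩, hM⟩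

theorem card_lt {P Q : Subgroup G} (h : P < Q) : Nat.card P < Nat.card Q :=
  (card_le_of_le h.le).lt_of_ne fun e => h.ne (eq_of_le_of_card_ge h.le e.ge)

theorem ctl_union (hf : IsNormalizerFunctor p f)
    (hf1 : ∀ P : Subgroup G, IsPGroup p P → P ≠ ⊥ → ∀ F ∈ f P, F ≠ ⊥) :
    Ctl p (functorFamily p f ⊤ ∪ {M | IsMaximalPLocal p M ∧ ¬ IsFunctorRegular p f M}) ⊤ := by
  set 𝓗 := functorFamily p f ⊤ ∪ {M | IsMaximalPLocal p M ∧ ¬ IsFunctorRegular p f M} with h𝓗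
  suffices ∀ A : Subgroup G, A ≠ ⊥ → ∀ S T, IsSyl p S ⊤ → IsSyl p T ⊤ → A ≤ S → A ≤ T →
      Ch p 𝓗 A S T from fun S T hS hT hne => this _ hne S T hS hT inf_le_left inf_le_right
  intro A
  induction A using WellFoundedGT.induction with
  | _ A ih =>
  intro hA
  let C : Subgroup G → Subgroup G → Prop := fun P R =>
    ∀ S T, IsSyl p S ⊤ → IsSyl p T ⊤ → P ≤ S → R ≤ T → Ch p 𝓗 A S T
  have crefl : ∀ P, A < P → C P P := fun P hP S T hS hT a b =>
    (ih P hP (ne_bot_of_gt hP) S T hS hT a b).mono le_rfl hP.le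
  have ctrans : ∀ P Q R : Subgroup G, IsPGroup p Q → C P Q → C Q R → C P R :=
      fun P Q R hQ a b S T hS hT c d => by
    obtain ⟨U, hU, l⟩ := exists_isSyl_le hQ le_top
    exact (a S U hS hU c l).trans (b U T hU hT l d)
  have cup : ∀ P Q, A < P → P ≤ Q → C P Q ∧ C Q P := fun P Q hP l =>
    ⟨fun S T hS hT a b => crefl P hP S T hS hT a (l.trans b),
      fun S T hS hT a b => crefl P hP S T hS hT (l.trans a) b⟩
  have inner : ∀ (n : ℕ) (N Q : Subgroup G), IsPLocal p N → IsPGroup p Q → Q ≤ N →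
      Nat.card G ≤ Nat.card Q + n → ∀ P R : Subgroup G, IsPGroup p P → IsPGroup p R → P ≤ N → R ≤ N → A < P →
      A < R → C P R := by
    intro n
    induction n using Nat.strong_induction_on with
    | _ n ihn =>
    intro N Q hN hQ hQN hn P R hP hR lP lR aP aR
    obtain ⟨M, hM, hNM⟩ := exists_maxLocal hN
    obtain ⟨P', hP', lP'⟩ := exists_isSyl_le hP (lP.trans hNM)
    obtain ⟨R', hR', lR'⟩ := exists_isSyl_le hR (lR.trans hNM)
    refine ctrans _ _ _ hP'.isPGroup (cup _ _ aP lP').1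
      (ctrans _ _ _ hR'.isPGroup ?_ (cup _ _ aR lR').2)
    have aP' := aP.trans_le lP'
    have aR' := aR.trans_le lR'
    by_cases hreg : IsFunctorRegular p f M
    · have hc := (regular_iff.1 hreg P' R' hP' hR' fun e => hA
        (eq_bot_iff.2 ((le_inf aP'.le aR'.le).trans e.le))).mono le_rfl (le_inf aP'.le aR'.le)
      suffices ∀ U, Ch p (functorFamily p f M) A P' U → IsSyl p U M ∧ C P' U from (this _ hc).2
      intro U hU
      induction hU with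
      | refl => exact ⟨hP', crefl _ aP'⟩
      | @tail U V _ h2 ih2 =>
        obtain ⟨a, b, c, F, h3, h4, x, hx, e⟩ := h2.fam hf ih2.1
        refine ⟨a, ctrans _ _ _ ih2.1.isPGroup ih2.2 ?_⟩
        have lt : ∀ W, IsSyl p W M → A ≤ W → A < W := fun W hW l => l.lt_of_ne fun k =>
          absurd (hW.card_le hP'.isPGroup hP'.le) (k ▸ (card_lt aP').not_ge)
        by_cases hU : IsSyl p U ⊤
        · intro S T hS hT lS lT
          have hV : IsSyl p V ⊤ := e ▸ hU.cj_of_mem trivial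
          rw [hU.eq_of_le hS.isPGroup lS le_top, hV.eq_of_le hT.isPGroup lT le_top]
          exact ReflTransGen.single ((st_of_fam hf hU b c h3 h4 hx e).mono
            Set.subset_union_left le_rfl)
        · obtain ⟨S, hS, lS⟩ := exists_isSyl_le ih2.1.isPGroup le_top
          have l1 := lt_inf_normalizer hS.isPGroup (lS.lt_of_ne fun k => hU (k ▸ hS))
          have f1 := (hf U ih2.1.isPGroup).1 F h3
          have f2 := (hf V a.isPGroup).1 F h4
          have c1 := card_lt l1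
          have c2 := ih2.1.card_le hQ (hQN.trans hNM)
          have c3 : Nat.card ↥(S ⊓ normalizer (U : Set G)) ≤ Nat.card G := card_le_card_group _
          exact ihn (n - 1) (by omega) (normalizer (F : Set G)) _
            ⟨F, ih2.1.isPGroup.to_le f1.1, hf1 U ih2.1.isPGroup (ne_bot_of_gt (lt U ih2.1 b)) F h3,
              rfl⟩ (hS.isPGroup.to_le inf_le_left) (inf_le_right.trans f1.2) (by omega) U V
            ih2.1.isPGroup a.isPGroup (le_normalizer.trans f1.2) (le_normalizer.trans f2.2)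
            (lt U ih2.1 b) (lt V a c)
    · intro S T hS hT lS lT
      obtain ⟨x, hx, e⟩ := hP'.exists_cj_eq hR'
      have l2 : R' ≤ cj x S := e ▸ cj_mono x lS
      have hS' : IsSyl p (cj x S) ⊤ := hS.cj_of_mem trivial
      refine ReflTransGen.head ?_ (crefl R' aR' _ T hS' hT l2 lT)
      refine ⟨M, Or.inr ⟨hM, hreg⟩, ?_, ?_, ⟨x, hx, rfl⟩, aP'.le.trans lS, aR'.le.trans l2,
        aP'.le.trans hP'.le⟩
      · rwa [hP'.eq_of_le (hS.isPGroup.to_le inf_le_left) (le_inf lS hP'.le) inf_le_right]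
      · rwa [hR'.eq_of_le (hS'.isPGroup.to_le inf_le_left) (le_inf l2 hR'.le) inf_le_right]
  intro S T hS hT lS lT
  by_cases e : S = T
  · rw [e]
  have k : ∀ U V, IsSyl p U ⊤ → IsSyl p V ⊤ → U ≠ V → A ≤ U → A ≤ V →
      A < U ⊓ normalizer (A : Set G) := fun U V hU hV ne a b =>
    lt_inf_normalizer hU.isPGroup (a.lt_of_ne fun l => ne
      (hU.eq_of_le hV.isPGroup (l ▸ b) le_top).symm)
  exact inner (Nat.card G) _ ⊥ ⟨A, hS.isPGroup.to_le lS, hA, rfl⟩ IsPGroup.of_bot bot_le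
    (by omega) _ _ (hS.isPGroup.to_le inf_le_left) (hT.isPGroup.to_le inf_le_left) inf_le_right
    inf_le_right (k S T hS hT e lS lT) (k T S hT hS (Ne.symm e) lT lS) S T hS hT inf_le_left
    inf_le_left

theorem normalSet_cj (h : IsNormalSet 𝓕) : ∀ X ∈ 𝓕, ∀ g, cj g X ∈ 𝓕 := fun X hX g => by
  have := h X hX g⁻¹
  rwa [subgroupConjRight, inv_inv] at this

theorem Ch.reach (h1 : ∀ X ∈ 𝓕, ∀ g, H98.cj g X ∈ 𝓕) {H U V : Subgroup G}
    (hH : ∀ X ∈ 𝓕, IsSyl p (S ⊓ X) X → X ≤ H) (h : Ch p 𝓕 A U V) (k : ∃ g ∈ H, H98.cj g S = U) :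
    ∃ g ∈ H, H98.cj g S = V := by
  induction h with
  | refl => exact k
  | tail _ h2 ih =>
    obtain ⟨g, hg, rfl⟩ := ih
    obtain ⟨X, a, b, -, ⟨x, hx, rfl⟩, -⟩ := h2
    have b' := b.cj g⁻¹
    rw [cj_inf, cj_inv_cj] at b'
    have m := hH _ (h1 X a g⁻¹) b' (conj_mem_cj (g := g⁻¹) hx)
    exact ⟨x * g, by simpa [mul_assoc] using H.mul_mem hg m, (cj_cj _ _ _).symm⟩

/-- products of elements of members of the family carrying `A` along inside `S` -/
inductive Fus (p : ℕ) (𝓕 : Set (Subgroup G)) (S : Subgroup G) (A : Set G) : G → Prop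
  | one : Fus p 𝓕 S A 1
  | step {w y : G} {Y : Subgroup G} : Fus p 𝓕 S A w → Y ∈ sylowMembers p 𝓕 S → y ∈ Y →
      conjRight (w * y) A ⊆ (S : Set G) ∩ (Y : Set G) → Fus p 𝓕 S A (w * y)

theorem fus_iff {A : Set G} {w : G} : Fus p 𝓕 S A w ↔
    ∃ (n : ℕ) (Y : Fin n → Subgroup G) (y : Fin n → G),
      (∀ i : Fin n, Y i ∈ sylowMembers p 𝓕 S ∧ y i ∈ Y i) ∧ w = (List.ofFn y).prod ∧
      ∀ i : Fin n, conjRight (((List.ofFn y).take (i.val + 1)).prod) A ⊆ (S : Set G) ∩ (Y i : Set G) := by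
  constructor
  · intro h
    induction h with
    | one => exact ⟨0, fun i => i.elim0, fun i => i.elim0, fun i => i.elim0, rfl, fun i => i.elim0⟩
    | @step w y Y _ a b c ih =>
      obtain ⟨n, Z, z, h1, rfl, h2⟩ := ih
      have e : List.ofFn (Fin.snoc (α := fun _ => G) z y) = List.ofFn z ++ [y] := by
        rw [List.ofFn_succ']; simp
      refine ⟨n + 1, Fin.snoc (α := fun _ => Subgroup G) Z Y, Fin.snoc (α := fun _ => G) z y,
        fun i => ?_, by rw [e]; simp, fun i => ?_⟩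
      · refine Fin.lastCases ?_ (fun j => ?_) i
        · simpa using ⟨a, b⟩
        · simpa using h1 j
      · rw [e]
        refine Fin.lastCases ?_ (fun j => ?_) i
        · rw [List.take_of_length_le (by simp), Fin.snoc_last]
          simpa using c
        · rw [List.take_append_of_le_length (by simp), Fin.snoc_castSucc]
          exact h2 j
  · rintro ⟨n, Y, y, h1, rfl, h2⟩
    have : ∀ k, k ≤ n → Fus p 𝓕 S A ((List.ofFn y).take k).prod := by
      intro k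
      induction k with
      | zero => exact fun _ => Fus.one
      | succ k ih =>
        intro hk
        have l := h2 ⟨k, hk⟩
        rw [List.prod_take_succ _ _ (by simpa using hk)] at l ⊢
        exact (ih (by omega)).step (h1 ⟨k, hk⟩).1 (by simpa using (h1 ⟨k, hk⟩).2) l
    have l := this n le_rfl
    rwa [List.take_of_length_le (by simp)] at l

theorem Ch.fus (h1 : ∀ X ∈ 𝓕, ∀ g, H98.cj g X ∈ 𝓕) {A : Set G} (hA : A ⊆ B) (h : Ch p 𝓕 B S T) :
    ∃ w, Fus p 𝓕 S A w ∧ H98.cj w S = T := by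
  induction h with
  | refl => exact ⟨1, Fus.one, cj_one _⟩
  | tail _ h2 ih =>
    obtain ⟨w, hw, rfl⟩ := ih
    obtain ⟨X, a, b, -, ⟨x, hx, rfl⟩, -, c, d⟩ := h2
    have b' := b.cj w⁻¹
    rw [cj_inf, cj_inv_cj] at b'
    have e : w * (w⁻¹ * x * w⁻¹⁻¹) = x * w := by group
    refine ⟨_, hw.step (mem_sylowMembers.2 ⟨h1 X a w⁻¹, b'⟩) (conj_mem_cj (g := w⁻¹) hx) ?_,
      by rw [e, cj_cj]⟩
    rintro _ ⟨u, hu, rfl⟩
    rw [e]
    refine ⟨mem_cj.1 (cj_cj x w S ▸ c (hA hu)), mem_cj.2 ?_⟩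
    have := X.mul_mem (X.mul_mem (X.inv_mem hx) (d (hA hu))) hx
    simpa [mul_assoc] using this

theorem Fus.ch (h1 : ∀ X ∈ 𝓕, ∀ g, cj g X ∈ 𝓕) (hA : A ≤ S) {w : G} (h : Fus p 𝓕 S A w) :
    A ≤ cj w S ∧ Ch p 𝓕 A S (cj w S) := by
  induction h with
  | one => rw [cj_one]; exact ⟨hA, ReflTransGen.refl⟩
  | @step w y Y _ a b c ih =>
    rw [mem_sylowMembers] at a
    have e : cj (w * y) Y = cj w Y := by rw [← cj_cj, cj_eq_self_of_mem b]
    have l : A ≤ cj (w * y) S := fun u hu => mem_cj.2 (c ⟨u, hu, rfl⟩).1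
    refine ⟨l, ih.2.tail ⟨cj w Y, h1 Y a.1 w, ?_, ?_, ⟨_, conj_mem_cj b, ?_⟩, ih.1, l, ?_⟩⟩
    · rw [← cj_inf]; exact a.2.cj w
    · rw [← e, ← cj_inf]; exact a.2.cj _
    · rw [cj_cj, inv_mul_cancel_right]
    · rw [← e]; exact fun u hu => mem_cj.2 (c ⟨u, hu, rfl⟩).2

theorem ctl_iff_fusion (h : IsNormalSet 𝓕) : Ctl p 𝓕 ⊤ ↔ FamilyStronglyControlsFusion p 𝓕 := by
  have h1 := normalSet_cj h
  constructor
  · rintro hc S A g hA ⟨a, ha, a1⟩ hg
    have l : A ⊆ ((S : Subgroup G) ⊓ cj g S : Subgroup G) :=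
      fun u hu => ⟨hA hu, mem_cj.2 (hg ⟨u, hu, rfl⟩)⟩
    obtain ⟨w, hw, e⟩ := (hc _ _ (isSyl_sylow S) ((isSyl_sylow S).cj_of_mem (g := g) trivial)
      fun k => a1 (mem_bot.1 (k ▸ l ha))).fus h1 l
    obtain ⟨n, Y, y, a, b, c⟩ := fus_iff.1 hw
    refine ⟨n, Y, y, w⁻¹ * g, ?_, a, by rw [← b, mul_inv_cancel_left], c⟩
    rw [← cj_eq_self_iff, ← cj_cj, ← e, cj_inv_cj]
  · intro hc S T hS hT hne
    obtain ⟨g, -, rfl⟩ := hS.exists_cj_eq hT
    obtain ⟨S, rfl⟩ := isSyl_top_iff.1 hS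
    obtain ⟨⟨a, ha⟩, a1⟩ := (Subgroup.ne_bot_iff_exists_ne_one).1 hne
    obtain ⟨n, Y, y, y₀, h0, a, b, c⟩ := hc S ((S : Subgroup G) ⊓ cj g S : Subgroup G) g
      (fun u hu => hu.1) ⟨a, ha, fun k => a1 (Subtype.ext k)⟩
      (by rintro _ ⟨u, hu, rfl⟩; exact mem_cj.1 hu.2)
    have := (Fus.ch h1 inf_le_left (fus_iff.2 ⟨n, Y, y, a, rfl, c⟩)).2
    have e : cj (List.ofFn y).prod (S : Subgroup G) = cj g S := by
      rw [b, ← cj_cj, cj_eq_self h0]
    rwa [e] at this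

end H52.SC
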