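/- VC tower, job ARB: the counting inequality for odd order. -/
import Cfsg.Agent.H91.VCSpec

set_option autoImplicit false

namespace H52.VCARB

theorem pw {a q i n : ℕ} (h : a ≤ q) (hi : i ≤ n) : a ^ n * q ^ i ≤ q ^ n * a ^ i := by
  obtain ⟨k, rfl⟩ := Nat.exists_eq_add_of_le hi
  calc a ^ (i + k) * q ^ i = a ^ i * q ^ i * a ^ k := by ring
    _ ≤ a ^ i * q ^ i * q ^ k := Nat.mul_le_mul_left _ (Nat.pow_le_pow_left h k)
    _ = q ^ (i + k) * a ^ i := by ring

theorem mono {a q n b b' c T T' : ℕ} (h : a ≤ q) (hq : 0 < q) (hT : T ≤ T') (hb : b ≤ b') (hb' : b' ≤ n)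
    (hc : c ≤ n) (k : T' * (a ^ b' + n * a ^ c) + 2 < 2 * a ^ n) :
    T * (q ^ b + n * q ^ c) + 2 < 2 * q ^ n := by
  refine lt_of_le_of_lt (b := T' * (q ^ b' + n * q ^ c) + 2) (by gcongr) ?_
  refine Nat.lt_of_mul_lt_mul_left (a := a ^ n) ?_
  have h1 := pw h hb'
  have h2 := pw h hc
  have h3 := Nat.pow_le_pow_left h n
  calc a ^ n * (T' * (q ^ b' + n * q ^ c) + 2)
      = T' * (a ^ n * q ^ b' + n * (a ^ n * q ^ c)) + 2 * a ^ n := by ring
    _ ≤ T' * (q ^ n * a ^ b' + n * (q ^ n * a ^ c)) + 2 * q ^ n := by gcongr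
    _ = q ^ n * (T' * (a ^ b' + n * a ^ c) + 2) := by ring
    _ < q ^ n * (2 * a ^ n) := Nat.mul_lt_mul_of_pos_left k (by positivity)
    _ = a ^ n * (2 * q ^ n) := by ring

theorem g6 (d : ℕ) (h : 11 ≤ d) : (3 * d) ^ 6 < 7 ^ d := by
  induction d, h using Nat.le_induction with
  | base => norm_num
  | succ d h ih =>
    have := Nat.pow_le_pow_left (show 3 * (d + 1) * 11 ≤ 3 * d * 12 by omega) 6
    rw [mul_pow _ 11, mul_pow _ 12] at this
    rw [pow_succ 7]
    omega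

theorem g7 (d : ℕ) (h : 17 ≤ d) : (2 * d) ^ 7 + 2 ≤ 7 ^ d := by
  induction d, h using Nat.le_induction with
  | base => norm_num
  | succ d h ih =>
    have := Nat.pow_le_pow_left (show 2 * (d + 1) * 17 ≤ 2 * d * 18 by omega) 7
    rw [mul_pow _ 17, mul_pow _ 18] at this
    rw [pow_succ 7]
    omega

theorem big {n : ℕ} (h : 33 ≤ n) :
    n ^ 6 * (7 ^ ((n + n / 3) / 2) + n * 7 ^ (n / 2)) + 2 < 2 * 7 ^ n := by
  obtain ⟨d, hd⟩ := Nat.exists_eq_add_of_le (show (n + n / 3) / 2 ≤ n by omega)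
  obtain ⟨c, hc⟩ := Nat.exists_eq_add_of_le (show n / 2 ≤ n by omega)
  have h1 : n ^ 6 < 7 ^ d := (Nat.pow_le_pow_left (by omega) 6).trans_lt (g6 d (by omega))
  have h2 : n ^ 7 + 2 ≤ 7 ^ c := (Nat.add_le_add_right (Nat.pow_le_pow_left (by omega) 7) 2).trans
    (g7 c (by omega))
  have e1 : 7 ^ n = 7 ^ ((n + n / 3) / 2) * 7 ^ d := by rw [← pow_add, ← hd]
  have e2 : 7 ^ n = 7 ^ (n / 2) * 7 ^ c := by rw [← pow_add, ← hc]
  have p1 : 0 < 7 ^ ((n + n / 3) / 2) := by positivity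
  have p2 : 0 < 7 ^ (n / 2) := by positivity
  have k1 := Nat.mul_lt_mul_of_pos_left h1 p1
  have k2 := Nat.mul_le_mul_left (7 ^ (n / 2)) h2
  rw [← e1] at k1
  rw [← e2] at k2
  calc n ^ 6 * (7 ^ ((n + n / 3) / 2) + n * 7 ^ (n / 2)) + 2
      = 7 ^ ((n + n / 3) / 2) * n ^ 6 + (7 ^ (n / 2) * n ^ 7 + 2) := by ring
    _ < 7 ^ n + 7 ^ n := Nat.add_lt_add_of_lt_of_le k1 (le_trans (by nlinarith) k2)
    _ = 2 * 7 ^ n := by ring

theorem fin {q e n T : ℕ} (a T0 r : ℕ) (hq : a ≤ q) (h0 : 0 < q) (hT : T ≤ T0) (hr : (e * e).minFac = r)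
    (hn : n < 33) (he : e ≤ n) (h : ∀ n < 33, e ≤ n →
      (T0 - 1) * (a ^ ((n + n / r) / 2) + n * a ^ (n / 2)) + 2 < 2 * a ^ n) :
    (T - 1) * (q ^ ((n + n / (e * e).minFac) / 2) + n * q ^ (n / 2)) + 2 < 2 * q ^ n := by
  have := Nat.div_le_self n r
  exact mono hq h0 (by omega) (by rw [hr]) (by omega) (by omega) (h n hn he)

theorem jobARB : H91.VC.JobARB := by
  intro q e n T h2 oq e2 oe en hp hT h3 h5 h7 h9 h27
  have lb : ∀ m, m % 2 = 1 → m ∣ q - 1 → 2 * m + 1 ≤ q := fun m hm hd => by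
    have : 2 * m ∣ q - 1 := Nat.Coprime.mul_dvd_of_dvd_of_dvd
      (Nat.coprime_two_left.2 (Nat.odd_iff.2 hm)) (by obtain ⟨k, rfl⟩ := oq; simp) hd
    have := Nat.le_of_dvd (by omega) this
    omega
  have lp : ∀ r : ℕ, r.Prime → r ∣ e → 2 * r + 1 ≤ q := fun r hr hd =>
    lb r (Nat.odd_iff.1 (oe.of_dvd_nat hd)) (hp r hr hd)
  have h0 : 0 < q := by omega
  by_cases hn : 33 ≤ n
  · have pr : (e * e).minFac.Prime := Nat.minFac_prime (by nlinarith)
    have dv : (e * e).minFac ∣ e := pr.dvd_of_dvd_pow (n := 2) (by rw [pow_two]; exact Nat.minFac_dvd _)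
    have r3 : 3 ≤ (e * e).minFac := by
      have := Nat.odd_iff.1 (oe.of_dvd_nat dv)
      have := pr.two_le
      omega
    have := lp _ pr dv
    have d := Nat.div_le_div_left (a := n) r3 (by norm_num)
    refine mono (a := 7) (by omega) h0 ?_ (by omega) (by omega) (by omega) (big hn)
    calc T - 1 ≤ (e * e) ^ 3 := by omega
      _ = e ^ 6 := by ring
      _ ≤ n ^ 6 := Nat.pow_le_pow_left en 6
  · rw [not_le] at hn
    have oe' := Nat.odd_iff.1 oe
    have : e = 3 ∨ e = 5 ∨ e = 7 ∨ e = 9 ∨ e = 11 ∨ e = 13 ∨ e = 15 ∨ e = 17 ∨ e = 19 ∨ e = 21 ∨ e = 23 ∨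
      e = 25 ∨ e = 27 ∨ e = 29 ∨ e = 31 := by omega
    rcases this with rfl | rfl | rfl | rfl | rfl | rfl | rfl | rfl | rfl | rfl | rfl | rfl | rfl | rfl | rfl
    · exact fin _ _ 3 (lp 3 (by norm_num) (by norm_num)) h0 (h3 rfl) (by norm_num) hn en (by decide +kernel)
    · exact fin _ _ 5 (lp 5 (by norm_num) (by norm_num)) h0 (h5 rfl) (by norm_num) hn en (by decide +kernel)
    · exact fin _ _ 7 (lp 7 (by norm_num) (by norm_num)) h0 (h7 rfl) (by norm_num) hn en (by decide +kernel)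
    · exact fin _ _ 3 (lp 3 (by norm_num) (by norm_num)) h0 (h9 rfl) (by norm_num) hn en (by decide +kernel)
    · exact fin _ _ 11 (lp 11 (by norm_num) (by norm_num)) h0 hT (by norm_num) hn en (by decide +kernel)
    · exact fin _ _ 13 (lp 13 (by norm_num) (by norm_num)) h0 hT (by norm_num) hn en (by decide +kernel)
    · exact fin _ _ 3 (lb 15 rfl (Nat.Coprime.mul_dvd_of_dvd_of_dvd (m := 3) (n := 5) (by norm_num)
        (hp 3 (by norm_num) (by norm_num)) (hp 5 (by norm_num) (by norm_num)))) h0 hT (by norm_num) hn en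
        (by decide +kernel)
    · exact fin _ _ 17 (lp 17 (by norm_num) (by norm_num)) h0 hT (by norm_num) hn en (by decide +kernel)
    · exact fin _ _ 19 (lp 19 (by norm_num) (by norm_num)) h0 hT (by norm_num) hn en (by decide +kernel)
    · exact fin _ _ 3 (lp 7 (by norm_num) (by norm_num)) h0 hT (by norm_num) hn en (by decide +kernel)
    · exact fin _ _ 23 (lp 23 (by norm_num) (by norm_num)) h0 hT (by norm_num) hn en (by decide +kernel)
    · exact fin _ _ 5 (lp 5 (by norm_num) (by norm_num)) h0 hT (by norm_num) hn en (by decide +kernel)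
    · exact fin _ _ 3 (lp 3 (by norm_num) (by norm_num)) h0 (h27 rfl) (by norm_num) hn en (by decide +kernel)
    · exact fin _ _ 29 (lp 29 (by norm_num) (by norm_num)) h0 hT (by norm_num) hn en (by decide +kernel)
    · exact fin _ _ 31 (lp 31 (by norm_num) (by norm_num)) h0 hT (by norm_num) hn en (by decide +kernel)

end H52.VCARB
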